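/-
Helper library of seat helper74: groups of order `p^a q^b r^c` with `a ≤ 2` have a nonprincipal
irreducible character of `q`-power degree (statement S4500).
If `G` is not perfect a linear character serves.  Otherwise `p ∣ |G|` (Burnside), every character
of the principal `p`-block has degree prime to `p` (heights are zero for defect `≤ 2`), and weak
block orthogonality `∑_{χ ∈ B₀} χ(1) conj χ(y) = 0` for `y` of order `p` forbids `r ∣ χ(1)` for
all nonprincipal `χ ∈ B₀`.
-/
import Cfsg.Agent.Helper79.Linear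
import Cfsg.Agent.Helper79.Codegree
import Cfsg.Agent.Helper3.Burnside2
import Cfsg.Agent.Helper78.Counting
import Cfsg.Agent.Helper77.PrincipalDefect
import Cfsg.Agent.Helper77.PRegular
import Cfsg.Agent.Helper73.BrauerFeit2
import Cfsg.Agent.Helper76.CharInt

set_option autoImplicit false

namespace Cfsg.Agent.Helper74

open Cfsg
open scoped ComplexConjugate

section TriPrime

universe u

variable {G : Type u} [Group G] [Finite G]

theorem tri_exists_qpow [Nontrivial G] (p q r a b c : ℕ) (hp : p.Prime) (hq : q.Prime)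
    (hr : r.Prime) (hpq : p ≠ q) (hpr : p ≠ r) (ha : a ≤ 2)
    (hG : Nat.card G = p ^ a * q ^ b * r ^ c) :
    ∃ χ : IrrCharacter G, (χ : G → ℂ) ≠ (fun _ => 1) ∧
      ∃ k : ℕ, charDegree (χ : G → ℂ) = q ^ k := by
  classical
  haveI := Fintype.ofFinite G
  haveI : Fintype (IrrCharacter G) := Fintype.ofFinite _
  by_cases hperf : commutator G = ⊤
  swap
  · have h1 : 1 < Nat.card {χ : IrrCharacter G // charDegree (χ : G → ℂ) = 1} := by
      rw [Helper79.card_linear_irr]
      have h2 : (commutator G).index ≠ 1 := fun h => hperf (Subgroup.index_eq_one.mp h)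
      have h3 : (commutator G).index ≠ 0 := Subgroup.index_ne_zero_of_finite
      omega
    haveI : Nontrivial {χ : IrrCharacter G // charDegree (χ : G → ℂ) = 1} :=
      Finite.one_lt_card_iff_nontrivial.mp h1
    obtain ⟨χ₁, χ₂, hne⟩ := exists_pair_ne {χ : IrrCharacter G // charDegree (χ : G → ℂ) = 1}
    by_cases h : (χ₁.1 : G → ℂ) = fun _ => 1
    · refine ⟨χ₂.1, ?_, 0, by rw [χ₂.2, pow_zero]⟩
      intro h'
      apply hne
      apply Subtype.ext
      apply Subtype.ext
      rw [h, h']
    · exact ⟨χ₁.1, h, 0, by rw [χ₁.2, pow_zero]⟩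
  · have hapos : 0 < a := by
      by_contra h0
      have ha0 : a = 0 := by omega
      subst ha0
      rw [pow_zero, one_mul] at hG
      have hsolv := Helper3.isSolvable_of_card_eq q r b c hq hr hG
      obtain ⟨n, hn⟩ := hsolv.solvable
      have h1 : ∀ k, derivedSeries G k = ⊤ := by
        intro k
        induction k with
        | zero => rfl
        | succ k ih =>
          rw [derivedSeries_succ, ih]
          exact hperf
      rw [h1 n] at hn
      exact top_ne_bot hn
    have hpG : p ∣ Nat.card G := by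
      rw [hG]
      exact dvd_mul_of_dvd_left (dvd_mul_of_dvd_left (dvd_pow_self p hapos.ne') _) _
    haveI : Fact p.Prime := ⟨hp⟩
    obtain ⟨y, hy⟩ := exists_prime_orderOf_dvd_card' p hpG
    obtain ⟨M, hM⟩ := Helper78.exists_isPModular p hp
    obtain ⟨B, hBdef⟩ : ∃ B : Set (IrrCharacter G), B = principalBlock M G := ⟨_, rfl⟩
    have hB : IsPBlock M B := by rw [hBdef]; exact Helper77.principalBlock_isPBlock M
    have htriv : Helper80.trivIrr G ∈ B := by
      rw [hBdef]; exact Helper77.trivIrr_mem_principalBlock hM.2.1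
    have hsInf : sInf ((fun χ : IrrCharacter G =>
        (charDegree (χ : G → ℂ)).factorization p) '' B) = 0 := by
      apply Nat.eq_zero_of_le_zero
      apply Nat.sInf_le
      refine ⟨Helper80.trivIrr G, htriv, ?_⟩
      have : charDegree ((Helper80.trivIrr G : IrrCharacter G) : G → ℂ) = 1 := by
        simp [charDegree]
      simp [this]
    have hfac : (Nat.card G).factorization p = a := by
      rw [hG, Nat.factorization_mul (mul_ne_zero (pow_ne_zero _ hp.ne_zero)
        (pow_ne_zero _ hq.ne_zero)) (pow_ne_zero _ hr.ne_zero),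
        Nat.factorization_mul (pow_ne_zero _ hp.ne_zero) (pow_ne_zero _ hq.ne_zero)]
      simp [Nat.factorization_pow, hp.factorization_self, Nat.factorization_eq_zero_of_not_dvd,
        (Nat.prime_dvd_prime_iff_eq hp hq).not.mpr hpq,
        (Nat.prime_dvd_prime_iff_eq hp hr).not.mpr hpr]
    have hdef : blockDefect p B = a := by
      unfold blockDefect
      rw [hsInf, Nat.sub_zero, hfac]
    have hdeg_pos : ∀ χ : IrrCharacter G, charDegree (χ : G → ℂ) ≠ 0 := by
      intro χ h0
      have := Helper80.irr_one_ne_zero χ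
      rw [Helper80.irr_one_eq, h0] at this
      exact this (by simp)
    have hht : ∀ χ ∈ B, ¬ p ∣ charDegree (χ : G → ℂ) := by
      intro χ hχ hdvd
      have hpos : 0 < blockHeight p B (χ : G → ℂ) := by
        unfold blockHeight
        rw [hsInf, Nat.sub_zero]
        exact Nat.Prime.factorization_pos_of_dvd hp (hdeg_pos χ) hdvd
      have h2 := Helper73.height_add_two_le hM hB hχ hpos
      omega
    have horth := Helper77.weak_block_orthogonality' hM hB (x := 1) (y := y)
      (by rw [orderOf_one]; exact fun h => hp.one_lt.ne' (Nat.dvd_one.mp h)) (by rw [hy])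
    by_contra hcon
    push Not at hcon
    have hr_dvd : ∀ χ ∈ B, (χ : G → ℂ) ≠ (fun _ => 1) → r ∣ charDegree (χ : G → ℂ) := by
      intro χ hχ hne
      by_contra hnr
      have h1 := Helper79.irr_charDegree_dvd_card χ
      rw [hG] at h1
      have h2 : (charDegree (χ : G → ℂ)).Coprime (p ^ a) :=
        Nat.Coprime.pow_right _ ((Nat.Prime.coprime_iff_not_dvd hp).mpr (hht χ hχ)).symm
      have h3 : (charDegree (χ : G → ℂ)).Coprime (r ^ c) :=
        Nat.Coprime.pow_right _ ((Nat.Prime.coprime_iff_not_dvd hr).mpr hnr).symm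
      have h4 : charDegree (χ : G → ℂ) ∣ p ^ a * q ^ b := (Nat.Coprime.dvd_mul_right h3).mp h1
      have h5 : charDegree (χ : G → ℂ) ∣ q ^ b := (Nat.Coprime.dvd_mul_left h2).mp h4
      obtain ⟨k, -, hk⟩ := (Nat.dvd_prime_pow hq).mp h5
      exact hcon χ hne k hk
    -- split the orthogonality sum
    obtain ⟨w, hw⟩ : ∃ w : ℂ, w = ∑ χ : IrrCharacter G,
        (if χ ∈ B ∧ χ ≠ Helper80.trivIrr G then
          ((charDegree (χ : G → ℂ) / r : ℕ) : ℂ) * conj ((χ : G → ℂ) y) else 0) := ⟨_, rfl⟩
    have hwint : IsIntegral ℤ w := by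
      rw [hw]
      apply IsIntegral.sum
      intro χ _
      split_ifs
      · exact IsIntegral.mul isIntegral_algebraMap
          (Helper80.isCharacter_isIntegral
            (Helper79.isCharacter_conj (Helper79.irr_isCharacter χ)) y)
      · exact isIntegral_zero
    have hterm : ∀ χ : IrrCharacter G,
        (if χ ∈ B then (χ : G → ℂ) 1 * conj ((χ : G → ℂ) y) else 0) =
        (if χ = Helper80.trivIrr G then (1 : ℂ) else 0) + (r : ℂ) *
          (if χ ∈ B ∧ χ ≠ Helper80.trivIrr G then
            ((charDegree (χ : G → ℂ) / r : ℕ) : ℂ) * conj ((χ : G → ℂ) y) else 0) := by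
      intro χ
      by_cases h1 : χ = Helper80.trivIrr G
      · subst h1
        rw [if_pos htriv, if_pos rfl, if_neg (fun h => h.2 rfl)]
        simp
      · by_cases h2 : χ ∈ B
        · rw [if_pos h2, if_neg h1, if_pos ⟨h2, h1⟩, zero_add, Helper80.irr_one_eq,
            ← mul_assoc]
          congr 1
          have h3 : r ∣ charDegree (χ : G → ℂ) := hr_dvd χ h2 (fun h => h1 (Subtype.ext h))
          rw [← Nat.cast_mul, Nat.mul_div_cancel' h3]
        · rw [if_neg h2, if_neg h1, if_neg (fun h => h2 h.1)]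
          simp
    rw [Finset.sum_congr rfl (fun χ _ => hterm χ), Finset.sum_add_distrib,
      Finset.sum_ite_eq' Finset.univ (Helper80.trivIrr G) (fun _ => (1 : ℂ)),
      if_pos (Finset.mem_univ _), ← Finset.mul_sum, ← hw] at horth
    have h6 : ((1 : ℕ) : ℂ) = (r : ℂ) * (-w) := by
      push_cast
      linear_combination horth
    have h7 := Helper76.dvd_of_natCast_eq_mul_isIntegral 1 r hr.ne_zero (-w) hwint.neg h6
    exact hr.one_lt.ne' (Nat.dvd_one.mp h7)

/-- Statement S4500. -/
theorem tri_exists_both [Nontrivial G] (p q r a b c : ℕ) (hp : p.Prime) (hq : q.Prime)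
    (hr : r.Prime) (hpq : p ≠ q) (hpr : p ≠ r) (ha : a ≤ 2)
    (hG : Nat.card G = p ^ a * q ^ b * r ^ c) :
    (∃ χ : IrrCharacter G, (χ : G → ℂ) ≠ (fun _ => 1) ∧
      ∃ k : ℕ, charDegree (χ : G → ℂ) = q ^ k) ∧
    ∃ χ : IrrCharacter G, (χ : G → ℂ) ≠ (fun _ => 1) ∧
      ∃ k : ℕ, charDegree (χ : G → ℂ) = r ^ k :=
  ⟨tri_exists_qpow p q r a b c hp hq hr hpq hpr ha hG,
    tri_exists_qpow p r q a c b hp hr hq hpr hpq ha (by rw [hG]; ring)⟩

end TriPrime

end Cfsg.Agent.Helper74
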