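import Mathlib
import Cfsg.Agent.Helper74.CGMCNT

/-!
Piece SELF of CALL S3413 (helper52): if `p ∥ |G|`, `|N(P)| = p m` with `p ∤ m`, and `G` has no
element of order `p r` for the primes `r ∣ m`, then every `g ≠ 1` with `p ∣ |C(g)|` has
`|C(g)| = p`.
-/

set_option autoImplicit false

namespace Cfsg.Agent.Helper74

open Subgroup

/-- SELF -/
theorem cgm_centralizer_card_prime {G : Type*} [Group G] [Finite G] (p : ℕ) [Fact p.Prime]
    (hp : p ∣ Nat.card G) (hp2 : ¬ p ^ 2 ∣ Nat.card G) (m : ℕ) (hpm : ¬ p ∣ m)
    (hN : ∀ P : Sylow p G, Nat.card ↥(normalizer ((P : Subgroup G) : Set G)) = p * m)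
    (hno : ∀ r : ℕ, r.Prime → r ∣ m → ∀ g : G, orderOf g ≠ p * r)
    (g : G) (hg : g ≠ 1) (hdvd : p ∣ Nat.card ↥(centralizer ({g} : Set G))) :
    Nat.card ↥(centralizer ({g} : Set G)) = p := by
  have hpp : p.Prime := Fact.out
  -- an element `y` of order `p` commuting with `g`
  obtain ⟨y', hy'⟩ := exists_prime_orderOf_dvd_card' p hdvd
  obtain ⟨y, hyC, hy⟩ : ∃ y : G, y ∈ centralizer ({g} : Set G) ∧ orderOf y = p :=
    ⟨(y' : G), y'.2, by rw [Subgroup.orderOf_coe]; exact hy'⟩
  have hgy : g * y = y * g := (mem_centralizer_iff.mp hyC) g (Set.mem_singleton g)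
  have hy1 : y ≠ 1 := by
    rintro rfl
    rw [orderOf_one] at hy
    exact hpp.one_lt.ne hy
  -- `zpowers y` is a Sylow subgroup
  obtain ⟨P, hP⟩ := (IsPGroup.of_card (n := 1) (by rw [Nat.card_zpowers, hy, pow_one]) :
    IsPGroup p (zpowers y)).exists_le_sylow
  have hPy : (P : Subgroup G) = zpowers y :=
    cgmcnt_sylow_eq_zpowers p hp hp2 P (hP (mem_zpowers y)) hy1
  -- the centraliser of `y`
  have hcomm : ∀ c ∈ centralizer ({y} : Set G), ∀ h ∈ zpowers y, c * h = h * c := by
    intro c hc h hh
    obtain ⟨k, rfl⟩ := mem_zpowers_iff.mp hh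
    have h1 : y * c = c * y := (mem_centralizer_iff.mp hc) y (Set.mem_singleton y)
    exact ((Commute.zpow_right (show Commute c y from h1.symm) k).eq)
  have hCN : centralizer ({y} : Set G) ≤ normalizer ((P : Subgroup G) : Set G) := by
    intro c hc
    rw [hPy, mem_normalizer_iff]
    intro h
    constructor
    · intro hh
      rw [hcomm c hc h hh, mul_inv_cancel_right]
      exact hh
    · intro hh
      have h1 := hcomm c hc _ hh
      have h2 : h = c * h * c⁻¹ := by
        have h3 : c * (c * h * c⁻¹) = c * h := by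
          rw [h1]
          group
        exact (mul_left_cancel h3).symm
      rw [h2]
      exact hh
  have hzC : zpowers y ≤ centralizer ({y} : Set G) := by
    rw [zpowers_le, mem_centralizer_iff]
    intro h hh
    rw [Set.mem_singleton_iff.mp hh]
  have hpC : p ∣ Nat.card ↥(centralizer ({y} : Set G)) := by
    have := Subgroup.card_dvd_of_le hzC
    rwa [Nat.card_zpowers, hy] at this
  have hCdvd : Nat.card ↥(centralizer ({y} : Set G)) ∣ p * m := by
    have := Subgroup.card_dvd_of_le hCN
    rwa [hN P] at this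
  have hCy : Nat.card ↥(centralizer ({y} : Set G)) = p := by
    obtain ⟨k, hk⟩ := hpC
    have hkm : k ∣ m := by
      rw [hk] at hCdvd
      exact (Nat.mul_dvd_mul_iff_left hpp.pos).mp hCdvd
    by_cases hk1 : k = 1
    · rw [hk, hk1, mul_one]
    · exfalso
      obtain ⟨r, hr, hrk⟩ := Nat.exists_prime_and_dvd hk1
      have hrm : r ∣ m := hrk.trans hkm
      have hrp : r ≠ p := by
        rintro rfl
        exact hpm hrm
      haveI : Fact r.Prime := ⟨hr⟩
      have hrC : r ∣ Nat.card ↥(centralizer ({y} : Set G)) := by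
        rw [hk]
        exact hrk.mul_left p
      obtain ⟨z', hz'⟩ := exists_prime_orderOf_dvd_card' r hrC
      have hz : orderOf (z' : G) = r := by rw [Subgroup.orderOf_coe]; exact hz'
      have hyz : Commute y (z' : G) := (mem_centralizer_iff.mp z'.2) y (Set.mem_singleton y)
      have hco : (orderOf y).Coprime (orderOf (z' : G)) := by
        rw [hy, hz]
        exact (Nat.coprime_primes hpp hr).mpr (Ne.symm hrp)
      have hord := hyz.orderOf_mul_eq_mul_orderOf_of_coprime hco
      rw [hy, hz] at hord
      exact hno r hr hrm _ hord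
  have hCeq : zpowers y = centralizer ({y} : Set G) := by
    apply Subgroup.eq_of_le_of_card_ge hzC
    rw [hCy, Nat.card_zpowers, hy]
  -- `g` generates the same subgroup
  have hgz : g ∈ zpowers y := by
    rw [hCeq, mem_centralizer_iff]
    intro h hh
    rw [Set.mem_singleton_iff.mp hh]
    exact hgy.symm
  have hgP : g ∈ (P : Subgroup G) := by rw [hPy]; exact hgz
  have hPg : (P : Subgroup G) = zpowers g := cgmcnt_sylow_eq_zpowers p hp hp2 P hgP hg
  have hyg : y ∈ zpowers g := by
    rw [← hPg, hPy]
    exact mem_zpowers y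
  have hCC : centralizer ({g} : Set G) = centralizer ({y} : Set G) := by
    apply le_antisymm
    · intro x hx
      rw [mem_centralizer_iff]
      intro h hh
      rw [Set.mem_singleton_iff.mp hh]
      obtain ⟨k, rfl⟩ := mem_zpowers_iff.mp hyg
      have h1 : g * x = x * g := (mem_centralizer_iff.mp hx) g (Set.mem_singleton g)
      exact ((Commute.zpow_left (show Commute g x from h1) k).eq)
    · intro x hx
      rw [mem_centralizer_iff]
      intro h hh
      rw [Set.mem_singleton_iff.mp hh]
      obtain ⟨k, rfl⟩ := mem_zpowers_iff.mp hgz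
      have h1 : y * x = x * y := (mem_centralizer_iff.mp hx) y (Set.mem_singleton y)
      exact ((Commute.zpow_left (show Commute y x from h1) k).eq)
  rw [hCC, hCy]

end Cfsg.Agent.Helper74
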