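import Mathlib

set_option autoImplicit false

/-! CALL LM (S4067), piece EA: a central element of order `p` outside `G'` gives a central
automorphism moving every element outside an index-`p` subgroup to a non-conjugate one. -/

namespace Cfsg.Agent.Helper74.LM

open scoped commutatorElement

theorem lm_ea {G : Type*} [Group G] [Finite G] (hZ : commutator G ≤ Subgroup.center G)
    (hc : Nat.card (commutator G) = (Nat.card G).minFac) (hna : ¬ IsMulCommutative G)
    (c : G) (hcZ : c ∈ Subgroup.center G) (hco : orderOf c = (Nat.card G).minFac)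
    (hcG : c ∉ commutator G) :
    ∃ σ : MulAut G, ∃ M : Subgroup G, M.index = (Nat.card G).minFac ∧ Subgroup.center G ≤ M ∧
      ∀ g : G, g ∉ M → ¬ IsConj g (σ g) := by
  classical
  have hG1 : Nat.card G ≠ 1 := by
    intro h1
    apply hna
    haveI : Subsingleton G := (Nat.card_eq_one_iff_unique.mp h1).1
    exact ⟨⟨fun a b => Subsingleton.elim _ _⟩⟩
  have hpp : (Nat.card G).minFac.Prime := Nat.minFac_prime hG1
  haveI : Fact (Nat.card G).minFac.Prime := ⟨hpp⟩
  obtain ⟨h, hh⟩ : ∃ h : G, h ∉ Subgroup.center G := by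
    by_contra hcon
    push Not at hcon
    apply hna
    exact ⟨⟨fun a b => (Subgroup.mem_center_iff.mp (hcon a) b).symm⟩⟩
  have hcomm_mem : ∀ g : G, ⁅g, h⁆ ∈ commutator G := fun g => by
    rw [commutator_def]
    exact Subgroup.commutator_mem_commutator (Subgroup.mem_top g) (Subgroup.mem_top h)
  have hcen : ∀ g : G, ∀ t : G, ⁅g, h⁆ * t = t * ⁅g, h⁆ := fun g t =>
    ((Subgroup.mem_center_iff.mp (hZ (hcomm_mem g))) t).symm
  have hmul : ∀ g₁ g₂ : G, ⁅g₁ * g₂, h⁆ = ⁅g₁, h⁆ * ⁅g₂, h⁆ := by
    intro g₁ g₂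
    have e1 := hcen g₂ g₁
    calc ⁅g₁ * g₂, h⁆ = g₁ * ⁅g₂, h⁆ * (h * g₁⁻¹ * h⁻¹) := by
          simp only [commutatorElement_def]; group
      _ = ⁅g₂, h⁆ * g₁ * (h * g₁⁻¹ * h⁻¹) := by rw [e1]
      _ = ⁅g₂, h⁆ * ⁅g₁, h⁆ := by simp only [commutatorElement_def]; group
      _ = ⁅g₁, h⁆ * ⁅g₂, h⁆ := hcen g₂ _
  let κ : G →* commutator G :=
    { toFun := fun g => ⟨⁅g, h⁆, hcomm_mem g⟩
      map_one' := by ext; simp
      map_mul' := fun g₁ g₂ => by ext; simpa using hmul g₁ g₂ }
  have hκ : ∀ g : G, ((κ g : commutator G) : G) = ⁅g, h⁆ := fun g => rfl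
  let e : commutator G ≃* Subgroup.zpowers c :=
    mulEquivOfPrimeCardEq hc (by rw [Nat.card_zpowers]; exact hco)
  let φ : G →* G := (Subgroup.zpowers c).subtype.comp (e.toMonoidHom.comp κ)
  have hφ : ∀ g : G, φ g = ((e (κ g) : Subgroup.zpowers c) : G) := fun g => rfl
  have hφc : ∀ g : G, φ g ∈ Subgroup.zpowers c := fun g => by rw [hφ]; exact (e (κ g)).2
  have hφZ : ∀ g : G, φ g ∈ Subgroup.center G := fun g =>
    (Subgroup.zpowers_le.mpr hcZ) (hφc g)
  have hφ1 : ∀ g : G, φ g = 1 ↔ ⁅g, h⁆ = 1 := by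
    intro g
    rw [hφ]
    constructor
    · intro h1
      have h2 : e (κ g) = 1 := Subtype.ext h1
      have h3 : κ g = 1 := by simpa using h2
      rw [← hκ, h3]; rfl
    · intro h1
      have h3 : κ g = 1 := Subtype.ext (by rw [hκ, h1]; rfl)
      rw [h3, map_one]; rfl
  have hker : ∀ g : G, g ∈ Subgroup.center G → φ g = 1 := by
    intro g hg
    rw [hφ1, commutatorElement_eq_one_iff_mul_comm]
    exact (Subgroup.mem_center_iff.mp hg h).symm
  let σ₀ : G →* G :=
    { toFun := fun g => g * φ g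
      map_one' := by simp
      map_mul' := fun a b => by
        have h1 := (Subgroup.mem_center_iff.mp (hφZ a)) b
        rw [map_mul]
        calc a * b * (φ a * φ b) = a * (b * φ a) * φ b := by group
          _ = a * (φ a * b) * φ b := by rw [h1]
          _ = a * φ a * (b * φ b) := by group }
  have hσ₀ : ∀ g : G, σ₀ g = g * φ g := fun g => rfl
  have hinj : Function.Injective σ₀ := by
    rw [injective_iff_map_eq_one]
    intro g hg
    rw [hσ₀] at hg
    have h1 : g = (φ g)⁻¹ := eq_inv_of_mul_eq_one_left hg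
    have h2 : g ∈ Subgroup.center G := by rw [h1]; exact inv_mem (hφZ g)
    have h3 := hker g h2
    rw [h3, mul_one] at hg
    exact hg
  have hbij : Function.Bijective σ₀ := Finite.injective_iff_bijective.mp hinj
  refine ⟨MulEquiv.ofBijective σ₀ hbij, φ.ker, ?_, ?_, ?_⟩
  · rw [Subgroup.index_ker]
    have hle : φ.range ≤ Subgroup.zpowers c := by
      rintro _ ⟨g, rfl⟩
      exact hφc g
    have hdvd : Nat.card φ.range ∣ (Nat.card G).minFac := by
      have := Subgroup.card_dvd_of_le hle
      rwa [Nat.card_zpowers, hco] at this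
    rcases (Nat.dvd_prime hpp).mp hdvd with h1 | h1
    · exfalso
      apply hh
      rw [Subgroup.mem_center_iff]
      intro g
      have h2 : φ g = 1 := by
        have h3 : (⟨φ g, ⟨g, rfl⟩⟩ : φ.range) = 1 := by
          haveI : Subsingleton φ.range := (Nat.card_eq_one_iff_unique.mp h1).1
          exact Subsingleton.elim _ _
        exact congrArg Subtype.val h3
      rw [hφ1, commutatorElement_eq_one_iff_mul_comm] at h2
      exact h2
    · exact h1
  · intro g hg
    rw [MonoidHom.mem_ker]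
    exact hker g hg
  · intro g hg hconj
    rw [MonoidHom.mem_ker] at hg
    have hσg : (MulEquiv.ofBijective σ₀ hbij) g = g * φ g := rfl
    rw [hσg, isConj_iff] at hconj
    obtain ⟨t, ht⟩ := hconj
    have hy : φ g = ⁅g⁻¹, t⁆ := by
      rw [commutatorElement_def, inv_inv]
      calc φ g = g⁻¹ * (g * φ g) := by group
        _ = g⁻¹ * (t * g * t⁻¹) := by rw [ht]
        _ = g⁻¹ * t * g * t⁻¹ := by group
    have hyG : φ g ∈ commutator G := by
      rw [hy, commutator_def]
      exact Subgroup.commutator_mem_commutator (Subgroup.mem_top _) (Subgroup.mem_top _)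
    have hle : Subgroup.zpowers (φ g) ≤ Subgroup.zpowers c := Subgroup.zpowers_le.mpr (hφc g)
    have hdvd : orderOf (φ g) ∣ (Nat.card G).minFac := by
      have := Subgroup.card_dvd_of_le hle
      rwa [Nat.card_zpowers, Nat.card_zpowers, hco] at this
    rcases (Nat.dvd_prime hpp).mp hdvd with h1 | h1
    · exact hg (orderOf_eq_one_iff.mp h1)
    · have heq : Subgroup.zpowers (φ g) = Subgroup.zpowers c := by
        apply Subgroup.eq_of_le_of_card_ge hle
        rw [Nat.card_zpowers, Nat.card_zpowers, hco, h1]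
      apply hcG
      have : c ∈ Subgroup.zpowers (φ g) := by rw [heq]; exact Subgroup.mem_zpowers c
      exact (Subgroup.zpowers_le.mpr hyG) this

end Cfsg.Agent.Helper74.LM
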