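import Mathlib
import Cfsg.Agent.Helper16.NGDefs
import Cfsg.Agent.S0100

/-! CALL S4404, piece CASE1: a subgroup of 3-rank at least 3 has an elementary abelian subgroup of
order 27 normalized by a given 3-element (via S0100 in a Sylow 3-subgroup). -/

set_option autoImplicit false

namespace Cfsg.Agent.Helper74.NGCASE1
open Cfsg.Agent.Helper16.NG

variable {S : Type*} [Group S]

/-- CASE1 (uses S0100) -/
theorem ng_case1 [Finite S] (H : Subgroup S) (x : S) (hxH : x ∈ H) (hx3 : ∃ k : ℕ, orderOf x = 3 ^ k)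
    (hrk : ¬ Cfsg.PRankLE 3 2 ↥H) :
    ∃ A : Subgroup S, A ≤ H ∧ Cfsg.IsElementaryAbelian 3 A ∧ Nat.card A = 3 ^ 3 ∧
      ∀ a ∈ A, x * a * x⁻¹ ∈ A := by
  classical
  haveI : Fact (Nat.Prime 3) := ⟨Nat.prime_three⟩
  unfold Cfsg.PRankLE at hrk
  push Not at hrk
  obtain ⟨A₀, hA₀c, hA₀e, hA₀card⟩ := hrk
  -- `A₀` is a 3-group, inside a Sylow 3-subgroup `Q` of `H`
  have hA₀p : IsPGroup 3 ↥A₀ := by
    intro a
    refine ⟨1, ?_⟩
    apply Subtype.ext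
    simpa using hA₀e a a.2
  obtain ⟨Q, hQ⟩ := hA₀p.exists_le_sylow
  -- `x` lies in a Sylow 3-subgroup `P` of `H`
  have hx'p : IsPGroup 3 ↥(Subgroup.zpowers (⟨x, hxH⟩ : ↥H)) := by
    obtain ⟨k, hk⟩ := hx3
    apply IsPGroup.of_card (n := k)
    rw [Nat.card_zpowers, ← hk]
    exact Subgroup.orderOf_mk x hxH
  obtain ⟨P, hP⟩ := hx'p.exists_le_sylow
  obtain ⟨g, hg⟩ := MulAction.exists_smul_eq ↥H Q P
  have hxP : (⟨x, hxH⟩ : ↥H) ∈ (P : Subgroup ↥H) := hP (Subgroup.mem_zpowers _)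
  rw [← hg, Sylow.coe_subgroup_smul, Subgroup.mem_pointwise_smul_iff_inv_smul_mem] at hxP
  have hyQ : g⁻¹ * (⟨x, hxH⟩ : ↥H) * g ∈ (Q : Subgroup ↥H) := by
    simpa [MulAut.smul_def] using hxP
  -- S0100 inside `Q`
  have hQp : IsPGroup 3 ↥(Q : Subgroup ↥H) := Q.isPGroup'
  have hex : ∃ A : Subgroup ↥(Q : Subgroup ↥H), A.Normal ∧ IsMulCommutative A ∧
      (∀ a ∈ A, a ^ 3 = 1) ∧ Nat.card A = 3 ^ 3 := by
    by_contra hcon
    push Not at hcon
    have hE := Cfsg.Agent.S0100.result (P := ↥(Q : Subgroup ↥H)) (p := 3) (by norm_num) hQp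
      (fun A hAn hAc hAe => hcon A hAn hAc hAe) (A₀.subgroupOf (Q : Subgroup ↥H)) inferInstance
      (by
        intro e he
        rw [Subgroup.mem_subgroupOf] at he
        apply Subtype.ext
        simpa using hA₀e (e : ↥H) he)
    rw [Nat.card_congr (Subgroup.subgroupOfEquivOfLe hQ).toEquiv] at hE
    omega
  obtain ⟨A, hAn, hAc, hAe, hAcard⟩ := hex
  -- transport `A` to `S` through `q ↦ g q g⁻¹`
  let f : ↥(Q : Subgroup ↥H) →* S :=
    H.subtype.comp ((MulAut.conj g).toMonoidHom.comp (Q : Subgroup ↥H).subtype)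
  have hf : Function.Injective f := by
    intro a b hab
    have h1 : (MulAut.conj g) (a : ↥H) = (MulAut.conj g) (b : ↥H) := Subtype.ext hab
    exact Subtype.ext ((MulAut.conj g).injective h1)
  have hfa : ∀ q : ↥(Q : Subgroup ↥H), f q = (g : S) * ((q : ↥H) : S) * (g : S)⁻¹ := by
    intro q
    simp [f, MulAut.conj_apply]
  refine ⟨A.map f, ?_, ⟨inferInstance, ?_⟩, ?_, ?_⟩
  · rintro _ ⟨q, -, rfl⟩
    exact ((MulAut.conj g) (q : ↥H)).2
  · rintro _ ⟨q, hq, rfl⟩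
    rw [← map_pow, hAe q hq, map_one]
  · rw [Subgroup.card_map_of_injective hf, hAcard]
  · rintro _ ⟨q, hq, rfl⟩
    have hn := hAn.conj_mem q hq ⟨g⁻¹ * (⟨x, hxH⟩ : ↥H) * g, hyQ⟩
    refine ⟨_, hn, ?_⟩
    rw [hfa, hfa]
    simp only [Subgroup.coe_mul, Subgroup.coe_inv, mul_inv_rev, inv_inv]
    group

end Cfsg.Agent.Helper74.NGCASE1
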