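-- helper74: piece NA of CALL S0977 (helper52): in a simple group of order 4320 with 40 Sylow
-- 3-subgroups, maximal Sylow 3-normalizer of order 108 and two Sylow 3-subgroups meeting in
-- order 9, a nonabelian Sylow 3-subgroup is impossible.
import Mathlib
import Cfsg.Agent.Helper9.OrdTools
import Cfsg.Agent.Helper8.SylFix
import Cfsg.Agent.Helper53.O4320NA1
import Cfsg.Agent.Helper66.O4320NA2

set_option autoImplicit false

namespace Cfsg.Agent.Helper74

variable {G : Type*} [Group G] [Finite G]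

theorem o4320_mem_normalizer {H : Subgroup G} {g : G} (h : ∀ a ∈ H, g * a * g⁻¹ ∈ H) :
    g ∈ Subgroup.normalizer (H : Set G) := by
  rw [Subgroup.mem_normalizer_iff]
  intro a
  refine ⟨h a, fun ha => ?_⟩
  let f : H → H := fun a => ⟨g * a * g⁻¹, h a a.2⟩
  have hinj : Function.Injective f := by
    intro a b hab
    have h1 : g * (a : G) * g⁻¹ = g * (b : G) * g⁻¹ := congrArg Subtype.val hab
    apply Subtype.ext
    simpa using h1
  obtain ⟨b, hb⟩ := (Finite.injective_iff_surjective.mp hinj) ⟨g * a * g⁻¹, ha⟩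
  have h1 : g * (b : G) * g⁻¹ = g * a * g⁻¹ := congrArg Subtype.val hb
  have h2 : (b : G) = a := by simpa using h1
  rw [← h2]
  exact b.2

theorem o4320_order_three (Z : Subgroup G) (hZ : Nat.card Z = 3) :
    ∃ z ∈ Z, z ≠ 1 ∧ z ^ 3 = 1 ∧ ∀ x ∈ Z, x = 1 ∨ x = z ∨ x = z⁻¹ := by
  classical
  haveI : Fintype Z := Fintype.ofFinite Z
  have hne : Z ≠ ⊥ := by
    intro h
    rw [h] at hZ
    simp at hZ
  obtain ⟨z, hz1⟩ := (Subgroup.ne_bot_iff_exists_ne_one).mp hne
  have hz3 : z ^ 3 = 1 := by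
    rw [← hZ]
    exact pow_card_eq_one'
  have hzi : z ≠ z⁻¹ := by
    intro h
    apply hz1
    have h2 : z * z = 1 := by
      nth_rewrite 2 [h]
      exact mul_inv_cancel z
    calc z = z ^ 3 * (z * z)⁻¹ := by group
      _ = 1 := by rw [hz3, h2]; simp
  have hcard : ({1, z, z⁻¹} : Finset Z).card = 3 := by
    rw [Finset.card_insert_of_notMem, Finset.card_insert_of_notMem, Finset.card_singleton]
    · simpa using hzi
    · simp only [Finset.mem_insert, Finset.mem_singleton, not_or]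
      refine ⟨fun h => hz1 h.symm, fun h => hz1 ?_⟩
      have := congrArg (fun t => t⁻¹) h
      simpa using this.symm
  have huniv : ({1, z, z⁻¹} : Finset Z) = Finset.univ :=
    Finset.eq_univ_of_card _ (by rw [hcard, ← Nat.card_eq_fintype_card, hZ])
  refine ⟨z, z.2, fun h => hz1 (Subtype.ext h), by exact_mod_cast congrArg Subtype.val hz3,
    fun x hx => ?_⟩
  have hmem := Finset.mem_univ (⟨x, hx⟩ : Z)
  rw [← huniv] at hmem
  simp only [Finset.mem_insert, Finset.mem_singleton] at hmem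
  rcases hmem with h | h | h
  · left
    exact congrArg Subtype.val h
  · right; left
    exact congrArg Subtype.val h
  · right; right
    have := congrArg Subtype.val h
    simpa using this

theorem o4320_eq_of_two_le {Z Z' S D : Subgroup G} (hZ : Nat.card Z = 3) (hZ' : Nat.card Z' = 3)
    (hne : Z ≠ Z') (hD : Nat.card D = 9) (hZS : Z ≤ S) (hZ'S : Z' ≤ S) (hSD : S ≤ D) :
    S = D := by
  have h1 : Nat.card S ∣ 9 := hD ▸ Subgroup.card_dvd_of_le hSD
  have h2 : 3 ∣ Nat.card S := hZ ▸ Subgroup.card_dvd_of_le hZS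
  have h3 : Nat.card S ≠ 3 := by
    intro h
    have e1 : Z = S := Subgroup.eq_of_le_of_card_ge hZS (by rw [h, hZ])
    have e2 : Z' = S := Subgroup.eq_of_le_of_card_ge hZ'S (by rw [h, hZ'])
    exact hne (e1.trans e2.symm)
  have h4 : Nat.card S = 9 := by
    obtain ⟨k, hk⟩ : ∃ k, Nat.card S = k := ⟨_, rfl⟩
    rw [hk] at h1 h2 h3 ⊢
    have : k ≤ 9 := Nat.le_of_dvd (by norm_num) h1
    interval_cases k <;> omega
  exact Subgroup.eq_of_le_of_card_ge hSD (by rw [h4, hD])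

theorem o4320_eq_of_lt {D C Q : Subgroup G} (hD : Nat.card D = 9) (hQ : Nat.card Q = 27)
    (hDC : D ≤ C) (hCQ : C ≤ Q) {u : G} (hu : u ∈ C) (huD : u ∉ D) : C = Q := by
  have h1 : Nat.card C ∣ 27 := hQ ▸ Subgroup.card_dvd_of_le hCQ
  have h2 : 9 ∣ Nat.card C := hD ▸ Subgroup.card_dvd_of_le hDC
  have h3 : Nat.card C ≠ 9 := by
    intro h
    have e1 : D = C := Subgroup.eq_of_le_of_card_ge hDC (by rw [h, hD])
    exact huD (e1 ▸ hu)
  have h4 : Nat.card C = 27 := by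
    obtain ⟨k, hk⟩ : ∃ k, Nat.card C = k := ⟨_, rfl⟩
    rw [hk] at h1 h2 h3 ⊢
    have : k ≤ 27 := Nat.le_of_dvd (by norm_num) h1
    interval_cases k <;> omega
  exact Subgroup.eq_of_le_of_card_ge hCQ (by rw [h4, hQ])

theorem o4320_comm_mem (Q : Subgroup G) (hQ : Nat.card Q = 27)
    (hN : Nat.card (Subgroup.normalizer (Q : Set G)) = 108) (a b : G)
    (ha : a ∈ Subgroup.normalizer (Q : Set G)) (hb : b ∈ Subgroup.normalizer (Q : Set G)) :
    a * b * a⁻¹ * b⁻¹ ∈ Q := by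
  haveI : Fact (Nat.Prime 2) := ⟨Nat.prime_two⟩
  have hcard : Nat.card (Subgroup.normalizer (Q : Set G) ⧸
      Q.subgroupOf (Subgroup.normalizer (Q : Set G))) = 2 ^ 2 := by
    have h1 := Subgroup.card_eq_card_quotient_mul_card_subgroup
      (Q.subgroupOf (Subgroup.normalizer (Q : Set G)))
    have h2 : Nat.card (Q.subgroupOf (Subgroup.normalizer (Q : Set G))) = 27 := by
      rw [Nat.card_congr (Subgroup.subgroupOfEquivOfLe Subgroup.le_normalizer).toEquiv, hQ]
    rw [hN, h2] at h1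
    omega
  have hcomm := IsPGroup.commutative_of_card_eq_prime_sq hcard
  have h3 : (((⟨a, ha⟩ * ⟨b, hb⟩ * ⟨a, ha⟩⁻¹ * ⟨b, hb⟩⁻¹ :
      Subgroup.normalizer (Q : Set G)) : Subgroup.normalizer (Q : Set G)) :
      Subgroup.normalizer (Q : Set G) ⧸ Q.subgroupOf (Subgroup.normalizer (Q : Set G))) = 1 := by
    rw [QuotientGroup.mk_mul, QuotientGroup.mk_mul, QuotientGroup.mk_mul, QuotientGroup.mk_inv,
      QuotientGroup.mk_inv, hcomm _ (QuotientGroup.mk ⟨b, hb⟩)]
    group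
  have h4 := (QuotientGroup.eq_one_iff _).mp h3
  rw [Subgroup.mem_subgroupOf] at h4
  exact h4

/-- Piece NA of CALL S0977. -/
theorem o4320_nonabelian [IsSimpleGroup G] (hG : Nat.card G = 4320) (Q Q' : Sylow 3 G)
    (hna : ¬ ∀ x ∈ (Q : Subgroup G), ∀ y ∈ (Q : Subgroup G), x * y = y * x)
    (hmax : ∀ K : Subgroup G, Subgroup.normalizer ((Q : Subgroup G) : Set G) ≤ K →
      K = Subgroup.normalizer ((Q : Subgroup G) : Set G) ∨ K = ⊤)
    (hN : Nat.card ↥(Subgroup.normalizer ((Q : Subgroup G) : Set G)) = 108)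
    (hQQ' : Q ≠ Q') (h9 : Nat.card ↥((Q : Subgroup G) ⊓ (Q' : Subgroup G)) = 9)
    (hmv : ∃ m ∈ Subgroup.normalizer ((Q : Subgroup G) : Set G),
      ∃ d ∈ (Q : Subgroup G) ⊓ (Q' : Subgroup G),
        m * d * m⁻¹ ∉ (Q : Subgroup G) ⊓ (Q' : Subgroup G)) : False := by
  haveI : Fact (Nat.Prime 3) := ⟨Nat.prime_three⟩
  have hQc : Nat.card (Q : Subgroup G) = 27 := by
    have := Helper9.OrdTools.sylow_card (p := 3) 3 160 (by rw [hG]; norm_num) (by norm_num) Q
    simpa using this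
  have hQ'c : Nat.card (Q' : Subgroup G) = 27 := by
    have := Helper9.OrdTools.sylow_card (p := 3) 3 160 (by rw [hG]; norm_num) (by norm_num) Q'
    simpa using this
  -- Q' is nonabelian
  have hna' : ¬ ∀ x ∈ (Q' : Subgroup G), ∀ y ∈ (Q' : Subgroup G), x * y = y * x := by
    intro hab
    apply hna
    obtain ⟨g, hg⟩ := MulAction.exists_smul_eq G Q' Q
    intro x hx y hy
    rw [← hg, Sylow.coe_subgroup_smul, Subgroup.mem_smul_pointwise_iff_exists] at hx hy
    obtain ⟨x', hx', rfl⟩ := hx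
    obtain ⟨y', hy', rfl⟩ := hy
    simp only [MulAut.smul_def, MulAut.conj_apply]
    have h1 := hab x' hx' y' hy'
    calc g * x' * g⁻¹ * (g * y' * g⁻¹) = g * (x' * y') * g⁻¹ := by group
      _ = g * (y' * x') * g⁻¹ := by rw [h1]
      _ = g * y' * g⁻¹ * (g * x' * g⁻¹) := by group
  obtain ⟨Z, hZQ, hZc, hZcen, hZchar, hZcomm, hZD, hZne⟩ :=
    Helper53.o27_facts (Q : Subgroup G) hQc hna
  obtain ⟨Z', hZ'Q, hZ'c, hZ'cen, hZ'char, hZ'comm, hZ'D, -⟩ :=
    Helper53.o27_facts (Q' : Subgroup G) hQ'c hna'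
  obtain ⟨D, hDdef⟩ : ∃ D : Subgroup G, D = (Q : Subgroup G) ⊓ (Q' : Subgroup G) := ⟨_, rfl⟩
  rw [← hDdef] at h9 hmv
  have hDQ : D ≤ (Q : Subgroup G) := by rw [hDdef]; exact inf_le_left
  have hDQ' : D ≤ (Q' : Subgroup G) := by rw [hDdef]; exact inf_le_right
  obtain ⟨hZleD, hDab⟩ := hZD D hDQ h9
  obtain ⟨hZ'leD, -⟩ := hZ'D D hDQ' h9
  -- (a) N(Z) = N(Q)
  have hNQZ : Subgroup.normalizer ((Q : Subgroup G) : Set G) ≤ Subgroup.normalizer (Z : Set G) := by
    intro g hg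
    apply o4320_mem_normalizer
    intro h hh
    have hgQ : ∀ y ∈ (Q : Subgroup G), g * y * g⁻¹ ∈ (Q : Subgroup G) := fun y hy =>
      (Subgroup.mem_normalizer_iff.mp hg y).mp hy
    have hgQ' : ∀ y ∈ (Q : Subgroup G), g⁻¹ * y * g ∈ (Q : Subgroup G) := by
      intro y hy
      apply (Subgroup.mem_normalizer_iff.mp hg (g⁻¹ * y * g)).mpr
      have e : g * (g⁻¹ * y * g) * g⁻¹ = y := by group
      rw [e]
      exact hy
    apply hZchar _ (hgQ h (hZQ hh))
    intro y hy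
    have h1 := hZcen h hh (g⁻¹ * y * g) (hgQ' y hy)
    calc g * h * g⁻¹ * y = g * (h * (g⁻¹ * y * g)) * g⁻¹ := by group
      _ = g * ((g⁻¹ * y * g) * h) * g⁻¹ := by rw [h1]
      _ = y * (g * h * g⁻¹) := by group
  have hNZ : Subgroup.normalizer (Z : Set G) = Subgroup.normalizer ((Q : Subgroup G) : Set G) := by
    rcases hmax _ hNQZ with h | h
    · exact h
    · exfalso
      have hZn : Z.Normal := Subgroup.normalizer_eq_top_iff.mp h
      rcases hZn.eq_bot_or_eq_top with h1 | h1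
      · rw [h1] at hZc
        simp at hZc
      · rw [h1, Subgroup.card_top, hG] at hZc
        omega
  -- (b) Z ≠ Z'
  have hZZ' : Z ≠ Z' := by
    intro h
    apply hQQ'
    have h1 : (Q' : Subgroup G) ≤ Subgroup.normalizer ((Q : Subgroup G) : Set G) := by
      rw [← hNZ, h]
      intro g hg
      apply o4320_mem_normalizer
      intro a ha
      have h2 := hZ'cen a ha g hg
      have e : g * a * g⁻¹ = a := by
        rw [← h2]
        group
      rw [e]
      exact ha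
    exact Helper8.SylFix.eq_of_le_normalizer Q' Q h1
  -- (c) generators
  obtain ⟨z, hzZ, hz1, hz3, hzall⟩ := o4320_order_three Z hZc
  obtain ⟨z', hz'Z, hz'1, hz'3, hz'all⟩ := o4320_order_three Z' hZ'c
  have hzD : z ∈ D := hZleD hzZ
  have hz'D : z' ∈ D := hZ'leD hz'Z
  have hzz' : z * z' = z' * z := hDab z hzD z' hz'D
  have hz'nZ : z' ∉ Z := by
    intro h
    apply hZZ'
    have hle : Z' ≤ Z := by
      intro x hx
      rcases hz'all x hx with h1 | h1 | h1
      · rw [h1]; exact Z.one_mem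
      · rw [h1]; exact h
      · rw [h1]; exact Z.inv_mem h
    exact (Subgroup.eq_of_le_of_card_ge hle (by rw [hZc, hZ'c])).symm
  have hznZ' : z ∉ Z' := by
    intro h
    apply hZZ'
    have hle : Z ≤ Z' := by
      intro x hx
      rcases hzall x hx with h1 | h1 | h1
      · rw [h1]; exact Z'.one_mem
      · rw [h1]; exact h
      · rw [h1]; exact Z'.inv_mem h
    exact Subgroup.eq_of_le_of_card_ge hle (by rw [hZc, hZ'c])
  obtain ⟨u, huQ, huD⟩ : ∃ u, u ∈ (Q : Subgroup G) ∧ u ∉ D := by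
    by_contra hcon
    push Not at hcon
    have h1 : Nat.card (Q : Subgroup G) ≤ Nat.card D := Subgroup.card_le_of_le hcon
    rw [hQc, h9] at h1
    omega
  obtain ⟨u', hu'Q, hu'D⟩ : ∃ u', u' ∈ (Q' : Subgroup G) ∧ u' ∉ D := by
    by_contra hcon
    push Not at hcon
    have h1 : Nat.card (Q' : Subgroup G) ≤ Nat.card D := Subgroup.card_le_of_le hcon
    rw [hQ'c, h9] at h1
    omega
  have hw : u * z' * u⁻¹ * z'⁻¹ ∈ Z := hZcomm u huQ z' (hDQ hz'D)
  have hw1 : u * z' * u⁻¹ * z'⁻¹ ≠ 1 := by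
    intro h
    apply hz'nZ
    have hcomm : u * z' = z' * u := by
      calc u * z' = (u * z' * u⁻¹ * z'⁻¹) * z' * u := by group
        _ = z' * u := by rw [h, one_mul]
    have hC : (Q : Subgroup G) ⊓ Subgroup.centralizer ({z'} : Set G) = (Q : Subgroup G) := by
      apply o4320_eq_of_lt h9 hQc (D := D) (u := u)
      · intro x hx
        refine Subgroup.mem_inf.mpr ⟨hDQ hx, Subgroup.mem_centralizer_iff.mpr ?_⟩
        intro y hy
        rw [Set.mem_singleton_iff] at hy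
        rw [hy]
        exact hDab z' hz'D x hx
      · exact inf_le_left
      · refine Subgroup.mem_inf.mpr ⟨huQ, Subgroup.mem_centralizer_iff.mpr ?_⟩
        intro y hy
        rw [Set.mem_singleton_iff] at hy
        rw [hy]
        exact hcomm.symm
      · exact huD
    apply hZchar z' (hDQ hz'D)
    intro y hy
    have h2 : y ∈ (Q : Subgroup G) ⊓ Subgroup.centralizer ({z'} : Set G) := by
      rw [hC]
      exact hy
    exact Subgroup.mem_centralizer_iff.mp (Subgroup.mem_inf.mp h2).2 z' rfl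
  have huz' : u * z' * u⁻¹ = z * z' ∨ u * z' * u⁻¹ = z⁻¹ * z' := by
    rcases hzall _ hw with h | h | h
    · exact absurd h hw1
    · left
      calc u * z' * u⁻¹ = (u * z' * u⁻¹ * z'⁻¹) * z' := by group
        _ = z * z' := by rw [h]
    · right
      calc u * z' * u⁻¹ = (u * z' * u⁻¹ * z'⁻¹) * z' := by group
        _ = z⁻¹ * z' := by rw [h]
  have hw' : u' * z * u'⁻¹ * z⁻¹ ∈ Z' := hZ'comm u' hu'Q z (hDQ' hzD)
  have hw'1 : u' * z * u'⁻¹ * z⁻¹ ≠ 1 := by
    intro h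
    apply hznZ'
    have hcomm : u' * z = z * u' := by
      calc u' * z = (u' * z * u'⁻¹ * z⁻¹) * z * u' := by group
        _ = z * u' := by rw [h, one_mul]
    have hC : (Q' : Subgroup G) ⊓ Subgroup.centralizer ({z} : Set G) = (Q' : Subgroup G) := by
      apply o4320_eq_of_lt h9 hQ'c (D := D) (u := u')
      · intro x hx
        refine Subgroup.mem_inf.mpr ⟨hDQ' hx, Subgroup.mem_centralizer_iff.mpr ?_⟩
        intro y hy
        rw [Set.mem_singleton_iff] at hy
        rw [hy]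
        exact hDab z hzD x hx
      · exact inf_le_left
      · refine Subgroup.mem_inf.mpr ⟨hu'Q, Subgroup.mem_centralizer_iff.mpr ?_⟩
        intro y hy
        rw [Set.mem_singleton_iff] at hy
        rw [hy]
        exact hcomm.symm
      · exact hu'D
    apply hZ'char z (hDQ' hzD)
    intro y hy
    have h2 : y ∈ (Q' : Subgroup G) ⊓ Subgroup.centralizer ({z} : Set G) := by
      rw [hC]
      exact hy
    exact Subgroup.mem_centralizer_iff.mp (Subgroup.mem_inf.mp h2).2 z rfl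
  have hu'z : u' * z * u'⁻¹ = z' * z ∨ u' * z * u'⁻¹ = z'⁻¹ * z := by
    rcases hz'all _ hw' with h | h | h
    · exact absurd h hw'1
    · left
      calc u' * z * u'⁻¹ = (u' * z * u'⁻¹ * z⁻¹) * z := by group
        _ = z' * z := by rw [h]
    · right
      calc u' * z * u'⁻¹ = (u' * z * u'⁻¹ * z⁻¹) * z := by group
        _ = z'⁻¹ * z := by rw [h]
  have hu : u * z = z * u := (hZcen z hzZ u huQ).symm
  have hu' : u' * z' = z' * u' := (hZ'cen z' hz'Z u' hu'Q).symm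
  obtain ⟨n, -, hnz, hnz'⟩ := Helper66.o4320_invert z z' u u' hz3 hz'3 hzz' hu hu' huz' hu'z
  -- n inverts D
  have hninv : ∀ d ∈ D, n * d * n⁻¹ = d⁻¹ := by
    let S : Subgroup G :=
      { carrier := {d | d ∈ D ∧ n * d * n⁻¹ = d⁻¹}
        mul_mem' := by
          rintro a b ⟨ha, ha'⟩ ⟨hb, hb'⟩
          refine ⟨D.mul_mem ha hb, ?_⟩
          calc n * (a * b) * n⁻¹ = (n * a * n⁻¹) * (n * b * n⁻¹) := by group
            _ = a⁻¹ * b⁻¹ := by rw [ha', hb']
            _ = b⁻¹ * a⁻¹ := hDab a⁻¹ (D.inv_mem ha) b⁻¹ (D.inv_mem hb)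
            _ = (a * b)⁻¹ := by rw [mul_inv_rev]
        one_mem' := ⟨D.one_mem, by simp⟩
        inv_mem' := by
          rintro a ⟨ha, ha'⟩
          refine ⟨D.inv_mem ha, ?_⟩
          calc n * a⁻¹ * n⁻¹ = (n * a * n⁻¹)⁻¹ := by group
            _ = (a⁻¹)⁻¹ := by rw [ha'] }
    have hSD : S ≤ D := fun d hd => hd.1
    have hZS : Z ≤ S := by
      intro x hx
      rcases hzall x hx with h | h | h
      · rw [h]; exact S.one_mem
      · rw [h]; exact ⟨hzD, hnz⟩
      · rw [h]; exact S.inv_mem ⟨hzD, hnz⟩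
    have hZ'S : Z' ≤ S := by
      intro x hx
      rcases hz'all x hx with h | h | h
      · rw [h]; exact S.one_mem
      · rw [h]; exact ⟨hz'D, hnz'⟩
      · rw [h]; exact S.inv_mem ⟨hz'D, hnz'⟩
    have hSeq := o4320_eq_of_two_le hZc hZ'c hZZ' h9 hZS hZ'S hSD
    intro d hd
    have h1 : d ∈ S := by
      rw [hSeq]
      exact hd
    exact h1.2
  have hnN : n ∈ Subgroup.normalizer ((Q : Subgroup G) : Set G) := by
    rw [← hNZ]
    apply o4320_mem_normalizer
    intro a ha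
    rw [hninv a (hZleD ha)]
    exact Z.inv_mem ha
  -- (d) the second subgroup of order 9
  obtain ⟨m, hmN, d, hdD, hmd⟩ := hmv
  obtain ⟨D2, hD2def⟩ : ∃ D2 : Subgroup G, D2 = D.map (MulAut.conj m).toMonoidHom := ⟨_, rfl⟩
  have hD2mem : ∀ y, y ∈ D2 ↔ ∃ d' ∈ D, m * d' * m⁻¹ = y := by
    intro y
    rw [hD2def, Subgroup.mem_map]
    simp [MulAut.conj_apply]
  have hD2c : Nat.card D2 = 9 := by
    rw [← h9, hD2def]
    exact (Nat.card_congr (D.equivMapOfInjective _ (MulAut.conj m).injective).toEquiv).symm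
  have hD2Q : D2 ≤ (Q : Subgroup G) := by
    intro y hy
    obtain ⟨d', hd', rfl⟩ := (hD2mem y).mp hy
    exact (Subgroup.mem_normalizer_iff.mp hmN d').mp (hDQ hd')
  have hD2ne : D ≠ D2 := by
    intro h
    apply hmd
    have h1 : m * d * m⁻¹ ∈ D2 := (hD2mem _).mpr ⟨d, hdD, rfl⟩
    rw [← h] at h1
    exact h1
  obtain ⟨q, hqdef⟩ : ∃ q : G, q = m * n * m⁻¹ * n⁻¹ := ⟨_, rfl⟩
  have hq : q ∈ (Q : Subgroup G) := by
    rw [hqdef]
    exact o4320_comm_mem (Q : Subgroup G) hQc hN m n hmN hnN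
  have hny : ∀ y ∈ D2, n * y * n⁻¹ = q⁻¹ * y⁻¹ * q := by
    intro y hy
    obtain ⟨d', hd', rfl⟩ := (hD2mem y).mp hy
    have h1 := hninv d' hd'
    have h2 : n⁻¹ * d'⁻¹ * n = d' := by
      rw [← h1]
      group
    calc n * (m * d' * m⁻¹) * n⁻¹ = n * m * (n⁻¹ * d'⁻¹ * n) * m⁻¹ * n⁻¹ := by
          rw [h2]
          group
      _ = q⁻¹ * (m * d' * m⁻¹)⁻¹ * q := by
          rw [hqdef]
          group
  -- (e) the final commutator computation
  obtain ⟨x, hxD, hxZ⟩ : ∃ x, x ∈ D ∧ x ∉ Z := by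
    by_contra hcon
    push Not at hcon
    have h1 : Nat.card D ≤ Nat.card Z := Subgroup.card_le_of_le hcon
    rw [h9, hZc] at h1
    omega
  obtain ⟨y, hyD2, hyZ⟩ : ∃ y, y ∈ D2 ∧ y ∉ Z := by
    by_contra hcon
    push Not at hcon
    have h1 : Nat.card D2 ≤ Nat.card Z := Subgroup.card_le_of_le hcon
    rw [hD2c, hZc] at h1
    omega
  have hxQ := hDQ hxD
  have hyQ := hD2Q hyD2
  obtain ⟨c, hcdef⟩ : ∃ c : G, c = x * y * x⁻¹ * y⁻¹ := ⟨_, rfl⟩
  have hcZ : c ∈ Z := by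
    rw [hcdef]
    exact hZcomm x hxQ y hyQ
  have hxy : x * y ≠ y * x := hZne D D2 hDQ hD2Q h9 hD2c hD2ne x hxD y hyD2 hxZ hyZ
  have hc1 : c ≠ 1 := by
    intro h
    apply hxy
    calc x * y = (x * y * x⁻¹ * y⁻¹) * y * x := by group
      _ = y * x := by rw [← hcdef, h, one_mul]
  have hcx : c * x = x * c := hZcen c hcZ x hxQ
  have hcy : c * y = y * c := hZcen c hcZ y hyQ
  have hnc : n * c * n⁻¹ = c⁻¹ := hninv c (hZleD hcZ)
  have hnx : n * x * n⁻¹ = x⁻¹ := hninv x hxD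
  have hnyy := hny y hyD2
  obtain ⟨ζ, hζdef⟩ : ∃ ζ : G, ζ = y * q⁻¹ * y⁻¹ * q := ⟨_, rfl⟩
  have hζZ : ζ ∈ Z := by
    have h1 := hZcomm y hyQ q⁻¹ ((Q : Subgroup G).inv_mem hq)
    rw [inv_inv] at h1
    rw [hζdef]
    exact h1
  have hζx : ζ * x = x * ζ := hZcen ζ hζZ x hxQ
  have hnc2 : n * c * n⁻¹ = c := by
    have e1 : n * c * n⁻¹
        = (n * x * n⁻¹) * (n * y * n⁻¹) * (n * x * n⁻¹)⁻¹ * (n * y * n⁻¹)⁻¹ := by
      rw [hcdef]
      group
    have e2 : q⁻¹ * y⁻¹ * q = y⁻¹ * ζ := by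
      rw [hζdef]
      group
    have e3 : ζ * x * ζ⁻¹ = x := by
      rw [hζx]
      group
    have e4 : y⁻¹ * c * y = c := by
      calc y⁻¹ * c * y = y⁻¹ * (c * y) := by group
        _ = y⁻¹ * (y * c) := by rw [hcy]
        _ = c := by group
    have e5 : x⁻¹ * c * x = c := by
      calc x⁻¹ * c * x = x⁻¹ * (c * x) := by group
        _ = x⁻¹ * (x * c) := by rw [hcx]
        _ = c := by group
    rw [e1, hnx, hnyy, e2]
    calc x⁻¹ * (y⁻¹ * ζ) * x⁻¹⁻¹ * (y⁻¹ * ζ)⁻¹ = x⁻¹ * y⁻¹ * (ζ * x * ζ⁻¹) * y := by group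
      _ = x⁻¹ * y⁻¹ * x * y := by rw [e3]
      _ = x⁻¹ * (y⁻¹ * (x * y * x⁻¹ * y⁻¹) * y) * x := by group
      _ = x⁻¹ * (y⁻¹ * c * y) * x := by rw [← hcdef]
      _ = c := by rw [e4, e5]
  have hcinv : c⁻¹ = c := hnc.symm.trans hnc2
  have hcc : c * c = 1 := by
    nth_rewrite 1 [← hcinv]
    exact inv_mul_cancel c
  have hc3 : c ^ 3 = 1 := by
    rcases hzall c hcZ with h | h | h
    · rw [h, one_pow]
    · rw [h, hz3]
    · rw [h, inv_pow, hz3, inv_one]
  apply hc1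
  calc c = c ^ 3 * (c * c)⁻¹ := by group
    _ = 1 := by rw [hc3, hcc]; simp

end Cfsg.Agent.Helper74
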