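import Mathlib
import Cfsg.Agent.Helper9.OrdTools
import Cfsg.Agent.Helper9.OrdTools2
import Cfsg.Agent.Helper8.SylSub

/-!
# CALL S0983 piece D5400 (helper74)

In a simple group of order 5400 with a subgroup `D` of order 5 whose centralizer `H` has order
300, the Sylow 5-subgroups cannot all have exactly three fixed points on `G ⧸ H`.
-/

set_option autoImplicit false

namespace Cfsg.Agent.Helper74

open Subgroup

variable {G : Type*} [Group G] [Finite G] [IsSimpleGroup G]

/-- piece D5400 -/
theorem o5400_d (h : Nat.card G = 5400) (D : Subgroup G) (hD : Nat.card D = 5)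
    (hC : Nat.card (centralizer (D : Set G)) = 300)
    (hfix : ∀ P : Sylow 5 G,
      Nat.card (MulAction.fixedPoints (P : Subgroup G) (G ⧸ centralizer (D : Set G))) = 3) :
    False := by
  classical
  haveI : Fact (Nat.Prime 5) := ⟨by norm_num⟩
  set H : Subgroup G := centralizer (D : Set G) with hH
  letI : Fintype (G ⧸ H) := Fintype.ofFinite _
  have hQcard : ∀ Q : Sylow 5 G, Nat.card (Q : Subgroup G) = 25 := by
    intro Q
    have := Cfsg.Agent.Helper9.OrdTools.sylow_card 2 216 (by rw [h]; norm_num) (by norm_num) Q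
    simpa using this
  have hHidx : H.index = 18 := by
    have := H.card_mul_index
    rw [hC, h] at this
    omega
  have hXcard : Fintype.card (G ⧸ H) = 18 := by
    rw [← Nat.card_eq_fintype_card, ← Subgroup.index_eq_card, hHidx]
  have hDp : IsPGroup 5 D := IsPGroup.of_card (n := 1) (by rw [hD, pow_one])
  -- the stabilizer criterion
  have hst : ∀ q g : G, q • (g : G ⧸ H) = (g : G ⧸ H) ↔ g⁻¹ * q * g ∈ H := by
    intro q g
    rw [MulAction.Quotient.smul_coe, smul_eq_mul, QuotientGroup.eq]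
    have : (q * g)⁻¹ * g = (g⁻¹ * q * g)⁻¹ := by group
    rw [this, inv_mem_iff]
  -- fixed points as finsets
  let fx : Subgroup G → Finset (G ⧸ H) := fun Q =>
    Finset.univ.filter (fun ξ => ∀ q ∈ Q, q • ξ = ξ)
  have hfxmem : ∀ (Q : Subgroup G) (ξ : G ⧸ H), ξ ∈ fx Q ↔ ∀ q ∈ Q, q • ξ = ξ := by
    intro Q ξ
    simp only [fx, Finset.mem_filter, Finset.mem_univ, true_and]
  have hfx3 : ∀ P : Sylow 5 G, (fx (P : Subgroup G)).card = 3 := by
    intro P
    have h1 : fx (P : Subgroup G)
        = (MulAction.fixedPoints (P : Subgroup G) (G ⧸ H)).toFinset := by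
      ext ξ
      rw [Set.mem_toFinset, MulAction.mem_fixedPoints, hfxmem]
      constructor
      · intro hq m
        exact hq m m.2
      · intro hq q hqP
        exact hq ⟨q, hqP⟩
    rw [h1, ← Set.ncard_eq_toFinset_card', ← _root_.Nat.card_coe_set_eq]
    exact hfix P
  -- (F1): the normalizer of `D` is `H`
  have hF1 : ∀ g : G, (∀ d ∈ D, g * d * g⁻¹ ∈ D) → g ∈ H := by
    intro g hg
    have hHN : H ≤ normalizer (D : Set G) := centralizer_le_normalizer _
    have hNtop : normalizer (D : Set G) ≠ ⊤ := by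
      intro htop
      have hn : D.Normal := normalizer_eq_top_iff.mp htop
      rcases hn.eq_bot_or_eq_top with hb | ht
      · rw [hb] at hD
        simp at hD
      · rw [ht, Subgroup.card_top, h] at hD
        omega
    have hdvd : (normalizer (D : Set G)).index ∣ 18 := by
      rw [← hHidx]; exact Subgroup.index_dvd_of_le hHN
    have hfac := Cfsg.Agent.Helper9.OrdTools.card_dvd_factorial_index _ hNtop
    rw [h] at hfac
    have hidx : (normalizer (D : Set G)).index = 18 := by
      have hle : (normalizer (D : Set G)).index ≤ 18 := Nat.le_of_dvd (by norm_num) hdvd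
      have hpos : 0 < (normalizer (D : Set G)).index := Nat.pos_of_ne_zero (by
        intro h0; rw [h0] at hdvd; omega)
      generalize (normalizer (D : Set G)).index = k at hdvd hfac hle hpos
      interval_cases k <;> first | rfl | (exfalso; revert hdvd; decide) | (exfalso; revert hfac; decide)
    have hNcard : Nat.card (normalizer (D : Set G)) = 300 := by
      have := (normalizer (D : Set G)).card_mul_index
      rw [hidx, h] at this
      omega
    have hEq : H = normalizer (D : Set G) :=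
      Subgroup.eq_of_le_of_card_ge hHN (by rw [hNcard, hC])
    rw [hEq]
    exact Subgroup.mem_normalizer_fintype (fun d hd => hg d hd)
  -- a fixed coset of a Sylow subgroup conjugates `D` into it
  have hB : ∀ (Q : Sylow 5 G) (g : G), (g : G ⧸ H) ∈ fx (Q : Subgroup G) →
      ∀ d ∈ D, g * d * g⁻¹ ∈ (Q : Subgroup G) := by
    intro Q g hg d hd
    rw [hfxmem] at hg
    have hmap : IsPGroup 5 (D.map (MulAut.conj g).toMonoidHom) := hDp.map _
    have hle : D.map (MulAut.conj g).toMonoidHom ≤ normalizer ((Q : Subgroup G) : Set G) := by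
      refine le_trans ?_ (centralizer_le_normalizer _)
      rintro z ⟨d', hd', rfl⟩
      rw [Subgroup.mem_centralizer_iff]
      intro q hq
      have h1 := (hst q g).mp (hg q hq)
      rw [hH, Subgroup.mem_centralizer_iff] at h1
      have h2 := h1 d' hd'
      show q * (g * d' * g⁻¹) = (g * d' * g⁻¹) * q
      calc q * (g * d' * g⁻¹) = g * ((g⁻¹ * q * g) * d') * g⁻¹ := by group
        _ = g * (d' * (g⁻¹ * q * g)) * g⁻¹ := by rw [h2]
        _ = (g * d' * g⁻¹) * q := by group
    have := Cfsg.Agent.Helper9.OrdTools.mem_sylow_of_mem_normalizer Q hmap hle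
    exact this ⟨d, hd, rfl⟩
  -- Sylow subgroups containing `D` lie in `H`
  have hCle : ∀ Q : Sylow 5 G, D ≤ (Q : Subgroup G) → (Q : Subgroup G) ≤ H := by
    intro Q hDQ q hq
    rw [hH, Subgroup.mem_centralizer_iff]
    intro d hd
    have hmc : IsMulCommutative (Q : Subgroup G) :=
      IsPGroup.isMulCommutative_of_card_eq_prime_sq (p := 5) (by rw [hQcard Q]; norm_num)
    have hcomm := hmc.is_comm.comm (⟨d, hDQ hd⟩ : (Q : Subgroup G)) ⟨q, hq⟩
    exact congrArg Subtype.val hcomm
  -- Sylow subgroups inside `H` contain `D`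
  have hDle : ∀ Q : Sylow 5 G, (Q : Subgroup G) ≤ H → D ≤ (Q : Subgroup G) := by
    intro Q hQH
    apply Cfsg.Agent.Helper9.OrdTools.mem_sylow_of_mem_normalizer Q hDp
    refine le_trans ?_ (centralizer_le_normalizer _)
    intro d hd
    rw [Subgroup.mem_centralizer_iff]
    intro q hq
    have h1 := hQH hq
    rw [hH, Subgroup.mem_centralizer_iff] at h1
    exact (h1 d hd).symm
  have hobase : ∀ Q : Sylow 5 G, D ≤ (Q : Subgroup G) →
      ((1 : G) : G ⧸ H) ∈ fx (Q : Subgroup G) := by
    intro Q hDQ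
    rw [hfxmem]
    intro q hq
    rw [hst]
    simpa using hCle Q hDQ hq
  -- two distinct Sylow subgroups containing `D` meet in `D`
  have hinter : ∀ Q Q' : Sylow 5 G, Q ≠ Q' → D ≤ (Q : Subgroup G) → D ≤ (Q' : Subgroup G) →
      ∀ z : G, z ∈ (Q : Subgroup G) → z ∈ (Q' : Subgroup G) → z ∈ D := by
    intro Q Q' hne hDQ hDQ' z hz hz'
    have hle : D ≤ (Q : Subgroup G) ⊓ (Q' : Subgroup G) := le_inf hDQ hDQ'
    have h1 : Nat.card ((Q : Subgroup G) ⊓ (Q' : Subgroup G) : Subgroup G) ∣ 25 := by
      rw [← hQcard Q]; exact Subgroup.card_dvd_of_le inf_le_left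
    have h2 : 5 ∣ Nat.card ((Q : Subgroup G) ⊓ (Q' : Subgroup G) : Subgroup G) := by
      have h2' := Subgroup.card_dvd_of_le hle
      rwa [hD] at h2'
    have h3 : Nat.card ((Q : Subgroup G) ⊓ (Q' : Subgroup G) : Subgroup G) ≠ 25 := by
      intro h25
      have e1 : (Q : Subgroup G) ⊓ (Q' : Subgroup G) = (Q : Subgroup G) :=
        Subgroup.eq_of_le_of_card_ge inf_le_left (by rw [h25, hQcard Q])
      have e2 : (Q : Subgroup G) ⊓ (Q' : Subgroup G) = (Q' : Subgroup G) :=
        Subgroup.eq_of_le_of_card_ge inf_le_right (by rw [h25, hQcard Q'])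
      exact hne (Sylow.ext (e1.symm.trans e2))
    have h4 : Nat.card ((Q : Subgroup G) ⊓ (Q' : Subgroup G) : Subgroup G) = 5 := by
      have hle25 := Nat.le_of_dvd (by norm_num) h1
      generalize Nat.card ((Q : Subgroup G) ⊓ (Q' : Subgroup G) : Subgroup G) = k at h1 h2 h3 hle25
      interval_cases k <;> first | rfl | omega | (exfalso; revert h1; decide)
    have hEq : D = (Q : Subgroup G) ⊓ (Q' : Subgroup G) :=
      Subgroup.eq_of_le_of_card_ge hle (by rw [h4, hD])
    rw [hEq]
    exact ⟨hz, hz'⟩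
  have hE : ∀ Q Q' : Sylow 5 G, Q ≠ Q' → D ≤ (Q : Subgroup G) → D ≤ (Q' : Subgroup G) →
      ∀ ξ : G ⧸ H, ξ ∈ fx (Q : Subgroup G) → ξ ∈ fx (Q' : Subgroup G) →
        ξ = ((1 : G) : G ⧸ H) := by
    intro Q Q' hne hDQ hDQ' ξ hξ hξ'
    obtain ⟨g, rfl⟩ := QuotientGroup.mk_surjective ξ
    have hg : g ∈ H := hF1 g (fun d hd =>
      hinter Q Q' hne hDQ hDQ' _ (hB Q g hξ d hd) (hB Q' g hξ' d hd))
    symm
    rw [QuotientGroup.eq]
    simpa using hg
  -- six Sylow subgroups containing `D`
  obtain ⟨Q₁, hDQ₁⟩ := hDp.exists_le_sylow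
  have hQ₁H := hCle Q₁ hDQ₁
  have hn5H : Nat.card (Sylow 5 H) = 6 := by
    have h1 := Cfsg.Agent.Helper8.SylSub.card_eq_inf_normalizer_mul Q₁ H hQ₁H
    have h2 := Cfsg.Agent.Helper8.SylSub.card_sylow_mod 5 H
    rw [hC] at h1
    have h3 : 25 ∣ Nat.card (H ⊓ normalizer ((Q₁ : Subgroup G) : Set G) : Subgroup G) := by
      rw [← hQcard Q₁]
      exact Subgroup.card_dvd_of_le (le_inf hQ₁H le_normalizer)
    obtain ⟨m, hm⟩ := h3
    rw [hm] at h1
    have h4 : m * Nat.card (Sylow 5 H) = 12 := by nlinarith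
    have h5 : Nat.card (Sylow 5 H) ∣ 12 := Dvd.intro_left m h4
    have h6 : Nat.card (Sylow 5 H) ≠ 1 := by
      intro h1'
      rw [h1', mul_one] at h4
      have h7 : Nat.card (H ⊓ normalizer ((Q₁ : Subgroup G) : Set G) : Subgroup G) = 300 := by
        rw [hm, h4]
      have h8 : 300 ∣ Nat.card (normalizer ((Q₁ : Subgroup G) : Set G)) := by
        rw [← h7]; exact Subgroup.card_dvd_of_le inf_le_right
      obtain ⟨hs1, hs2, hs3, hs4⟩ := Cfsg.Agent.Helper9.OrdTools.sylow_num Q₁
        (by rw [hQcard Q₁]; norm_num) (by rw [hQcard Q₁, h]; norm_num)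
      obtain ⟨c, hc⟩ := h8
      rw [hc, h] at hs4
      have h9 : c * Nat.card (Sylow 5 G) = 18 := by nlinarith
      have h10 : Nat.card (Sylow 5 G) ∣ 18 := Dvd.intro_left c h9
      have h11 : Nat.card (Sylow 5 G) = 6 := by
        have hle18 := Nat.le_of_dvd (by norm_num) h10
        generalize Nat.card (Sylow 5 G) = k at h10 hs2 hs3 hle18
        interval_cases k <;> first | rfl | omega | (exfalso; revert h10; decide)
      have hc3 : c = 3 := by rw [h11] at h9; omega
      have hidx : (normalizer ((Q₁ : Subgroup G) : Set G)).index = 6 := by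
        have := (normalizer ((Q₁ : Subgroup G) : Set G)).card_mul_index
        rw [hc, hc3, h] at this
        omega
      have hNtop : normalizer ((Q₁ : Subgroup G) : Set G) ≠ ⊤ := by
        intro htop
        rw [htop, Subgroup.index_top] at hidx
        omega
      have hfac := Cfsg.Agent.Helper9.OrdTools.card_dvd_factorial_index _ hNtop
      rw [hidx, h] at hfac
      revert hfac
      decide
    have hle12 := Nat.le_of_dvd (by norm_num) h5
    generalize Nat.card (Sylow 5 H) = k at h5 h2 h6 hle12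
    interval_cases k <;> first | rfl | omega | (exfalso; revert h5; decide)
  have hPcard : ∀ P' : Sylow 5 H, Nat.card (P' : Subgroup H) = 25 := by
    intro P'
    have := Cfsg.Agent.Helper9.OrdTools.sylow_card 2 12 (by rw [hC]; norm_num) (by norm_num) P'
    simpa using this
  have hfact : (Nat.card G).factorization 5 = 2 := by
    rw [h, show (5400 : ℕ) = 5 ^ 2 * 216 by norm_num,
      Nat.factorization_mul (by norm_num) (by norm_num), Nat.Prime.factorization_pow (by norm_num),
      Finsupp.add_apply, Finsupp.single_eq_same,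
      Nat.factorization_eq_zero_of_not_dvd (by norm_num)]
  have hmapcard : ∀ P' : Sylow 5 H, Nat.card ((P' : Subgroup H).map H.subtype)
      = 5 ^ (Nat.card G).factorization 5 := by
    intro P'
    rw [hfact, Subgroup.card_map_of_injective H.subtype_injective, hPcard P']
    norm_num
  let f : Sylow 5 H → Sylow 5 G := fun P' => Sylow.ofCard _ (hmapcard P')
  have hfcoe : ∀ P' : Sylow 5 H, ((f P' : Sylow 5 G) : Subgroup G)
      = (P' : Subgroup H).map H.subtype := fun P' => rfl
  have hfinj : Function.Injective f := by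
    intro P' P'' hPP
    have h1 : (P' : Subgroup H).map H.subtype = (P'' : Subgroup H).map H.subtype := by
      rw [← hfcoe, ← hfcoe, hPP]
    exact Sylow.ext (Subgroup.map_injective H.subtype_injective h1)
  have hfH : ∀ P' : Sylow 5 H, ((f P' : Sylow 5 G) : Subgroup G) ≤ H := by
    intro P'
    rw [hfcoe]
    exact Subgroup.map_subtype_le _
  letI : Fintype (Sylow 5 H) := Fintype.ofFinite _
  let T : Finset (Sylow 5 G) := Finset.univ.image f
  have hTcard : T.card = 6 := by
    rw [Finset.card_image_of_injective _ hfinj, Finset.card_univ, ← Nat.card_eq_fintype_card, hn5H]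
  have hTD : ∀ Q ∈ T, D ≤ (Q : Subgroup G) := by
    intro Q hQ
    obtain ⟨P', -, rfl⟩ := Finset.mem_image.mp hQ
    exact hDle _ (hfH P')
  -- `fx D` has at least 13 elements
  have hsub : ∀ Q ∈ T, fx (Q : Subgroup G) ⊆ fx D := by
    intro Q hQ ξ hξ
    rw [hfxmem] at hξ ⊢
    intro d hd
    exact hξ d (hTD Q hQ hd)
  have hD13 : 13 ≤ (fx D).card := by
    have hoD : ((1 : G) : G ⧸ H) ∈ fx D := by
      obtain ⟨Q, hQ⟩ : T.Nonempty := by
        rw [← Finset.card_pos, hTcard]; norm_num
      exact hsub Q hQ (hobase Q (hTD Q hQ))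
    have hdisj : ∀ Q ∈ T, ∀ Q' ∈ T, Q ≠ Q' →
        Disjoint ((fx (Q : Subgroup G)).erase ((1 : G) : G ⧸ H))
          ((fx (Q' : Subgroup G)).erase ((1 : G) : G ⧸ H)) := by
      intro Q hQ Q' hQ' hne
      rw [Finset.disjoint_left]
      intro ξ hξ hξ'
      rw [Finset.mem_erase] at hξ hξ'
      exact hξ.1 (hE Q Q' hne (hTD Q hQ) (hTD Q' hQ') ξ hξ.2 hξ'.2)
    have hcardB : (T.biUnion (fun Q => (fx (Q : Subgroup G)).erase ((1 : G) : G ⧸ H))).card
        = 12 := by
      rw [Finset.card_biUnion hdisj]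
      have : ∀ Q ∈ T, ((fx (Q : Subgroup G)).erase ((1 : G) : G ⧸ H)).card = 2 := by
        intro Q hQ
        rw [Finset.card_erase_of_mem (hobase Q (hTD Q hQ)), hfx3 Q]
      rw [Finset.sum_congr rfl this, Finset.sum_const, hTcard]
      rfl
    have hBsub : T.biUnion (fun Q => (fx (Q : Subgroup G)).erase ((1 : G) : G ⧸ H))
        ⊆ (fx D).erase ((1 : G) : G ⧸ H) := by
      intro ξ hξ
      rw [Finset.mem_biUnion] at hξ
      obtain ⟨Q, hQ, hξQ⟩ := hξ
      rw [Finset.mem_erase] at hξQ ⊢
      exact ⟨hξQ.1, hsub Q hQ hξQ.2⟩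
    have h12 := Finset.card_le_card hBsub
    rw [hcardB, Finset.card_erase_of_mem hoD] at h12
    omega
  -- a second fixed point of some `Q ∈ T`
  obtain ⟨Q, hQ⟩ : T.Nonempty := by
    rw [← Finset.card_pos, hTcard]; norm_num
  have hDQ := hTD Q hQ
  obtain ⟨ξ, hξ, hξne⟩ := Finset.exists_mem_ne (by rw [hfx3 Q]; norm_num : 1 < (fx (Q : Subgroup G)).card)
    ((1 : G) : G ⧸ H)
  obtain ⟨g, rfl⟩ := QuotientGroup.mk_surjective ξ
  have hgQ := hB Q g hξ
  have hgH : g ∉ H := by
    intro hg
    apply hξne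
    symm
    rw [QuotientGroup.eq]
    simpa using hg
  have hd₀ : ∃ d₀ ∈ D, g * d₀ * g⁻¹ ∉ D := by
    by_contra hcon
    exact hgH (hF1 g (fun d hd => by
      by_contra hc
      exact hcon ⟨d, hd, hc⟩))
  obtain ⟨d₀, hd₀D, hd₀⟩ := hd₀
  -- the fixed points of the conjugate of `D`
  let fx1 : Finset (G ⧸ H) := Finset.univ.filter (fun η => ∀ d ∈ D, (g * d * g⁻¹) • η = η)
  have hfx1mem : ∀ η : G ⧸ H, η ∈ fx1 ↔ ∀ d ∈ D, (g * d * g⁻¹) • η = η := by
    intro η
    simp only [fx1, Finset.mem_filter, Finset.mem_univ, true_and]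
  have h13' : 13 ≤ fx1.card := by
    refine le_trans hD13 (Finset.card_le_card_of_injOn (fun η => g • η) ?_ ?_)
    · intro η hη
      have hη' := (hfxmem D η).mp (Finset.mem_coe.mp hη)
      rw [Finset.mem_coe, hfx1mem]
      intro d hd
      rw [smul_smul]
      have : g * d * g⁻¹ * g = g * d := by group
      rw [this, mul_smul, hη' d hd]
    · intro a _ b _ hab
      exact (MulAction.injective g) hab
  have hinterQ : fx D ∩ fx1 ⊆ fx (Q : Subgroup G) := by
    intro η hη
    rw [Finset.mem_inter, hfxmem, hfx1mem] at hη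
    rw [hfxmem]
    set S : Subgroup G := MulAction.stabilizer G η ⊓ (Q : Subgroup G) with hS
    have hDS : D ≤ S := by
      intro d hd
      exact ⟨MulAction.mem_stabilizer_iff.mpr (hη.1 d hd), hDQ hd⟩
    have hzS : g * d₀ * g⁻¹ ∈ S :=
      ⟨MulAction.mem_stabilizer_iff.mpr (hη.2 d₀ hd₀D), hgQ d₀ hd₀D⟩
    have h1 : Nat.card S ∣ 25 := by
      rw [← hQcard Q]; exact Subgroup.card_dvd_of_le inf_le_right
    have h2 : 5 ∣ Nat.card S := by
      have h2' := Subgroup.card_dvd_of_le hDS
      rwa [hD] at h2'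
    have h3 : Nat.card S ≠ 5 := by
      intro h5
      have hEq : D = S := Subgroup.eq_of_le_of_card_ge hDS (by rw [h5, hD])
      exact hd₀ (hEq ▸ hzS)
    have h4 : Nat.card S = 25 := by
      have hle25 := Nat.le_of_dvd (by norm_num) h1
      generalize Nat.card S = k at h1 h2 h3 hle25
      interval_cases k <;> first | rfl | omega | (exfalso; revert h1; decide)
    have hSQ : S = (Q : Subgroup G) :=
      Subgroup.eq_of_le_of_card_ge inf_le_right (by rw [h4, hQcard Q])
    intro q hq
    have hqS : q ∈ S := hSQ ▸ hq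
    exact MulAction.mem_stabilizer_iff.mp hqS.1
  have hunion := Finset.card_union_add_card_inter (fx D) fx1
  have h3' : (fx D ∩ fx1).card ≤ 3 := by
    rw [← hfx3 Q]; exact Finset.card_le_card hinterQ
  have h18 : (fx D ∪ fx1).card ≤ 18 := by
    rw [← hXcard, ← Finset.card_univ]
    exact Finset.card_le_card (Finset.subset_univ _)
  omega

end Cfsg.Agent.Helper74
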