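/-
Helper library of seat helper74: tools for "invariant characters over invariant characters".
* `over_card_dvd_of_no_fixed`, `over_sum_modEq`: orbit counting modulo `p` for a `p`-group.
* `irrSmul`, `irrMulAction`: the action of `MulAut K` on `IrrCharacter K`.
* `over_mult_not_dvd`: the multiplicity of an irreducible constituent of the restriction of an
  irreducible character to a normal subgroup is prime to every prime not dividing `|G|`.
-/
import Cfsg.Agent.Helper74.GlaubCount2
import Cfsg.Agent.Helper15.RamGen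
import Cfsg.Agent.Helper76.Cover

set_option autoImplicit false

namespace Cfsg.Agent.Helper74

open Cfsg

open scoped ComplexConjugate

section OverOrbit

variable {P : Type*} [Group P] {p : ℕ} [Fact p.Prime] {X : Type*} [MulAction P X]

theorem over_card_dvd_of_no_fixed (hP : IsPGroup p P) (s : Finset X)
    (hY : ∀ (a : P), ∀ x ∈ s, a • x ∈ s) (hfix : ∀ x ∈ s, ¬ ∀ a : P, a • x = x) :
    p ∣ s.card := by
  let Z : SubMulAction P X :=
    { carrier := (s : Set X)
      smul_mem' := fun a x hx => hY a x hx }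
  haveI : Finite ↥Z := (Finset.finite_toSet s).to_subtype
  have h := hP.card_modEq_card_fixedPoints (↥Z)
  haveI : IsEmpty (MulAction.fixedPoints P ↥Z) :=
    ⟨fun z => hfix z.1.1 z.1.2 (fun a => congrArg Subtype.val (z.2 a))⟩
  have h3 : Nat.card (MulAction.fixedPoints P ↥Z) = 0 := Nat.card_of_isEmpty
  have h2 : Nat.card ↥Z = s.card := Nat.card_eq_finsetCard s
  rw [h2, h3] at h
  exact (Nat.modEq_zero_iff_dvd).mp h

theorem over_sum_modEq [Fintype X] (hP : IsPGroup p P) (f : X → ℕ)
    (hf : ∀ (a : P) (x : X), f (a • x) = f x) (x₀ : X) (hx₀ : ∀ a : P, a • x₀ = x₀)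
    (hother : ∀ x : X, (∀ a : P, a • x = x) → x ≠ x₀ → p ∣ f x) :
    (∑ x, f x) ≡ f x₀ [MOD p] := by
  classical
  rw [← Finset.add_sum_erase Finset.univ f (Finset.mem_univ x₀)]
  have key : p ∣ ∑ x ∈ Finset.univ.erase x₀, f x := by
    rw [← Finset.sum_filter_add_sum_filter_not (Finset.univ.erase x₀)
      (fun x => ∀ a : P, a • x = x)]
    apply dvd_add
    · apply Finset.dvd_sum
      intro x hx
      rw [Finset.mem_filter, Finset.mem_erase] at hx
      exact hother x hx.2 hx.1.1
    · have hset : (Finset.univ.erase x₀).filter (fun x => ¬ ∀ a : P, a • x = x) =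
          Finset.univ.filter (fun x => ¬ ∀ a : P, a • x = x) := by
        ext x
        simp only [Finset.mem_filter, Finset.mem_erase, Finset.mem_univ, and_true, true_and]
        constructor
        · exact fun h => h.2
        · intro h
          exact ⟨fun hx => h (hx ▸ hx₀), h⟩
      rw [hset]
      have hcomp := Finset.sum_comp (s := Finset.univ.filter (fun x : X => ¬ ∀ a : P, a • x = x))
        (fun v : ℕ => v) f
      rw [hcomp]
      apply Finset.dvd_sum
      intro v _
      rw [smul_eq_mul]
      apply dvd_mul_of_dvd_left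
      apply over_card_dvd_of_no_fixed hP
      · intro a x hx
        rw [Finset.mem_filter, Finset.mem_filter] at hx ⊢
        refine ⟨⟨Finset.mem_univ _, ?_⟩, ?_⟩
        · intro hfix
          apply hx.1.2
          intro b
          have h1 := hfix (a * b * a⁻¹)
          rw [mul_smul, mul_smul, inv_smul_smul] at h1
          have h2 := congrArg (fun y => a⁻¹ • y) h1
          simpa using h2
        · rw [hf]
          exact hx.2
      · intro x hx
        rw [Finset.mem_filter, Finset.mem_filter] at hx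
        exact hx.1.2
  have h0 : (f x₀ + ∑ x ∈ Finset.univ.erase x₀, f x) ≡ f x₀ + 0 [MOD p] :=
    Nat.ModEq.add_left _ ((Nat.modEq_zero_iff_dvd).mpr key)
  rwa [add_zero] at h0

end OverOrbit

section OverAction

variable {K : Type*} [Group K]

/-- The action of an automorphism on an irreducible character. -/
def irrSmul (a : MulAut K) (χ : IrrCharacter K) : IrrCharacter K :=
  ⟨fun k => (χ : K → ℂ) (a⁻¹ k), (Helper79.isIrrCharacter_mulEquiv (a⁻¹ : MulAut K)).mpr χ.2⟩

theorem irrSmul_apply (a : MulAut K) (χ : IrrCharacter K) (k : K) :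
    (irrSmul a χ : K → ℂ) k = (χ : K → ℂ) (a⁻¹ k) := rfl

/-- `MulAut K` acts on `IrrCharacter K`. -/
@[reducible] def irrMulAction : MulAction (MulAut K) (IrrCharacter K) where
  smul := irrSmul
  one_smul χ := by
    apply Subtype.ext
    funext k
    change (χ : K → ℂ) ((1 : MulAut K)⁻¹ k) = (χ : K → ℂ) k
    rw [inv_one]
    rfl
  mul_smul a b χ := by
    apply Subtype.ext
    funext k
    change (χ : K → ℂ) ((a * b)⁻¹ k) = (χ : K → ℂ) (b⁻¹ (a⁻¹ k))
    rw [mul_inv_rev]
    rfl

end OverAction

section OverMult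

/-- The multiplicity of an irreducible constituent of the restriction of an irreducible character
to a normal subgroup is not divisible by a prime not dividing `|G|`. -/
theorem over_mult_not_dvd {G : Type*} [Group G] [Fintype G] (N : Subgroup G) [hN : N.Normal]
    [Fintype N] {p : ℕ} (hp : p.Prime) (hpG : ¬ p ∣ Nat.card G) (χ : IrrCharacter G)
    (θ : IrrCharacter N) (e : ℕ)
    (he : classInner (fun n : N => (χ : G → ℂ) n) (θ : N → ℂ) = (e : ℂ)) (he0 : e ≠ 0) :
    ¬ p ∣ e := by
  have hcon : classInner (fun n : N => (χ : G → ℂ) n) (θ : N → ℂ) ≠ 0 := by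
    rw [he]
    exact_mod_cast he0
  obtain ⟨k, hk1, hk2⟩ := Helper15.degree_eq_mul_of_constituent N χ.1 χ.2 θ.1 θ.2 hcon
  have h1 := Helper75.clifford_restrict N χ.2 θ.2 hcon
  have h2 := congrFun h1 1
  rw [Pi.smul_apply, Helper75.orbitSum_one, he, smul_eq_mul, Subgroup.coe_one] at h2
  have hθ1 : (θ : N → ℂ) 1 ≠ 0 := Helper80.irr_one_ne_zero θ
  obtain ⟨s, hsdef⟩ : ∃ s : ℕ,
      s = Nat.card {g : G // Helper75.conjFun N g (θ : N → ℂ) = (θ : N → ℂ)} := ⟨_, rfl⟩
  rw [← hsdef] at h2
  have hs : s ∣ Nat.card G := by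
    have : s = Nat.card (Helper3.inertia N (θ : N → ℂ)) := hsdef
    rw [this]
    exact Subgroup.card_subgroup_dvd_card _
  have hs0 : (s : ℂ) ≠ 0 := by
    have : s ≠ 0 := by
      intro h0
      rw [h0] at hs
      exact Nat.card_pos.ne' (Nat.eq_zero_of_zero_dvd hs)
    exact_mod_cast this
  have hkey : k * s = e * Nat.card G := by
    have h3 : (k : ℂ) * (θ : N → ℂ) 1 = (e : ℂ) * ((Nat.card G : ℂ) / (s : ℂ) * (θ : N → ℂ) 1) := by
      rw [← hk1]
      exact h2
    have h4 : (k : ℂ) * (s : ℂ) = (e : ℂ) * (Nat.card G : ℂ) := by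
      have h5 : (k : ℂ) = (e : ℂ) * ((Nat.card G : ℂ) / (s : ℂ)) := by
        apply mul_right_cancel₀ hθ1
        rw [h3]
        ring
      rw [h5]
      field_simp
    exact_mod_cast h4
  intro hpe
  have h6 : p ∣ k * s := by
    rw [hkey]
    exact dvd_mul_of_dvd_left hpe _
  rcases (Nat.Prime.dvd_mul hp).mp h6 with h | h
  · exact hpG (dvd_trans h (dvd_trans hk2 (Subgroup.index_dvd_card N)))
  · exact hpG (dvd_trans h hs)

end OverMult

end Cfsg.Agent.Helper74
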