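/-
Helper library of seat helper74: `G = K H`, `K` normal, coprime orders, `H` solvable.  The
`H`-invariant classes of `K` are the classes of `K ∩ N_G(H)`, and `G` and `N_G(H)` have the same
number of irreducible characters of degree prime to `|H|`.
-/
import Cfsg.Agent.Helper74.PDeg2

set_option autoImplicit false

namespace Cfsg.Agent.Helper74

open Cfsg

universe u

section ClassCount

variable {G : Type u} [Group G]

/-- An element of `K ∩ N_G(H)` commutes with `H` when `K` is normal and `K ∩ H = 1`. -/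
theorem commute_of_mem_normalizer (K H : Subgroup G) [hK : K.Normal] (hbot : K ⊓ H = ⊥)
    {k h : G} (hk : k ∈ K) (hkN : k ∈ Subgroup.normalizer (H : Set G)) (hh : h ∈ H) :
    h * k = k * h := by
  have h1 : h * k * h⁻¹ * k⁻¹ ∈ K := K.mul_mem (hK.conj_mem k hk h) (K.inv_mem hk)
  have h2 : h * k * h⁻¹ * k⁻¹ ∈ H := by
    have : k * h⁻¹ * k⁻¹ ∈ H := (Subgroup.mem_normalizer_iff.mp hkN h⁻¹).mp (H.inv_mem hh)
    have h3 : h * k * h⁻¹ * k⁻¹ = h * (k * h⁻¹ * k⁻¹) := by group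
    rw [h3]; exact H.mul_mem hh this
  have h3 : h * k * h⁻¹ * k⁻¹ ∈ K ⊓ H := ⟨h1, h2⟩
  rw [hbot, Subgroup.mem_bot] at h3
  have : h * k = (h * k * h⁻¹ * k⁻¹) * (k * h) := by group
  rw [this, h3, one_mul]

variable [Finite G]

/-- The number of `H`-invariant classes of `K` equals the class number of `K ∩ N_G(H)`. -/
theorem card_inv_classes (K H : Subgroup G) [hK : K.Normal]
    (hcop : (Nat.card K).Coprime (Nat.card H)) (hsolv : Group.IsSolvable H) :
    Nat.card {cl : ConjClasses K // ∀ s ∈ H, ∀ g g' : K, (g' : G) = s * g * s⁻¹ →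
      ConjClasses.mk g = cl → ConjClasses.mk g' = cl} =
    Nat.card (ConjClasses (K.subgroupOf (Subgroup.normalizer (H : Set G)))) := by
  classical
  have hbot : K ⊓ H = ⊥ := disjoint_iff.mp (Subgroup.disjoint_of_coprime_natCard hcop)
  have hHK : H ≤ Subgroup.normalizer (K : Set G) := by
    intro h _
    rw [Subgroup.normalizer_eq_top]
    trivial
  let j : K.subgroupOf (Subgroup.normalizer (H : Set G)) →* K :=
    { toFun := fun x => ⟨((x : Subgroup.normalizer (H : Set G)) : G),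
        Subgroup.mem_subgroupOf.mp x.2⟩
      map_one' := rfl
      map_mul' := fun _ _ => rfl }
  have hinvj : ∀ c : K.subgroupOf (Subgroup.normalizer (H : Set G)), ∀ s ∈ H,
      s * ((c : Subgroup.normalizer (H : Set G)) : G) * s⁻¹ =
        ((c : Subgroup.normalizer (H : Set G)) : G) := by
    intro c s hs
    have := commute_of_mem_normalizer K H hbot (Subgroup.mem_subgroupOf.mp c.2)
      (c : Subgroup.normalizer (H : Set G)).2 hs
    rw [this, mul_inv_cancel_right]
  symm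
  apply Nat.card_congr
  have hwd : ∀ cl : ConjClasses (K.subgroupOf (Subgroup.normalizer (H : Set G))),
      ∀ s ∈ H, ∀ g g' : K, (g' : G) = s * g * s⁻¹ →
      ConjClasses.mk g = ConjClasses.map j cl → ConjClasses.mk g' = ConjClasses.map j cl := by
    intro cl s hs g g' hgg' hg
    obtain ⟨c, rfl⟩ := ConjClasses.mk_surjective cl
    change ConjClasses.mk g = ConjClasses.mk (j c) at hg
    change ConjClasses.mk g' = ConjClasses.mk (j c)
    rw [ConjClasses.mk_eq_mk_iff_isConj, isConj_iff] at hg ⊢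
    obtain ⟨k, hk⟩ := hg
    refine ⟨⟨s * k * s⁻¹, hK.conj_mem k k.2 s⟩, ?_⟩
    apply Subtype.ext
    have hk' : (k : G) * g * (k : G)⁻¹ = ((c : Subgroup.normalizer (H : Set G)) : G) :=
      congrArg Subtype.val hk
    change s * k * s⁻¹ * (g' : G) * (s * k * s⁻¹)⁻¹ = ((c : Subgroup.normalizer (H : Set G)) : G)
    rw [hgg', ← hinvj c s hs, ← hk']
    group
  refine Equiv.ofBijective (fun cl => ⟨ConjClasses.map j cl, hwd cl⟩) ⟨?_, ?_⟩
  · intro cl cl' h
    obtain ⟨c, rfl⟩ := ConjClasses.mk_surjective cl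
    obtain ⟨c', rfl⟩ := ConjClasses.mk_surjective cl'
    have h1 : ConjClasses.mk (j c) = ConjClasses.mk (j c') := congrArg Subtype.val h
    rw [ConjClasses.mk_eq_mk_iff_isConj, isConj_iff] at h1
    obtain ⟨k, hk⟩ := h1
    have hk' : (k : G) * ((c : Subgroup.normalizer (H : Set G)) : G) * (k : G)⁻¹ =
        ((c' : Subgroup.normalizer (H : Set G)) : G) := congrArg Subtype.val hk
    obtain ⟨z, hz, hzc⟩ := glauberman_conj_conjAct (A := H) (K := K) hHK hcop.symm
      (Or.inl hsolv) (hinvj c) (hinvj c') k.2 hk'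
    have hzN : z ∈ Subgroup.normalizer (H : Set G) :=
      Subgroup.centralizer_le_normalizer _ hz.2
    rw [ConjClasses.mk_eq_mk_iff_isConj, isConj_iff]
    refine ⟨⟨⟨z, hzN⟩, Subgroup.mem_subgroupOf.mpr hz.1⟩, ?_⟩
    apply Subtype.ext
    apply Subtype.ext
    exact hzc
  · rintro ⟨cl, hcl⟩
    obtain ⟨g₀, rfl⟩ := ConjClasses.mk_surjective cl
    let S : Set G := {x | ∃ hx : x ∈ K, ConjClasses.mk (⟨x, hx⟩ : K) = ConjClasses.mk g₀}
    have hS : S.Nonempty := ⟨g₀, g₀.2, rfl⟩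
    have hA : ∀ a ∈ H, ∀ s ∈ S, a * s * a⁻¹ ∈ S := by
      rintro a ha s ⟨hs, hs'⟩
      exact ⟨hK.conj_mem s hs a,
        hcl a ha ⟨s, hs⟩ ⟨a * s * a⁻¹, hK.conj_mem s hs a⟩ rfl hs'⟩
    have hKS : ∀ k ∈ K, ∀ s ∈ S, k * s * k⁻¹ ∈ S := by
      rintro k hk s ⟨hs, hs'⟩
      refine ⟨hK.conj_mem s hs k, ?_⟩
      rw [← hs', ConjClasses.mk_eq_mk_iff_isConj, isConj_iff]
      refine ⟨⟨k⁻¹, K.inv_mem hk⟩, ?_⟩
      apply Subtype.ext
      change k⁻¹ * (k * s * k⁻¹) * k⁻¹⁻¹ = s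
      group
    have htrans : ∀ s ∈ S, ∀ t ∈ S, ∃ k ∈ K, k * s * k⁻¹ = t := by
      rintro s ⟨hs, hs'⟩ t ⟨ht, ht'⟩
      have : ConjClasses.mk (⟨s, hs⟩ : K) = ConjClasses.mk ⟨t, ht⟩ := hs'.trans ht'.symm
      rw [ConjClasses.mk_eq_mk_iff_isConj, isConj_iff] at this
      obtain ⟨k, hk⟩ := this
      exact ⟨k, k.2, congrArg Subtype.val hk⟩
    obtain ⟨s, ⟨hs, hs'⟩, hfix⟩ := glauberman_conjAct (A := H) (K := K) hHK hcop.symm
      (Or.inl hsolv) hS hA hKS htrans
    have hsN : s ∈ Subgroup.normalizer (H : Set G) := by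
      apply Subgroup.centralizer_le_normalizer
      rw [Subgroup.mem_centralizer_iff]
      intro h hh
      have := hfix h hh
      calc h * s = h * s * h⁻¹ * h := by group
        _ = s * h := by rw [this]
    refine ⟨ConjClasses.mk ⟨⟨s, hsN⟩, Subgroup.mem_subgroupOf.mpr hs⟩, ?_⟩
    apply Subtype.ext
    exact hs'

end ClassCount

end Cfsg.Agent.Helper74
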