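/-
Helper library of seat helper74: `G = K H`, `K` normal, coprime orders, `H` solvable:
`G` and `N_G(H)` have the same number of irreducible characters of degree prime to `|H|`.
-/
import Cfsg.Agent.Helper74.PDeg3

set_option autoImplicit false

namespace Cfsg.Agent.Helper74

open Cfsg

universe u

section Final

variable {G : Type u} [Group G] [Finite G]

theorem card_pdeg_normalizer (K H : Subgroup G) [hK : K.Normal] (hKH : K ⊔ H = ⊤)
    (hcop : (Nat.card K).Coprime (Nat.card H)) (hsolv : Group.IsSolvable H) :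
    Nat.card {χ : IrrCharacter G // (charDegree (χ : G → ℂ)).Coprime (Nat.card H)} =
    Nat.card {η : IrrCharacter (Subgroup.normalizer (H : Set G)) //
      (charDegree (η : Subgroup.normalizer (H : Set G) → ℂ)).Coprime (Nat.card H)} := by
  classical
  letI : Fintype G := Fintype.ofFinite G
  letI : Fintype K := Fintype.ofFinite K
  letI : Fintype (Subgroup.normalizer (H : Set G)) := Fintype.ofFinite _
  have hbot : K ⊓ H = ⊥ := disjoint_iff.mp (Subgroup.disjoint_of_coprime_natCard hcop)
  have hHN : H ≤ Subgroup.normalizer (H : Set G) := Subgroup.le_normalizer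
  have hcardH' : Nat.card (H.subgroupOf (Subgroup.normalizer (H : Set G))) = Nat.card H :=
    Nat.card_congr (Subgroup.subgroupOfEquivOfLe hHN).toEquiv
  have hK'top : K.subgroupOf (Subgroup.normalizer (H : Set G)) ⊔
      H.subgroupOf (Subgroup.normalizer (H : Set G)) = ⊤ := by
    rw [eq_top_iff]
    intro x _
    have hx : (x : G) ∈ K ⊔ H := by rw [hKH]; trivial
    obtain ⟨k, hk, h, hh, hkh⟩ := Subgroup.mem_sup_of_normal_left.mp hx
    have hkN : k ∈ Subgroup.normalizer (H : Set G) := by
      have : k = (x : G) * h⁻¹ := by rw [← hkh]; group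
      rw [this]
      exact Subgroup.mul_mem _ x.2 (Subgroup.inv_mem _ (hHN hh))
    have : x = ⟨k, hkN⟩ * ⟨h, hHN hh⟩ := Subtype.ext hkh.symm
    rw [this]
    exact Subgroup.mul_mem_sup (Subgroup.mem_subgroupOf.mpr hk) (Subgroup.mem_subgroupOf.mpr hh)
  have hK'bot : K.subgroupOf (Subgroup.normalizer (H : Set G)) ⊓
      H.subgroupOf (Subgroup.normalizer (H : Set G)) = ⊥ := by
    rw [eq_bot_iff]
    rintro x ⟨hx1, hx2⟩
    have : (x : G) ∈ K ⊓ H := ⟨Subgroup.mem_subgroupOf.mp hx1, Subgroup.mem_subgroupOf.mp hx2⟩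
    rw [hbot, Subgroup.mem_bot] at this
    rw [Subgroup.mem_bot]
    exact Subtype.ext this
  have hcardK' : Nat.card (K.subgroupOf (Subgroup.normalizer (H : Set G))) ∣ Nat.card K := by
    let j : K.subgroupOf (Subgroup.normalizer (H : Set G)) →* K :=
      { toFun := fun x => ⟨((x : Subgroup.normalizer (H : Set G)) : G),
          Subgroup.mem_subgroupOf.mp x.2⟩
        map_one' := rfl
        map_mul' := fun _ _ => rfl }
    apply Subgroup.card_dvd_of_injective j
    intro x y hxy
    apply Subtype.ext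
    apply Subtype.ext
    exact congrArg (fun z : K => (z : G)) hxy
  have hcop' : (Nat.card (K.subgroupOf (Subgroup.normalizer (H : Set G)))).Coprime
      (Nat.card (H.subgroupOf (Subgroup.normalizer (H : Set G)))) := by
    rw [hcardH']
    exact Nat.Coprime.coprime_dvd_left hcardK' hcop
  have hA := card_pdeg K H hKH hcop
  have hB := card_pdeg (K.subgroupOf (Subgroup.normalizer (H : Set G)))
    (H.subgroupOf (Subgroup.normalizer (H : Set G))) hK'top hcop'
  rw [hcardH'] at hB
  have hL := card_lin_trivial K H hbot hKH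
  have hL' := card_lin_trivial (K.subgroupOf (Subgroup.normalizer (H : Set G)))
    (H.subgroupOf (Subgroup.normalizer (H : Set G))) hK'bot hK'top
  have hLeq : Nat.card (H.subgroupOf (Subgroup.normalizer (H : Set G)) →* ℂˣ) =
      Nat.card (H →* ℂˣ) :=
    Nat.card_congr (MulEquiv.monoidHomCongrLeftEquiv (Subgroup.subgroupOfEquivOfLe hHN))
  -- invariant characters of `K`
  have hY : Nat.card {θ : IrrCharacter K // ∀ (g : G) (k : K),
      (θ : K → ℂ) ⟨g * k * g⁻¹, hK.conj_mem (k : G) k.2 g⟩ = (θ : K → ℂ) k} =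
      Nat.card {χ : IrrCharacter K // (∀ s ∈ H, ∀ g g' : K, (g' : G) = s * g * s⁻¹ →
        (χ : K → ℂ) g' = (χ : K → ℂ) g)} := by
    apply Nat.card_congr
    apply Equiv.subtypeEquivRight
    intro θ
    constructor
    · intro h s _ g g' hgg'
      have : g' = ⟨s * g * s⁻¹, hK.conj_mem (g : G) g.2 s⟩ := Subtype.ext hgg'
      rw [this]
      exact h s g
    · intro h g k
      have hg : g ∈ K ⊔ H := by rw [hKH]; trivial
      obtain ⟨k₁, hk₁, h₁, hh₁, rfl⟩ := Subgroup.mem_sup_of_normal_left.mp hg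
      have e1 : (⟨k₁ * h₁ * k * (k₁ * h₁)⁻¹, hK.conj_mem (k : G) k.2 (k₁ * h₁)⟩ : K) =
          ⟨k₁, hk₁⟩ * ⟨h₁ * k * h₁⁻¹, hK.conj_mem (k : G) k.2 h₁⟩ * ⟨k₁, hk₁⟩⁻¹ := by
        apply Subtype.ext
        change k₁ * h₁ * k * (k₁ * h₁)⁻¹ = k₁ * (h₁ * k * h₁⁻¹) * k₁⁻¹
        group
      rw [e1, Helper79.isCharacter_isClassFunction (Helper79.irr_isCharacter θ)]
      exact h h₁ hh₁ k ⟨h₁ * k * h₁⁻¹, hK.conj_mem (k : G) k.2 h₁⟩ rfl
  have hcount := solv_count_subgroup K H (fun s _ g hg => hK.conj_mem g hg s) hcop hsolv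
  have hcl := card_inv_classes K H hcop hsolv
  -- all characters of `K ∩ N` are invariant in `N`
  have hY' : Nat.card {θ : IrrCharacter (K.subgroupOf (Subgroup.normalizer (H : Set G))) //
      ∀ (g : Subgroup.normalizer (H : Set G))
        (k : K.subgroupOf (Subgroup.normalizer (H : Set G))),
      (θ : K.subgroupOf (Subgroup.normalizer (H : Set G)) → ℂ)
        ⟨g * k * g⁻¹, Subgroup.Normal.conj_mem inferInstance
          (k : Subgroup.normalizer (H : Set G)) k.2 g⟩ =
        (θ : K.subgroupOf (Subgroup.normalizer (H : Set G)) → ℂ) k} =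
      Nat.card (IrrCharacter (K.subgroupOf (Subgroup.normalizer (H : Set G)))) := by
    apply Nat.card_congr
    apply Equiv.subtypeUnivEquiv
    intro θ g k
    have hg : g ∈ K.subgroupOf (Subgroup.normalizer (H : Set G)) ⊔
        H.subgroupOf (Subgroup.normalizer (H : Set G)) := by rw [hK'top]; trivial
    obtain ⟨k₁, hk₁, h₁, hh₁, rfl⟩ := Subgroup.mem_sup_of_normal_left.mp hg
    have hcomm : (h₁ : G) * ((k : Subgroup.normalizer (H : Set G)) : G) =
        ((k : Subgroup.normalizer (H : Set G)) : G) * (h₁ : G) :=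
      commute_of_mem_normalizer K H hbot (Subgroup.mem_subgroupOf.mp k.2)
        (k : Subgroup.normalizer (H : Set G)).2 (Subgroup.mem_subgroupOf.mp hh₁)
    have e1 : (⟨k₁ * h₁ * k * (k₁ * h₁)⁻¹, Subgroup.Normal.conj_mem inferInstance
          (k : Subgroup.normalizer (H : Set G)) k.2 (k₁ * h₁)⟩ :
          K.subgroupOf (Subgroup.normalizer (H : Set G))) =
        ⟨k₁, hk₁⟩ * k * ⟨k₁, hk₁⟩⁻¹ := by
      apply Subtype.ext
      apply Subtype.ext
      change (k₁ : G) * (h₁ : G) * ((k : Subgroup.normalizer (H : Set G)) : G) *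
        ((k₁ : G) * (h₁ : G))⁻¹ = (k₁ : G) * ((k : Subgroup.normalizer (H : Set G)) : G) *
          (k₁ : G)⁻¹
      rw [mul_assoc (k₁ : G), hcomm]
      group
    rw [e1, Helper79.isCharacter_isClassFunction (Helper79.irr_isCharacter θ)]
  have hirr := Helper80.natCard_irr_eq_card_conjClasses
    (G := K.subgroupOf (Subgroup.normalizer (H : Set G)))
  rw [hA, hB, hL, hL', hLeq, hY, hcount, hcl, hY', hirr]

end Final

end Cfsg.Agent.Helper74
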