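/-
Helper library of seat helper74 (relative Glauberman correspondence, part 1): actions of a group
`A` on `X` by automorphisms, restricted to invariant subgroups and quotients; induction commutes
with automorphisms; invariant canonical extensions; irreducibility from an irreducible restriction.
-/
import Cfsg.Agent.Helper74.Over1
import Cfsg.Agent.Helper74.PDeg
import Cfsg.Agent.Helper74.IrrRep
import Cfsg.Agent.Helper15.ProjExt
import Cfsg.Agent.Helper15.DetChar
import Cfsg.Agent.Helper3.IndFun

set_option autoImplicit false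

namespace Cfsg.Agent.Helper74

open Cfsg

universe u

section RgAct

variable {X : Type*} [Group X] {A : Type*} [Group A]

/-- Restriction of an action by automorphisms to an invariant subgroup. -/
def rgActRes (φ : A →* MulAut X) (H : Subgroup X) (hH : ∀ x : A, ∀ y ∈ H, φ x y ∈ H) :
    A →* MulAut ↥H where
  toFun x :=
    { toFun := fun y => ⟨φ x y.1, hH x y.1 y.2⟩
      invFun := fun y => ⟨φ x⁻¹ y.1, hH x⁻¹ y.1 y.2⟩
      left_inv := fun y => by
        apply Subtype.ext
        show φ x⁻¹ (φ x y.1) = y.1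
        rw [map_inv, MulAut.inv_apply_self]
      right_inv := fun y => by
        apply Subtype.ext
        show φ x (φ x⁻¹ y.1) = y.1
        rw [map_inv, MulAut.apply_inv_self]
      map_mul' := fun a b => Subtype.ext (map_mul (φ x) a.1 b.1) }
  map_one' := by
    ext y
    show φ 1 y.1 = y.1
    rw [map_one]
    rfl
  map_mul' a b := by
    ext y
    show φ (a * b) y.1 = φ a (φ b y.1)
    rw [map_mul]
    rfl

theorem rgActRes_apply_coe (φ : A →* MulAut X) (H : Subgroup X)
    (hH : ∀ x : A, ∀ y ∈ H, φ x y ∈ H) (x : A) (y : H) :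
    ((rgActRes φ H hH x y : H) : X) = φ x y := rfl

/-- The induced action on the quotient by an invariant normal subgroup. -/
def rgActQuot (φ : A →* MulAut X) (N : Subgroup X) [N.Normal]
    (hN : ∀ x : A, ∀ y ∈ N, φ x y ∈ N) : A →* MulAut (X ⧸ N) where
  toFun x :=
    { toFun := QuotientGroup.map N N (φ x).toMonoidHom (fun y hy => hN x y hy)
      invFun := QuotientGroup.map N N (φ x⁻¹).toMonoidHom (fun y hy => hN x⁻¹ y hy)
      left_inv := fun q => by
        induction q using QuotientGroup.induction_on with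
        | H y =>
          show ((φ x⁻¹ (φ x y) : X) : X ⧸ N) = (y : X ⧸ N)
          rw [map_inv, MulAut.inv_apply_self]
      right_inv := fun q => by
        induction q using QuotientGroup.induction_on with
        | H y =>
          show ((φ x (φ x⁻¹ y) : X) : X ⧸ N) = (y : X ⧸ N)
          rw [map_inv, MulAut.apply_inv_self]
      map_mul' := fun a b => map_mul _ a b }
  map_one' := by
    ext q
    induction q using QuotientGroup.induction_on with
    | H y =>
      show ((φ 1 y : X) : X ⧸ N) = (y : X ⧸ N)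
      rw [map_one]
      rfl
  map_mul' a b := by
    ext q
    induction q using QuotientGroup.induction_on with
    | H y =>
      show ((φ (a * b) y : X) : X ⧸ N) = ((φ a (φ b y) : X) : X ⧸ N)
      rw [map_mul]
      rfl

theorem rgActQuot_mk (φ : A →* MulAut X) (N : Subgroup X) [N.Normal]
    (hN : ∀ x : A, ∀ y ∈ N, φ x y ∈ N) (x : A) (y : X) :
    rgActQuot φ N hN x (y : X ⧸ N) = ((φ x y : X) : X ⧸ N) := rfl

/-- Induction commutes with automorphisms. -/
theorem rg_indFun_aut [Fintype X] (a : MulAut X) (H : Subgroup X) (hH : ∀ y, a y ∈ H ↔ y ∈ H)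
    (ψ ψ' : H → ℂ) (h : ∀ y : H, ψ ⟨a y, (hH y).mpr y.2⟩ = ψ' y) (k : X) :
    indFun H ψ (a k) = indFun H ψ' k := by
  unfold indFun
  congr 1
  rw [← Equiv.sum_comp a.toEquiv (fun x => extendByZero H ψ (x⁻¹ * a k * x))]
  apply Finset.sum_congr rfl
  intro y _
  show extendByZero H ψ ((a y)⁻¹ * a k * a y) = extendByZero H ψ' (y⁻¹ * k * y)
  have e : (a y)⁻¹ * a k * a y = a (y⁻¹ * k * y) := by
    rw [map_mul, map_mul, map_inv]
  rw [e]
  by_cases hm : y⁻¹ * k * y ∈ H
  · rw [Helper3.extendByZero_of_mem H ψ ((hH _).mpr hm), Helper3.extendByZero_of_mem H ψ' hm]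
    exact h ⟨_, hm⟩
  · rw [Helper3.extendByZero_of_not_mem H ψ (fun h' => hm ((hH _).mp h')),
      Helper3.extendByZero_of_not_mem H ψ' hm]

end RgAct

section RgDet

/-- The determinantal order is invariant under transport along an isomorphism. -/
theorem rg_detOrder_comp {Y X : Type u} [Group Y] [Group X] [Finite X] [Finite Y] (e : Y ≃* X)
    {χ : X → ℂ} (hχ : IsCharacter X χ) : detOrder (fun y => χ (e y)) = detOrder χ := by
  obtain ⟨n, ρ, rfl⟩ := hχ
  have h1 := Cfsg.Agent.Helper15.detChar_of_rep ρ ρ.character ⟨n, ρ, rfl⟩ rfl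
  have h2 := Cfsg.Agent.Helper15.detChar_of_rep (ρ.comp e.toMonoidHom)
    (fun y => ρ.character (e y)) ⟨n, ρ.comp e.toMonoidHom, rfl⟩ rfl
  unfold detOrder
  rw [h1, h2]
  let Φ : (X → ℂ) →* (Y → ℂ) :=
    { toFun := fun f y => f (e y)
      map_one' := rfl
      map_mul' := fun f h => rfl }
  have hinj : Function.Injective Φ := fun f h hfh => by
    funext g
    have := congrFun hfh (e.symm g)
    simpa [Φ] using this
  exact orderOf_injective Φ hinj (fun g => LinearMap.det (ρ g))

/-- A character whose restriction to a subgroup is irreducible is irreducible. -/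
theorem rg_irr_of_restrict {Y : Type*} [Group Y] (M : Subgroup Y) [Fintype M] {α : Y → ℂ}
    (hα : IsCharacter Y α) (h : IsIrrCharacter M (fun m : M => α m)) : IsIrrCharacter Y α := by
  obtain ⟨d, ρ, rfl⟩ := hα
  obtain ⟨σ, hσ⟩ : ∃ σ : Representation ℂ M (Fin d → ℂ), σ = ρ.comp M.subtype := ⟨_, rfl⟩
  have h0 : σ.character = fun m : M => ρ.character m := by rw [hσ]; rfl
  have h1 : σ.IsIrreducible := isIrreducible_of_irr_character σ (h0 ▸ h)
  exact ⟨d, ρ, Helper15.isIrreducible_of_restrict σ h1 (fun n => by rw [hσ]; rfl), rfl⟩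

/-- A character along an injective... composite: if `α ∘ f` is irreducible then so is `α`. -/
theorem rg_irr_of_comp {Y Z : Type*} [Group Y] [Group Z] [Fintype Z] (f : Z →* Y) {α : Y → ℂ}
    (hα : IsCharacter Y α) (h : IsIrrCharacter Z (fun z => α (f z))) : IsIrrCharacter Y α := by
  classical
  obtain ⟨d, ρ, rfl⟩ := hα
  obtain ⟨σ, hσ⟩ : ∃ σ : Representation ℂ Z (Fin d → ℂ), σ = ρ.comp f := ⟨_, rfl⟩
  have h0 : σ.character = fun z : Z => ρ.character (f z) := by rw [hσ]; rfl
  have h1 : σ.IsIrreducible := isIrreducible_of_irr_character σ (h0 ▸ h)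
  refine ⟨d, ρ, ?_, rfl⟩
  rw [Cfsg.Agent.Helper79.isIrreducible_iff] at h1 ⊢
  refine ⟨h1.1, fun S hS => h1.2 S ?_⟩
  intro z v hv
  rw [hσ]
  exact hS (f z) v hv

/-- An invariant irreducible character of a normal Hall subgroup has an extension which is
invariant under every group of automorphisms fixing the character. -/
theorem rg_exists_inv_extension {Y : Type u} [Group Y] [Fintype Y] (M : Subgroup Y)
    [hM : M.Normal] (hcop : (Nat.card M).Coprime M.index) (θ : M → ℂ) (hθ : IsIrrCharacter M θ)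
    (hinv : ∀ (g : Y) (m : M), θ ⟨g * m * g⁻¹, hM.conj_mem (m : Y) m.2 g⟩ = θ m)
    {A : Type*} [Group A] (φ : A →* MulAut Y) (hMφ : ∀ x : A, ∀ y ∈ M, φ x y ∈ M)
    (hθφ : ∀ (x : A) (m : M), θ ⟨φ x m, hMφ x m m.2⟩ = θ m) :
    ∃ χ : Y → ℂ, IsIrrCharacter Y χ ∧ (∀ m : M, χ m = θ m) ∧
      ∀ (x : A) (y : Y), χ (φ x y) = χ y := by
  have hd : θ 1 = (charDegree θ : ℂ) := Helper80.irr_one_eq ⟨θ, hθ⟩
  have h1 : detOrder θ ∣ Nat.card M := detOrder_dvd_card (Helper79.isCharacter_of_irr hθ)
  have h2 : charDegree θ ∣ Nat.card M := Helper79.irr_charDegree_dvd_card ⟨θ, hθ⟩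
  have hc : Nat.Coprime M.index (detOrder θ * charDegree θ) :=
    Nat.Coprime.mul_right (Nat.Coprime.coprime_dvd_right h1 hcop.symm)
      (Nat.Coprime.coprime_dvd_right h2 hcop.symm)
  obtain ⟨χ, ⟨hχ, hext, hdet⟩, huniq⟩ := Cfsg.Agent.S0867.result M θ hθ hinv _ hd hc
  refine ⟨χ, hχ, hext, ?_⟩
  intro x y
  have h3 : (fun y => χ (φ x y)) = χ := by
    apply huniq
    · exact (Helper79.isIrrCharacter_mulEquiv (φ x)).mpr hχ
    · intro m
      have := hext ⟨φ x m, hMφ x m m.2⟩
      rw [hθφ] at this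
      exact this
    · rw [rg_detOrder_comp (φ x) (Helper79.isCharacter_of_irr hχ), hdet]
      exact Nat.Coprime.coprime_dvd_right h1 hcop.symm
  exact congrFun h3 y

end RgDet

end Cfsg.Agent.Helper74
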