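/-
Helper library of seat helper74 (relative Glauberman correspondence, part 2): the Clifford
correspondence and Gallagher's theorem, packaged for later use.
-/
import Cfsg.Agent.Helper74.RelGl1
import Cfsg.Agent.Helper75.CliffordCorr
import Cfsg.Agent.Helper15.Gallagher2
import Cfsg.Agent.Helper76.PrincipalInd
import Cfsg.Agent.Helper15.BergerB3Tools
import Cfsg.Agent.Helper3.Induced

set_option autoImplicit false

namespace Cfsg.Agent.Helper74

open Cfsg

open scoped ComplexConjugate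

section RgClifford

variable {X : Type*} [Group X] [Fintype X] {N T : Subgroup X} [hN : N.Normal] [Fintype N]
  [Fintype T]

/-- Clifford correspondence: induction from the inertia group is irreducible. -/
theorem rg_clifford_irr (hNT : N ≤ T) {θ : N → ℂ} (hθ : IsIrrCharacter N θ)
    (hT : ∀ g : X, g ∈ T ↔ Helper75.conjFun N g θ = θ) {ψ : T → ℂ} (hψ : IsIrrCharacter T ψ)
    (hf : classInner (Helper75.resTo hNT ψ) θ ≠ 0) :
    IsIrrCharacter X (indFun T ψ) ∧ classInner (fun n : N => indFun T ψ n) θ ≠ 0 ∧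
      classInner (fun t : T => indFun T ψ t) ψ ≠ 0 := by
  classical
  have hψc := Helper79.isCharacter_of_irr hψ
  have hind : IsCharacter X (indFun T ψ) := Helper3.isCharacter_indFun T ψ hψc
  have h1 : indFun T ψ 1 ≠ 0 := by
    rw [Helper75.indFun_one]
    refine mul_ne_zero (div_ne_zero ?_ ?_) (Helper3.irr_apply_one_ne_zero hψ)
    · exact_mod_cast Nat.card_pos.ne'
    · exact_mod_cast Nat.card_pos.ne'
  obtain ⟨χ, hχ, hχne⟩ := Helper75.exists_irr_constituent hind h1
  have hχc := Helper79.isCharacter_of_irr hχ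
  have hc : classInner (fun t : T => χ t) ψ ≠ 0 := by
    rw [Helper3.frobenius_reciprocity T ψ χ (Helper79.isCharacter_isClassFunction hχc)] at hχne
    intro h0
    apply hχne
    rw [Helper15.classInner_conj_symm, h0, map_zero]
  obtain ⟨h2, h3⟩ := Helper75.clifford_correspondence hNT hθ hT hψ hχ hf hc
  rw [h2]
  exact ⟨hχ, by rw [h3]; exact hf, hc⟩

/-- Clifford correspondence: surjectivity. -/
theorem rg_clifford_surj (hNT : N ≤ T) {θ : N → ℂ} (hθ : IsIrrCharacter N θ)
    (hT : ∀ g : X, g ∈ T ↔ Helper75.conjFun N g θ = θ) {χ : X → ℂ} (hχ : IsIrrCharacter X χ)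
    (hne : classInner (fun n : N => χ n) θ ≠ 0) :
    ∃ ψ : T → ℂ, IsIrrCharacter T ψ ∧ classInner (Helper75.resTo hNT ψ) θ ≠ 0 ∧
      indFun T ψ = χ := by
  obtain ⟨ψ, hψ, hc, hf⟩ := Helper75.exists_irr_over hNT (Helper79.isCharacter_of_irr hθ)
    (Helper79.isCharacter_of_irr hχ) hne
  exact ⟨ψ, hψ, hf, (Helper75.clifford_correspondence hNT hθ hT hψ hχ hf hc).1⟩

/-- Clifford correspondence: the multiplicity of a character of the inertia group over `θ` in the
restriction of an induced character. -/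
theorem rg_clifford_mult (hNT : N ≤ T) {θ : N → ℂ} (hθ : IsIrrCharacter N θ)
    (hT : ∀ g : X, g ∈ T ↔ Helper75.conjFun N g θ = θ) {ψ ψ' : T → ℂ}
    (hψ : IsIrrCharacter T ψ) (hf : classInner (Helper75.resTo hNT ψ) θ ≠ 0)
    (hψ' : IsIrrCharacter T ψ') (hf' : classInner (Helper75.resTo hNT ψ') θ ≠ 0) :
    classInner (fun t : T => indFun T ψ t) ψ' = if ψ' = ψ then 1 else 0 := by
  classical
  letI : Fintype (IrrCharacter T) := Fintype.ofFinite _
  obtain ⟨hχ, hχθ, hc⟩ := rg_clifford_irr hNT hθ hT hψ hf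
  obtain ⟨χ, hχdef⟩ : ∃ χ : X → ℂ, χ = indFun T ψ := ⟨_, rfl⟩
  rw [← hχdef] at hχ hχθ hc ⊢
  have hχc := Helper79.isCharacter_of_irr hχ
  have hθc := Helper79.isCharacter_of_irr hθ
  have hcorr := (Helper75.clifford_correspondence hNT hθ hT hψ hχ hf hc).2
  by_cases hne : ψ' = ψ
  · rw [if_pos hne, hne]
    obtain ⟨m, k, hm, hk, he⟩ := Helper75.exists_restrict_mults hNT hθc hχc
    have h1 : ((∑ φ : IrrCharacter T, m φ * k φ : ℕ) : ℂ) = (k ⟨ψ, hψ⟩ : ℂ) := by
      rw [← he, hcorr, hk ⟨ψ, hψ⟩]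
    have h2 : ∑ φ : IrrCharacter T, m φ * k φ = k ⟨ψ, hψ⟩ := by exact_mod_cast h1
    have h3 : m ⟨ψ, hψ⟩ * k ⟨ψ, hψ⟩ ≤ ∑ φ : IrrCharacter T, m φ * k φ :=
      Finset.single_le_sum (f := fun φ => m φ * k φ) (fun _ _ => Nat.zero_le _)
        (Finset.mem_univ _)
    have hkpos : 0 < k ⟨ψ, hψ⟩ := by
      rcases Nat.eq_zero_or_pos (k ⟨ψ, hψ⟩) with h0 | h0
      · exfalso
        apply hf
        have := hk ⟨ψ, hψ⟩
        rw [h0] at this
        simpa using this
      · exact h0
    have hmpos : 0 < m ⟨ψ, hψ⟩ := by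
      rcases Nat.eq_zero_or_pos (m ⟨ψ, hψ⟩) with h0 | h0
      · exfalso
        apply hc
        have := hm ⟨ψ, hψ⟩
        rw [h0] at this
        simpa using this
      · exact h0
    have h4 : m ⟨ψ, hψ⟩ = 1 := by nlinarith
    have := hm ⟨ψ, hψ⟩
    rw [h4] at this
    simpa using this
  · rw [if_neg hne]
    by_contra hc'
    obtain ⟨e, f, f', he, hf1, hf2, hle⟩ :=
      Helper75.restrict_mult_add_le hNT hθc hχc hψ hψ' (fun h => hne h.symm) hc hc'
    have h1 : (e : ℂ) = (f : ℂ) := by rw [← he, ← hf1, hcorr]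
    have h2 : e = f := by exact_mod_cast h1
    have h3 : f' = 0 := by omega
    apply hf'
    rw [hf2, h3]
    simp

/-- Clifford correspondence: injectivity. -/
theorem rg_clifford_inj (hNT : N ≤ T) {θ : N → ℂ} (hθ : IsIrrCharacter N θ)
    (hT : ∀ g : X, g ∈ T ↔ Helper75.conjFun N g θ = θ) {ψ ψ' : T → ℂ}
    (hψ : IsIrrCharacter T ψ) (hf : classInner (Helper75.resTo hNT ψ) θ ≠ 0)
    (hψ' : IsIrrCharacter T ψ') (hf' : classInner (Helper75.resTo hNT ψ') θ ≠ 0)
    (h : indFun T ψ = indFun T ψ') : ψ = ψ' := by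
  have h1 := rg_clifford_mult hNT hθ hT hψ hf hψ' hf'
  have h2 := rg_clifford_mult hNT hθ hT hψ' hf' hψ' hf'
  rw [h] at h1
  rw [if_pos rfl] at h2
  rw [h2] at h1
  by_contra hne
  rw [if_neg (fun h => hne h.symm)] at h1
  exact one_ne_zero h1

end RgClifford

section RgGallagher

variable {Y : Type*} [Group Y] [Fintype Y] (M : Subgroup Y) [hM : M.Normal] [Fintype M]

/-- An irreducible constituent of a character with `M` in its kernel has `M` in its kernel. -/
theorem rg_triv_of_constituent {b : Y → ℂ} (hb : IsCharacter Y b) (hbM : ∀ y ∈ M, b y = b 1)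
    {γ : Y → ℂ} (hγ : IsIrrCharacter Y γ) (hne : classInner b γ ≠ 0) : ∀ y ∈ M, γ y = γ 1 := by
  classical
  rw [← Helper15.inner_ind_one_ne_zero_iff M hγ]
  have hγc := Helper79.isCharacter_of_irr hγ
  rw [Helper3.frobenius_reciprocity M _ _ (Helper79.isCharacter_isClassFunction hγc)]
  have hγM : IsCharacter M (fun m : M => γ m) := Helper79.isCharacter_restrict hγc M
  have h1 : (fun m : M => γ m) 1 ≠ 0 := Helper3.irr_apply_one_ne_zero hγ
  obtain ⟨μ, hμ, hμne⟩ := Helper75.exists_irr_constituent hγM h1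
  have h2 : classInner (fun m : M => b m) μ ≠ 0 :=
    Helper76.classInner_comp_ne_zero M.subtype hb ⟨γ, hγ⟩ hne (Helper79.isCharacter_of_irr hμ)
      hμne
  have h3 : (fun m : M => b m) = (b 1) • (fun _ : M => (1 : ℂ)) := by
    funext m
    simp [hbM m m.2]
  rw [h3, Helper15.classInner_smul_left] at h2
  have h4 : classInner (fun _ : M => (1 : ℂ)) μ ≠ 0 := right_ne_zero_of_mul h2
  have h5 : (fun _ : M => (1 : ℂ)) = μ := by
    by_contra hne'
    exact h4 (Helper15.irr_inner_ne Helper79.isIrrCharacter_one hμ hne')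
  subst h5
  intro h0
  apply hμne
  rw [Helper15.classInner_conj_symm, h0, map_zero]

variable {θh : Y → ℂ}

/-- Gallagher: `β θ̂` is irreducible. -/
theorem rg_gallagher_irr (hθh : IsIrrCharacter Y θh)
    (hθhM : IsIrrCharacter M (fun m : M => θh m)) {β : Y → ℂ} (hβ : IsIrrCharacter Y β)
    (hβM : ∀ y ∈ M, β y = β 1) : IsIrrCharacter Y (β * θh) := by
  have hone : IsIrrCharacter M (fun _ : M => (1 : ℂ)) := Helper79.isIrrCharacter_one
  have hmul : ((fun _ : M => (1 : ℂ)) * fun n : M => θh n) = fun n : M => θh n := by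
    funext n
    simp
  have hprod : IsIrrCharacter M ((fun _ : M => (1 : ℂ)) * fun n : M => θh n) := by
    rw [hmul]
    exact hθhM
  exact (Helper15.gallagher_mul_irr M (fun _ => 1) (fun n : M => θh n) hone (fun _ _ => rfl) hprod
    θh (Helper79.isCharacter_of_irr hθh) (fun _ => rfl) β hβ
    ((Helper15.inner_ind_one_ne_zero_iff M hβ).mpr hβM)).1

/-- Gallagher: every irreducible character over `θ̂|_M` is `β θ̂`. -/
theorem rg_gallagher_surj (hθh : IsIrrCharacter Y θh)
    (hθhM : IsIrrCharacter M (fun m : M => θh m)) {ψ : Y → ℂ} (hψ : IsIrrCharacter Y ψ)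
    (hne : classInner (fun m : M => ψ m) (fun m : M => θh m) ≠ 0) :
    ∃ β : Y → ℂ, IsIrrCharacter Y β ∧ (∀ y ∈ M, β y = β 1) ∧ ψ = β * θh := by
  obtain ⟨h1, h2, h3⟩ := (Helper15.gallagher_average M θh hθh hθhM ψ hψ).1 hne
  exact ⟨_, h1, h2, h3⟩

/-- Gallagher: orthonormality of the `β θ̂`. -/
theorem rg_gallagher_inner (hθh : IsIrrCharacter Y θh)
    (hθhM : IsIrrCharacter M (fun m : M => θh m)) {β γ : Y → ℂ} (hβ : IsIrrCharacter Y β)
    (hβM : ∀ y ∈ M, β y = β 1) (hγ : IsIrrCharacter Y γ) (hγM : ∀ y ∈ M, γ y = γ 1) :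
    classInner (β * θh) (γ * θh) = if β = γ then 1 else 0 := by
  classical
  have hone : IsIrrCharacter M (fun _ : M => (1 : ℂ)) := Helper79.isIrrCharacter_one
  have hmul : ((fun _ : M => (1 : ℂ)) * fun n : M => θh n) = fun n : M => θh n := by
    funext n
    simp
  have hprod : IsIrrCharacter M ((fun _ : M => (1 : ℂ)) * fun n : M => θh n) := by
    rw [hmul]
    exact hθhM
  have := Helper15.gallagher_core M (fun _ => 1) (fun n : M => θh n) hone (fun _ _ => rfl) hprod
    θh (Helper79.isCharacter_of_irr hθh) (fun _ => rfl) ⟨β, hβ⟩ ⟨γ, hγ⟩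
    ((Helper15.inner_ind_one_ne_zero_iff M hβ).mpr hβM)
    ((Helper15.inner_ind_one_ne_zero_iff M hγ).mpr hγM)
  rw [this]
  by_cases h : β = γ
  · rw [if_pos h, if_pos (Subtype.ext h)]
  · rw [if_neg h, if_neg (fun h' => h (congrArg Subtype.val h'))]

/-- Gallagher: injectivity. -/
theorem rg_gallagher_inj (hθh : IsIrrCharacter Y θh)
    (hθhM : IsIrrCharacter M (fun m : M => θh m)) {β γ : Y → ℂ} (hβ : IsIrrCharacter Y β)
    (hβM : ∀ y ∈ M, β y = β 1) (hγ : IsIrrCharacter Y γ) (hγM : ∀ y ∈ M, γ y = γ 1)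
    (h : β * θh = γ * θh) : β = γ := by
  have h1 := rg_gallagher_inner M hθh hθhM hβ hβM hγ hγM
  have h2 := rg_gallagher_inner M hθh hθhM hβ hβM hβ hβM
  rw [if_pos rfl] at h2
  rw [← h, h2] at h1
  by_contra hne
  rw [if_neg hne] at h1
  exact one_ne_zero h1

/-- Gallagher: multiplication by `θ̂` preserves the inner product of a character with `M` in its
kernel and an irreducible character with `M` in its kernel. -/
theorem rg_gallagher_mult (hθh : IsIrrCharacter Y θh)
    (hθhM : IsIrrCharacter M (fun m : M => θh m)) {b γ : Y → ℂ} (hb : IsCharacter Y b)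
    (hbM : ∀ y ∈ M, b y = b 1) (hγ : IsIrrCharacter Y γ) (hγM : ∀ y ∈ M, γ y = γ 1) :
    classInner (b * θh) (γ * θh) = classInner b γ := by
  classical
  letI : Fintype (IrrCharacter Y) := Fintype.ofFinite _
  have hsum := Helper75.character_eq_sum_irr hb
  have h1 : b * θh = ∑ γ' : IrrCharacter Y, classInner b (γ' : Y → ℂ) • ((γ' : Y → ℂ) * θh) := by
    conv_lhs => rw [hsum]
    rw [Finset.sum_mul]
    apply Finset.sum_congr rfl
    intro γ' _
    rw [smul_mul_assoc]
  rw [h1, Helper15.classInner_sum_left]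
  rw [Finset.sum_eq_single (⟨γ, hγ⟩ : IrrCharacter Y)]
  · rw [Helper15.classInner_smul_left, rg_gallagher_inner M hθh hθhM hγ hγM hγ hγM, if_pos rfl,
      mul_one]
  · intro γ' _ hne
    rw [Helper15.classInner_smul_left]
    by_cases h0 : classInner b (γ' : Y → ℂ) = 0
    · rw [h0, zero_mul]
    · have hγ'M := rg_triv_of_constituent M hb hbM γ'.2 h0
      rw [rg_gallagher_inner M hθh hθhM γ'.2 hγ'M hγ hγM,
        if_neg (fun h => hne (Subtype.ext h)), mul_zero]
  · intro h
    exact absurd (Finset.mem_univ _) h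

end RgGallagher

end Cfsg.Agent.Helper74
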