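/-
Helper library of seat helper74 (relative Glauberman correspondence, part 3): multiplicities of
Clifford correspondents across a homomorphism, and the Glauberman correspondence of a `p`-group
acting on a quotient of order prime to `p`.
-/
import Cfsg.Agent.Helper74.RelGl2
import Cfsg.Agent.Helper74.GlaubInd

set_option autoImplicit false

namespace Cfsg.Agent.Helper74

open Cfsg

open scoped ComplexConjugate

universe u v

section RgCross

/-- The multiplicity of an irreducible character `η` of `ι⁻¹(T)` lying over `θ` in the restriction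
of the Clifford correspondent `ψ^K` equals its multiplicity in the restriction of `ψ`. -/
theorem rg_cross_mult {K : Type*} [Group K] [Fintype K] {C : Type*} [Group C]
    (ι : C →* K) {Q T : Subgroup K} [hQ : Q.Normal] [Fintype Q] [Fintype T] (hQT : Q ≤ T)
    {θ : Q → ℂ} (hθ : IsIrrCharacter Q θ) (hT : ∀ g : K, g ∈ T ↔ Helper75.conjFun Q g θ = θ)
    {ψ : T → ℂ} (hψ : IsIrrCharacter T ψ) (hf : classInner (Helper75.resTo hQT ψ) θ ≠ 0)
    [Fintype ↥(T.comap ι)] {η : ↥(T.comap ι) → ℂ} (hη : IsIrrCharacter ↥(T.comap ι) η)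
    {R : Type*} [Group R] [Fintype R] (r₁ : R →* ↥(T.comap ι)) (r₂ : R →* Q)
    (hr₂ : Function.Surjective r₂) (hr : ∀ r : R, ι (r₁ r : C) = (r₂ r : K))
    (hηθ : classInner (fun r : R => η (r₁ r)) (fun r : R => θ (r₂ r)) ≠ 0) :
    classInner (fun t : ↥(T.comap ι) => indFun T ψ (ι t)) η =
      classInner (fun t : ↥(T.comap ι) => ψ ⟨ι t, t.2⟩) η := by
  classical
  letI : Fintype (IrrCharacter T) := Fintype.ofFinite _
  obtain ⟨hχ, hχθ, hc⟩ := rg_clifford_irr hQT hθ hT hψ hf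
  have hmult := fun (ψ' : T → ℂ) (hψ' : IsIrrCharacter T ψ')
    (hf' : classInner (Helper75.resTo hQT ψ') θ ≠ 0) => rg_clifford_mult hQT hθ hT hψ hf hψ' hf'
  obtain ⟨χ, hχdef⟩ : ∃ χ : K → ℂ, χ = indFun T ψ := ⟨_, rfl⟩
  rw [← hχdef] at hχ hχθ hc hmult ⊢
  have hχc := Helper79.isCharacter_of_irr hχ
  have hres : IsCharacter T (fun t : T => χ t) := Helper79.isCharacter_restrict hχc T
  have hsum := Helper75.character_eq_sum_irr hres
  obtain ⟨j, hj⟩ : ∃ j : ↥(T.comap ι) →* T, j = ι.subgroupComap T := ⟨_, rfl⟩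
  have hjc : ∀ t : ↥(T.comap ι), ((j t : T) : K) = ι t := fun t => by rw [hj]; rfl
  have h1 : (fun t : ↥(T.comap ι) => χ (ι t)) = ∑ ψ'' : IrrCharacter T,
      classInner (fun t : T => χ t) (ψ'' : T → ℂ) •
        (fun t : ↥(T.comap ι) => (ψ'' : T → ℂ) (j t)) := by
    funext t
    have h2 := congrFun hsum (j t)
    rw [Finset.sum_apply] at h2 ⊢
    simp only [Pi.smul_apply] at h2 ⊢
    rw [← h2, hjc]
  have h5 : (fun t : ↥(T.comap ι) => ψ ⟨ι t, t.2⟩) = fun t : ↥(T.comap ι) => ψ (j t) := by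
    funext t
    exact congrArg ψ (Subtype.ext (hjc t).symm)
  rw [h1, h5, Helper15.classInner_sum_left, Finset.sum_eq_single (⟨ψ, hψ⟩ : IrrCharacter T)]
  · rw [Helper15.classInner_smul_left, hmult ψ hψ hf, if_pos rfl, one_mul]
  · intro ψ'' _ hne
    rw [Helper15.classInner_smul_left]
    by_cases h0 : classInner (fun t : ↥(T.comap ι) => (ψ'' : T → ℂ) (j t)) η = 0
    · rw [h0, mul_zero]
    · have h2 : classInner (fun r : R => (ψ'' : T → ℂ) (j (r₁ r))) (fun r : R => θ (r₂ r)) ≠ 0 :=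
        Helper76.classInner_comp_ne_zero r₁
          (Helper79.isCharacter_comp (Helper79.irr_isCharacter ψ'') j) ⟨η, hη⟩ h0
          (Helper79.isCharacter_comp (Helper79.isCharacter_of_irr hθ) r₂) hηθ
      have h3 : (fun r : R => (ψ'' : T → ℂ) (j (r₁ r))) =
          fun r : R => Helper75.resTo hQT (ψ'' : T → ℂ) (r₂ r) := by
        funext r
        rw [Helper75.resTo_apply]
        refine congrArg (ψ'' : T → ℂ) (Subtype.ext ?_)
        rw [hjc]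
        exact hr r
      rw [h3, Helper15.classInner_comp_surj r₂ hr₂] at h2
      have h4 := hmult ψ'' ψ''.2 h2
      rw [if_neg (fun h => hne (Subtype.ext h))] at h4
      rw [h4, zero_mul]
  · intro h
    exact absurd (Finset.mem_univ _) h

end RgCross

section RgGlaubQuot

/-- **Glauberman correspondence for a `p`-group acting on a quotient of order prime to `p`**,
phrased for characters with the normal subgroup in their kernel. -/
theorem rg_glaub_quot (p : ℕ) [Fact p.Prime] {Y : Type u} [Group Y] [Fintype Y] {YC : Type v}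
    [Group YC] [Fintype YC] (j : YC →* Y) (hj : Function.Injective j) (M : Subgroup Y)
    [hM : M.Normal] {A : Type*} [Group A] (hA : IsPGroup p A) (φ : A →* MulAut Y)
    (hMφ : ∀ x : A, ∀ y ∈ M, φ x y ∈ M)
    (hfix : ∀ y : Y, y ∈ j.range ↔ ∀ x : A, φ x y * y⁻¹ ∈ M) (hpM : ¬ p ∣ M.index) :
    (∀ β : Y → ℂ, IsIrrCharacter Y β → (∀ y ∈ M, β y = β 1) →
      (∀ (x : A) (y : Y), β (φ x y) = β y) →
      ∃ γ : YC → ℂ, IsIrrCharacter YC γ ∧ (∀ c : YC, j c ∈ M → γ c = γ 1) ∧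
        ∃ m : ℕ, classInner (fun c => β (j c)) γ = (m : ℂ) ∧
          ((m : ZMod p) = 1 ∨ (m : ZMod p) = -1)) ∧
    (∀ β : Y → ℂ, IsIrrCharacter Y β → (∀ y ∈ M, β y = β 1) →
      (∀ (x : A) (y : Y), β (φ x y) = β y) →
      ∀ γ γ' : YC → ℂ, IsIrrCharacter YC γ → IsIrrCharacter YC γ' →
        (∀ c : YC, j c ∈ M → γ c = γ 1) → (∀ c : YC, j c ∈ M → γ' c = γ' 1) →
        ∀ m m' : ℕ, classInner (fun c => β (j c)) γ = (m : ℂ) →
          classInner (fun c => β (j c)) γ' = (m' : ℂ) → ¬ p ∣ m → ¬ p ∣ m' → γ = γ') ∧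
    (∀ γ : YC → ℂ, IsIrrCharacter YC γ → (∀ c : YC, j c ∈ M → γ c = γ 1) →
      ∃ β : Y → ℂ, IsIrrCharacter Y β ∧ (∀ y ∈ M, β y = β 1) ∧
        (∀ (x : A) (y : Y), β (φ x y) = β y) ∧
        ∃ m : ℕ, classInner (fun c => β (j c)) γ = (m : ℂ) ∧ ¬ p ∣ m) ∧
    (∀ β β' : Y → ℂ, IsIrrCharacter Y β → IsIrrCharacter Y β' → (∀ y ∈ M, β y = β 1) →
      (∀ y ∈ M, β' y = β' 1) → (∀ (x : A) (y : Y), β (φ x y) = β y) →
      (∀ (x : A) (y : Y), β' (φ x y) = β' y) →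
      ∀ γ : YC → ℂ, IsIrrCharacter YC γ → (∀ c : YC, j c ∈ M → γ c = γ 1) →
        ∀ m m' : ℕ, classInner (fun c => β (j c)) γ = (m : ℂ) →
          classInner (fun c => β' (j c)) γ = (m' : ℂ) → ¬ p ∣ m → ¬ p ∣ m' → β = β') := by
  classical
  have hp : p.Prime := Fact.out
  obtain ⟨MC, hMC⟩ : ∃ MC : Subgroup YC, MC = M.comap j := ⟨_, rfl⟩
  haveI hMCn : MC.Normal := by rw [hMC]; exact hM.comap j
  have hMCmem : ∀ c : YC, c ∈ MC ↔ j c ∈ M := fun c => by rw [hMC]; rfl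
  obtain ⟨jb, hjb⟩ : ∃ jb : YC ⧸ MC →* Y ⧸ M, ∀ c : YC, jb (c : YC ⧸ MC) = ((j c : Y) : Y ⧸ M) :=
    ⟨QuotientGroup.map MC M j (fun c hc => (hMCmem c).mp hc), fun c => rfl⟩
  have hjbinj : Function.Injective jb := by
    rw [injective_iff_map_eq_one]
    intro q hq
    obtain ⟨c, rfl⟩ := QuotientGroup.mk_surjective q
    rw [hjb, QuotientGroup.eq_one_iff] at hq
    exact (QuotientGroup.eq_one_iff c).mpr ((hMCmem c).mpr hq)
  obtain ⟨Φ, hΦ⟩ : ∃ Φ : A →* MulAut (Y ⧸ M), Φ = rgActQuot φ M hMφ := ⟨_, rfl⟩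
  have hΦmk : ∀ (x : A) (y : Y), Φ x (y : Y ⧸ M) = ((φ x y : Y) : Y ⧸ M) := fun x y => by
    rw [hΦ]; rfl
  obtain ⟨𝒜, h𝒜⟩ : ∃ 𝒜 : Subgroup (MulAut (Y ⧸ M)), 𝒜 = Φ.range := ⟨_, rfl⟩
  have hA' : IsPGroup p 𝒜 := by
    rw [h𝒜]
    exact IsPGroup.of_surjective hA Φ.rangeRestrict Φ.rangeRestrict_surjective
  haveI : Finite (MulAut (Y ⧸ M)) :=
    Finite.of_injective (fun a : MulAut (Y ⧸ M) => (a : Y ⧸ M → Y ⧸ M)) DFunLike.coe_injective
  have hcop : (Fintype.card (Y ⧸ M)).Coprime (Nat.card 𝒜) := by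
    obtain ⟨n, hn⟩ := IsPGroup.iff_card.mp hA'
    rw [hn]
    apply Nat.Coprime.pow_right
    rw [Nat.coprime_comm, hp.coprime_iff_not_dvd, ← Nat.card_eq_fintype_card]
    exact hpM
  have hfixb : ∀ g : Y ⧸ M, (∀ a ∈ 𝒜, a g = g) ↔ g ∈ jb.range := by
    intro g
    obtain ⟨y, rfl⟩ := QuotientGroup.mk_surjective g
    constructor
    · intro h
      have h1 : ∀ x : A, φ x y * y⁻¹ ∈ M := by
        intro x
        have h2 := h (Φ x) (by rw [h𝒜]; exact ⟨x, rfl⟩)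
        rw [hΦmk] at h2
        have h3 := QuotientGroup.eq.mp h2
        have h4 := hM.conj_mem _ (M.inv_mem h3) (φ x y)
        convert h4 using 1
        group
      obtain ⟨c, hc⟩ := (hfix y).mpr h1
      exact ⟨(c : YC ⧸ MC), by rw [hjb, hc]⟩
    · rintro ⟨q, hq⟩ a ha
      rw [h𝒜] at ha
      obtain ⟨x, rfl⟩ := ha
      obtain ⟨c, rfl⟩ := QuotientGroup.mk_surjective q
      rw [hjb] at hq
      rw [← hq, hΦmk]
      apply QuotientGroup.eq.mpr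
      have h1 := (hfix (j c)).mp ⟨c, rfl⟩ x
      have h4 := hM.conj_mem _ (M.inv_mem h1) (φ x (j c))⁻¹
      convert h4 using 1
      group
  obtain ⟨R1, R2, R3, R4⟩ :=
    glaub_pgroup_aux p (Fintype.card (Y ⧸ M)) (Y ⧸ M) rfl 𝒜 hA' hcop jb hjbinj hfixb
  -- transports
  have hdeflβ : ∀ β : Y → ℂ, IsIrrCharacter Y β → (∀ y ∈ M, β y = β 1) →
      (∀ (x : A) (y : Y), β (φ x y) = β y) →
      ∃ βb : IrrCharacter (Y ⧸ M), (∀ y : Y, (βb : Y ⧸ M → ℂ) (y : Y ⧸ M) = β y) ∧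
        ∀ a ∈ 𝒜, ∀ g, (βb : Y ⧸ M → ℂ) (a g) = (βb : Y ⧸ M → ℂ) g := by
    intro β hβ hβM hβinv
    obtain ⟨βb, hβb, hβbmk⟩ := Helper79.exists_irr_deflation M hβ hβM
    refine ⟨⟨βb, hβb⟩, hβbmk, ?_⟩
    intro a ha g
    rw [h𝒜] at ha
    obtain ⟨x, rfl⟩ := ha
    obtain ⟨y, rfl⟩ := QuotientGroup.mk_surjective g
    show βb (Φ x (y : Y ⧸ M)) = βb (y : Y ⧸ M)
    rw [hΦmk, hβbmk, hβbmk, hβinv]
  have hdeflγ : ∀ γ : YC → ℂ, IsIrrCharacter YC γ → (∀ c : YC, j c ∈ M → γ c = γ 1) →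
      ∃ γb : IrrCharacter (YC ⧸ MC), ∀ c : YC, (γb : YC ⧸ MC → ℂ) (c : YC ⧸ MC) = γ c := by
    intro γ hγ hγM
    obtain ⟨γb, hγb, hγbmk⟩ := Helper79.exists_irr_deflation MC hγ
      (fun c hc => hγM c ((hMCmem c).mp hc))
    exact ⟨⟨γb, hγb⟩, hγbmk⟩
  have hinner : ∀ (β : Y → ℂ) (βb : Y ⧸ M → ℂ) (γ : YC → ℂ) (γb : YC ⧸ MC → ℂ),
      (∀ y : Y, βb (y : Y ⧸ M) = β y) → (∀ c : YC, γb (c : YC ⧸ MC) = γ c) →
      classInner (fun c => β (j c)) γ = classInner (fun q => βb (jb q)) γb := by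
    intro β βb γ γb h1 h2
    rw [← Helper15.classInner_comp_surj (QuotientGroup.mk' MC) (QuotientGroup.mk'_surjective MC)
      (fun q => βb (jb q)) γb]
    congr 1
    · funext c
      show β (j c) = βb (jb (c : YC ⧸ MC))
      rw [hjb, h1]
    · funext c
      exact (h2 c).symm
  refine ⟨?_, ?_, ?_, ?_⟩
  · intro β hβ hβM hβinv
    obtain ⟨βb, hβb, hβbinv⟩ := hdeflβ β hβ hβM hβinv
    obtain ⟨γb, ⟨m, hm, hpm⟩, -⟩ := R1 βb hβbinv
    have hmod := R2 βb hβbinv γb m hm hpm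
    refine ⟨fun c => (γb : YC ⧸ MC → ℂ) (c : YC ⧸ MC),
      Helper79.isIrrCharacter_comp (QuotientGroup.mk' MC) (QuotientGroup.mk'_surjective MC) γb.2,
      ?_, m, ?_, ?_⟩
    · intro c hc
      have h1 : (c : YC ⧸ MC) = ((1 : YC) : YC ⧸ MC) := by
        rw [QuotientGroup.mk_one, QuotientGroup.eq_one_iff]
        exact (hMCmem c).mpr hc
      show (γb : YC ⧸ MC → ℂ) (c : YC ⧸ MC) = (γb : YC ⧸ MC → ℂ) ((1 : YC) : YC ⧸ MC)
      rw [h1]
    · rw [hinner β βb _ γb hβb (fun c => rfl)]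
      exact hm
    · rcases hmod with h | h
      · left
        have := (ZMod.intCast_eq_intCast_iff _ _ p).mpr h
        simpa using this
      · right
        have := (ZMod.intCast_eq_intCast_iff _ _ p).mpr h
        simpa using this
  · intro β hβ hβM hβinv γ γ' hγ hγ' hγM hγ'M m m' hm hm' hpm hpm'
    obtain ⟨βb, hβb, hβbinv⟩ := hdeflβ β hβ hβM hβinv
    obtain ⟨γb, hγb⟩ := hdeflγ γ hγ hγM
    obtain ⟨γb', hγb'⟩ := hdeflγ γ' hγ' hγ'M
    rw [hinner β βb γ γb hβb hγb] at hm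
    rw [hinner β βb γ' γb' hβb hγb'] at hm'
    have h1 := ExistsUnique.unique (R1 βb hβbinv) ⟨m, hm, hpm⟩ ⟨m', hm', hpm'⟩
    funext c
    rw [← hγb c, ← hγb' c, h1]
  · intro γ hγ hγM
    obtain ⟨γb, hγb⟩ := hdeflγ γ hγ hγM
    obtain ⟨χb, hχbinv, m, hm, hpm⟩ := R4 γb
    refine ⟨fun y => (χb : Y ⧸ M → ℂ) (y : Y ⧸ M),
      Helper79.isIrrCharacter_comp (QuotientGroup.mk' M) (QuotientGroup.mk'_surjective M) χb.2,
      ?_, ?_, m, ?_, hpm⟩
    · intro y hy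
      have h1 : (y : Y ⧸ M) = ((1 : Y) : Y ⧸ M) := by
        rw [QuotientGroup.mk_one, QuotientGroup.eq_one_iff]
        exact hy
      show (χb : Y ⧸ M → ℂ) (y : Y ⧸ M) = (χb : Y ⧸ M → ℂ) ((1 : Y) : Y ⧸ M)
      rw [h1]
    · intro x y
      show (χb : Y ⧸ M → ℂ) ((φ x y : Y) : Y ⧸ M) = (χb : Y ⧸ M → ℂ) (y : Y ⧸ M)
      rw [← hΦmk]
      exact hχbinv (Φ x) (by rw [h𝒜]; exact ⟨x, rfl⟩) _
    · rw [hinner _ χb γ γb (fun y => rfl) hγb]
      exact hm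
  · intro β β' hβ hβ' hβM hβ'M hβinv hβ'inv γ hγ hγM m m' hm hm' hpm hpm'
    obtain ⟨βb, hβb, hβbinv⟩ := hdeflβ β hβ hβM hβinv
    obtain ⟨βb', hβb', hβbinv'⟩ := hdeflβ β' hβ' hβ'M hβ'inv
    obtain ⟨γb, hγb⟩ := hdeflγ γ hγ hγM
    rw [hinner β βb γ γb hβb hγb] at hm
    rw [hinner β' βb' γ γb hβb' hγb] at hm'
    have h1 := R3 βb βb' hβbinv hβbinv' γb m m' hm hpm hm' hpm'
    funext y
    rw [← hβb y, ← hβb' y, h1]

end RgGlaubQuot

end Cfsg.Agent.Helper74
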