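/-
Helper library of seat helper74 (relative Glauberman correspondence, part 4): a `p`-group `A`
acting on `X` with an invariant normal subgroup `N` of index prime to `p`: an invariant
irreducible character of `X` lies over an invariant irreducible character of `N`, and two
invariant characters of `N` conjugate in `X` are conjugate by an element fixed modulo `N`.
-/
import Cfsg.Agent.Helper74.RelGl2
import Cfsg.Agent.Helper74.GlaubComp
import Cfsg.Agent.Helper75.Ito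

set_option autoImplicit false

namespace Cfsg.Agent.Helper74

open Cfsg

open scoped ComplexConjugate

section RgFixed

variable {X : Type*} [Group X] [Fintype X]

omit [Fintype X] in
/-- The number of irreducible constituents of the restriction of an irreducible character to a
normal subgroup divides the index. -/
theorem rg_ncard_constituents_dvd (N : Subgroup X) [hN : N.Normal] [Fintype N] {χ : X → ℂ}
    (hχ : IsIrrCharacter X χ) :
    Set.ncard {θ : IrrCharacter N | classInner (fun n : N => χ n) (θ : N → ℂ) ≠ 0} ∣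
      N.index := by
  classical
  have hχc := Helper79.isCharacter_of_irr hχ
  have hres : IsCharacter N (fun n : N => χ n) := Helper79.isCharacter_restrict hχc N
  have h1 : (fun n : N => χ n) 1 ≠ 0 := Helper3.irr_apply_one_ne_zero hχ
  obtain ⟨θ₀, hθ₀, hθ₀ne⟩ := Helper75.exists_irr_constituent hres h1
  letI : MulAction (MulAut N) (IrrCharacter N) := irrMulAction
  letI : MulAction X (IrrCharacter N) :=
    MulAction.compHom (IrrCharacter N) (MulAut.conjNormal : X →* MulAut N)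
  have hsmul : ∀ (g : X) (θ : IrrCharacter N) (n : N),
      ((g • θ : IrrCharacter N) : N → ℂ) n = (θ : N → ℂ) (MulAut.conjNormal g⁻¹ n) := by
    intro g θ n
    show (θ : N → ℂ) ((MulAut.conjNormal g : MulAut N)⁻¹ n) = _
    rw [← map_inv]
  have hset : {θ : IrrCharacter N | classInner (fun n : N => χ n) (θ : N → ℂ) ≠ 0} =
      MulAction.orbit X (⟨θ₀, hθ₀⟩ : IrrCharacter N) := by
    ext θ
    constructor
    · intro hθ
      obtain ⟨g, hg⟩ := Helper75.clifford_irrCharacter N χ hχ (θ : N → ℂ) θ₀ θ.2 hθ₀ hθ hθ₀ne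
      refine ⟨g⁻¹, ?_⟩
      apply Subtype.ext
      funext n
      show ((g⁻¹ • (⟨θ₀, hθ₀⟩ : IrrCharacter N) : IrrCharacter N) : N → ℂ) n = (θ : N → ℂ) n
      rw [hsmul, inv_inv, hg]
    · rintro ⟨g, rfl⟩
      show classInner (fun n : N => χ n)
        ((g • (⟨θ₀, hθ₀⟩ : IrrCharacter N) : IrrCharacter N) : N → ℂ) ≠ 0
      have h2 : ((g • (⟨θ₀, hθ₀⟩ : IrrCharacter N) : IrrCharacter N) : N → ℂ) =
          fun n => θ₀ ((MulAut.conjNormal g⁻¹ : N ≃* N).toEquiv n) := by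
        funext n
        exact hsmul g _ n
      have h5 : classInner (fun n : N => χ (((MulAut.conjNormal g⁻¹ : N ≃* N).toEquiv n : N) : X))
          (fun n => θ₀ ((MulAut.conjNormal g⁻¹ : N ≃* N).toEquiv n)) =
          classInner (fun n : N => χ n) θ₀ :=
        classInner_comp_equiv (MulAut.conjNormal g⁻¹ : N ≃* N).toEquiv (fun n : N => χ n) θ₀
      have h6 : (fun n : N => χ (((MulAut.conjNormal g⁻¹ : N ≃* N).toEquiv n : N) : X)) =
          fun n : N => χ n := by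
        funext n
        show χ ((MulAut.conjNormal g⁻¹ n : N) : X) = χ n
        rw [MulAut.conjNormal_apply]
        exact Helper79.isCharacter_conj_eq hχc (n : X) g⁻¹
      rw [h2]
      have h9 : classInner (fun n : N => χ n)
          (fun n => θ₀ ((MulAut.conjNormal g⁻¹ : N ≃* N).toEquiv n)) =
          classInner (fun n : N => χ n) θ₀ := by
        rw [← h5, h6]
      rw [h9]
      exact hθ₀ne
  rw [hset, ← MulAction.index_stabilizer]
  apply Subgroup.index_dvd_of_le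
  intro n hn
  rw [MulAction.mem_stabilizer_iff]
  apply Subtype.ext
  funext m
  rw [hsmul]
  show θ₀ (MulAut.conjNormal n⁻¹ m) = θ₀ m
  have h4 : (MulAut.conjNormal n⁻¹ m : N) = (⟨n, hn⟩ : N)⁻¹ * m * (⟨n, hn⟩ : N)⁻¹⁻¹ := by
    apply Subtype.ext
    simp
  rw [h4]
  exact Helper79.isCharacter_conj_eq (Helper79.isCharacter_of_irr hθ₀) m _

variable (p : ℕ) [Fact p.Prime] {A : Type*} [Group A]

/-- An invariant irreducible character lies over an invariant irreducible character of an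
invariant normal subgroup of index prime to `p`. -/
theorem rg_exists_inv_constituent (hA : IsPGroup p A) (φ : A →* MulAut X)
    (N : Subgroup X) [hN : N.Normal] [Fintype N] (hNφ : ∀ x : A, ∀ y ∈ N, φ x y ∈ N)
    (hpN : ¬ p ∣ N.index) {χ : X → ℂ} (hχ : IsIrrCharacter X χ)
    (hχinv : ∀ (x : A) (k : X), χ (φ x k) = χ k) :
    ∃ θ : N → ℂ, IsIrrCharacter N θ ∧ (∀ (x : A) (n : N), θ ⟨φ x n, hNφ x n n.2⟩ = θ n) ∧
      classInner (fun n : N => χ n) θ ≠ 0 := by
  classical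
  letI : Fintype (IrrCharacter N) := Fintype.ofFinite _
  letI : MulAction (MulAut N) (IrrCharacter N) := irrMulAction
  letI : MulAction A (IrrCharacter N) :=
    MulAction.compHom (IrrCharacter N) (rgActRes φ N hNφ)
  have hsmul : ∀ (x : A) (θ : IrrCharacter N) (n : N),
      ((x • θ : IrrCharacter N) : N → ℂ) n = (θ : N → ℂ) (rgActRes φ N hNφ x⁻¹ n) := by
    intro x θ n
    show (θ : N → ℂ) ((rgActRes φ N hNφ x)⁻¹ n) = _
    rw [← map_inv]
  obtain ⟨Ω, hΩ⟩ : ∃ Ω : Finset (IrrCharacter N), Ω = Finset.univ.filter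
      (fun θ : IrrCharacter N => classInner (fun n : N => χ n) (θ : N → ℂ) ≠ 0) := ⟨_, rfl⟩
  have hΩmem : ∀ θ : IrrCharacter N, θ ∈ Ω ↔ classInner (fun n : N => χ n) (θ : N → ℂ) ≠ 0 := by
    intro θ
    rw [hΩ, Finset.mem_filter]
    simp
  have hΩcard : ¬ p ∣ Ω.card := by
    intro hdvd
    apply hpN
    have h1 := rg_ncard_constituents_dvd N hχ
    have h2 : {θ : IrrCharacter N | classInner (fun n : N => χ n) (θ : N → ℂ) ≠ 0} =
        (Ω : Set (IrrCharacter N)) := by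
      ext θ
      rw [Finset.mem_coe, hΩmem]
      rfl
    rw [h2, Set.ncard_coe_finset] at h1
    exact dvd_trans hdvd h1
  have hΩinv : ∀ (a : A), ∀ θ ∈ Ω, a • θ ∈ Ω := by
    intro a θ hθ
    rw [hΩmem] at hθ ⊢
    have h5 : classInner (fun n : N => χ ((rgActRes φ N hNφ a⁻¹ n : N) : X))
        (fun n => (θ : N → ℂ) (rgActRes φ N hNφ a⁻¹ n)) =
        classInner (fun n : N => χ n) (θ : N → ℂ) :=
      classInner_comp_equiv (rgActRes φ N hNφ a⁻¹).toEquiv (fun n : N => χ n) (θ : N → ℂ)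
    have h6 : (fun n : N => χ ((rgActRes φ N hNφ a⁻¹ n : N) : X)) = fun n : N => χ n := by
      funext n
      exact hχinv a⁻¹ n
    have h7 : ((a • θ : IrrCharacter N) : N → ℂ) =
        fun n => (θ : N → ℂ) (rgActRes φ N hNφ a⁻¹ n) := funext (hsmul a θ)
    rw [h7]
    have h9 : classInner (fun n : N => χ n)
        (fun n => (θ : N → ℂ) (rgActRes φ N hNφ a⁻¹ n)) =
        classInner (fun n : N => χ n) (θ : N → ℂ) := by
      rw [← h5, h6]
    rw [h9]
    exact hθ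
  by_contra hcon
  push Not at hcon
  apply hΩcard
  apply over_card_dvd_of_no_fixed hA Ω hΩinv
  intro θ hθ hfix
  rw [hΩmem] at hθ
  apply hθ
  apply hcon θ θ.2
  intro x n
  have h8 : ((x⁻¹ • θ : IrrCharacter N) : N → ℂ) n = (θ : N → ℂ) n := by rw [hfix x⁻¹]
  rw [hsmul, inv_inv] at h8
  exact h8

omit [Fintype X] in
/-- Conjugating elements between invariant functions are permuted by the action. -/
theorem rg_conj_aut (φ : A →* MulAut X) (N : Subgroup X) [hN : N.Normal]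
    (hNφ : ∀ x : A, ∀ y ∈ N, φ x y ∈ N) {θ₁ θ₂ : N → ℂ}
    (h₁ : ∀ (x : A) (n : N), θ₁ ⟨φ x n, hNφ x n n.2⟩ = θ₁ n)
    (h₂ : ∀ (x : A) (n : N), θ₂ ⟨φ x n, hNφ x n n.2⟩ = θ₂ n) (k : X) (x : A)
    (hk : Helper75.conjFun N k θ₁ = θ₂) : Helper75.conjFun N (φ x k) θ₁ = θ₂ := by
  funext n
  rw [Helper75.conjFun_apply]
  obtain ⟨n', hn'⟩ : ∃ n' : N, n' = ⟨φ x⁻¹ n, hNφ x⁻¹ n n.2⟩ := ⟨_, rfl⟩
  have e1 : φ x k * (n : X) * (φ x k)⁻¹ = φ x (k * n' * k⁻¹) := by
    rw [map_mul, map_mul, map_inv, hn']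
    show _ = φ x k * φ x (φ x⁻¹ n) * (φ x k)⁻¹
    rw [map_inv, MulAut.apply_inv_self]
  have e2 : θ₁ ⟨φ x k * (n : X) * (φ x k)⁻¹, hN.conj_mem n n.2 (φ x k)⟩ =
      θ₁ ⟨φ x ((⟨k * n' * k⁻¹, hN.conj_mem n' n'.2 k⟩ : N) : X),
        hNφ x _ (hN.conj_mem n' n'.2 k)⟩ := by
    refine congrArg θ₁ (Subtype.ext ?_)
    exact e1
  rw [e2, h₁ x ⟨k * n' * k⁻¹, hN.conj_mem n' n'.2 k⟩]
  have e3 := congrFun hk n'
  rw [Helper75.conjFun_apply] at e3
  rw [e3, hn']
  exact h₂ x⁻¹ n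

/-- Two invariant functions on `N` which are conjugate under `X` are conjugate under an element
fixed modulo `N`. -/
theorem rg_conj_fixed (hA : IsPGroup p A) (φ : A →* MulAut X) (N : Subgroup X)
    [hN : N.Normal] (hNφ : ∀ x : A, ∀ y ∈ N, φ x y ∈ N) (hpN : ¬ p ∣ N.index) {θ θ' : N → ℂ}
    (hθ : ∀ (x : A) (n : N), θ ⟨φ x n, hNφ x n n.2⟩ = θ n)
    (hθ' : ∀ (x : A) (n : N), θ' ⟨φ x n, hNφ x n n.2⟩ = θ' n) (g : X)
    (hg : Helper75.conjFun N g θ = θ') :
    ∃ c : X, (∀ x : A, φ x c * c⁻¹ ∈ N) ∧ Helper75.conjFun N c θ = θ' := by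
  classical
  have key : ∀ (θ₁ θ₂ : N → ℂ), (∀ (x : A) (n : N), θ₁ ⟨φ x n, hNφ x n n.2⟩ = θ₁ n) →
      (∀ (x : A) (n : N), θ₂ ⟨φ x n, hNφ x n n.2⟩ = θ₂ n) → ∀ (k : X) (x : A),
      Helper75.conjFun N k θ₁ = θ₂ → Helper75.conjFun N (φ x k) θ₁ = θ₂ :=
    fun θ₁ θ₂ h₁ h₂ k x hk => rg_conj_aut φ N hNφ h₁ h₂ k x hk
  obtain ⟨T, hT⟩ : ∃ T : Subgroup X, T = Helper75.inertia N θ := ⟨_, rfl⟩
  have hTmem : ∀ k : X, k ∈ T ↔ Helper75.conjFun N k θ = θ := fun k => by rw [hT]; rfl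
  have hTφ : ∀ (x : A) (t : X), t ∈ T → φ x t ∈ T := fun x t ht =>
    (hTmem _).mpr (key θ θ hθ hθ t x ((hTmem t).mp ht))
  letI : MulAction A (X ⧸ N) := MulAction.compHom (X ⧸ N) (rgActQuot φ N hNφ)
  have hsmul : ∀ (x : A) (y : X), x • (y : X ⧸ N) = ((φ x y : X) : X ⧸ N) := fun x y => rfl
  obtain ⟨Tb, hTb⟩ : ∃ Tb : Subgroup (X ⧸ N), Tb = T.map (QuotientGroup.mk' N) := ⟨_, rfl⟩
  obtain ⟨S, hS⟩ : ∃ S : Finset (X ⧸ N), S = Finset.image (fun q => q * (g : X ⧸ N))
      (Finset.univ.filter (fun q : X ⧸ N => q ∈ Tb)) := ⟨_, rfl⟩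
  have hSmem : ∀ q : X ⧸ N, q ∈ S ↔ ∃ t ∈ T, q = ((t * g : X) : X ⧸ N) := by
    intro q
    rw [hS, Finset.mem_image]
    constructor
    · rintro ⟨q', hq', rfl⟩
      rw [Finset.mem_filter, hTb, Subgroup.mem_map] at hq'
      obtain ⟨t, ht, rfl⟩ := hq'.2
      exact ⟨t, ht, rfl⟩
    · rintro ⟨t, ht, rfl⟩
      refine ⟨(t : X ⧸ N), ?_, rfl⟩
      rw [Finset.mem_filter, hTb, Subgroup.mem_map]
      exact ⟨Finset.mem_univ _, t, ht, rfl⟩
  have hScard : ¬ p ∣ S.card := by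
    intro hdvd
    apply hpN
    have h1 : S.card = Nat.card Tb := by
      rw [hS, Finset.card_image_of_injective _ (mul_left_injective _),
        Nat.card_eq_fintype_card, Fintype.card_subtype]
    rw [h1] at hdvd
    exact dvd_trans hdvd (Subgroup.card_subgroup_dvd_card Tb)
  have hSinv : ∀ (a : A), ∀ q ∈ S, a • q ∈ S := by
    intro a q hq
    rw [hSmem] at hq ⊢
    obtain ⟨t, ht, rfl⟩ := hq
    refine ⟨φ a t * (φ a g * g⁻¹), T.mul_mem (hTφ a t ht) ?_, ?_⟩
    · rw [hTmem, Helper75.conjFun_mul, key θ θ' hθ hθ' g a hg, ← hg,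
        Helper75.conjFun_conjFun_inv]
    · rw [hsmul, map_mul]
      congr 1
      group
  by_contra hcon
  push Not at hcon
  apply hScard
  apply over_card_dvd_of_no_fixed hA S hSinv
  intro q hq hfix
  rw [hSmem] at hq
  obtain ⟨t, ht, rfl⟩ := hq
  have h2 : Helper75.conjFun N (t * g) θ = θ' := by
    rw [Helper75.conjFun_mul, (hTmem t).mp ht, hg]
  refine hcon (t * g) ?_ h2
  intro x
  have h3 := hfix x
  rw [hsmul] at h3
  have h4 := QuotientGroup.eq.mp h3
  have h5 := hN.conj_mem _ (N.inv_mem h4) (φ x (t * g))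
  convert h5 using 1
  group

end RgFixed

end Cfsg.Agent.Helper74
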