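/-
Helper library of seat helper74 (relative Glauberman correspondence, part 5): the parametrisation
of the irreducible characters over an irreducible character `θ` of a normal subgroup which extends
to its inertia group (Clifford + Gallagher), and its equivariance.
-/
import Cfsg.Agent.Helper74.RelGl4

set_option autoImplicit false

namespace Cfsg.Agent.Helper74

open Cfsg

open scoped ComplexConjugate

section RgParam

variable {X : Type*} [Group X] [Fintype X] {N T : Subgroup X} [hN : N.Normal] [Fintype N]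
  [Fintype T]

/-- Clifford + Gallagher: the characters of `X` over `θ` are the `(β θ̂)^X`, `β` an irreducible
character of the inertia group `T` with `N` in its kernel. -/
theorem rg_param (hNT : N ≤ T) {θ : N → ℂ} (hθ : IsIrrCharacter N θ)
    (hT : ∀ g : X, g ∈ T ↔ Helper75.conjFun N g θ = θ) {θh : T → ℂ}
    (hθh : IsIrrCharacter T θh) (hext : ∀ n : N, θh ⟨n, hNT n.2⟩ = θ n) :
    (∀ β : T → ℂ, IsIrrCharacter T β → (∀ t : T, (t : X) ∈ N → β t = β 1) →
      IsIrrCharacter T (β * θh) ∧ classInner (Helper75.resTo hNT (β * θh)) θ ≠ 0 ∧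
        IsIrrCharacter X (indFun T (β * θh)) ∧
        classInner (fun n : N => indFun T (β * θh) n) θ ≠ 0) ∧
    (∀ χ : X → ℂ, IsIrrCharacter X χ → classInner (fun n : N => χ n) θ ≠ 0 →
      ∃ β : T → ℂ, IsIrrCharacter T β ∧ (∀ t : T, (t : X) ∈ N → β t = β 1) ∧
        indFun T (β * θh) = χ) ∧
    (∀ β β' : T → ℂ, IsIrrCharacter T β → IsIrrCharacter T β' →
      (∀ t : T, (t : X) ∈ N → β t = β 1) → (∀ t : T, (t : X) ∈ N → β' t = β' 1) →
      indFun T (β * θh) = indFun T (β' * θh) → β = β') ∧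
    (∀ b γ : T → ℂ, IsCharacter T b → (∀ t : T, (t : X) ∈ N → b t = b 1) →
      IsIrrCharacter T γ → (∀ t : T, (t : X) ∈ N → γ t = γ 1) →
      classInner (b * θh) (γ * θh) = classInner b γ) := by
  classical
  obtain ⟨M, hMdef⟩ : ∃ M : Subgroup T, M = N.subgroupOf T := ⟨_, rfl⟩
  haveI hMn : M.Normal := by rw [hMdef]; exact hN.subgroupOf T
  letI : Fintype M := Fintype.ofFinite _
  have hMmem : ∀ t : T, t ∈ M ↔ (t : X) ∈ N := fun t => by rw [hMdef]; rfl
  obtain ⟨e, he⟩ : ∃ e : M ≃* N, ∀ m : M, ((e m : N) : X) = ((m : T) : X) := by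
    subst hMdef
    exact ⟨Subgroup.subgroupOfEquivOfLe hNT, fun m => rfl⟩
  have hθhM_eq : (fun m : M => θh m) = fun m : M => θ (e m) := by
    funext m
    rw [← hext (e m)]
    exact congrArg θh (Subtype.ext (he m).symm)
  have hθhM : IsIrrCharacter M (fun m : M => θh m) := by
    rw [hθhM_eq]
    exact (Helper79.isIrrCharacter_mulEquiv e).mpr hθ
  -- "over θ" in the two languages
  have hover : ∀ ψ : T → ℂ, classInner (fun m : M => ψ m) (fun m : M => θh m) =
      classInner (Helper75.resTo hNT ψ) θ := by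
    intro ψ
    rw [hθhM_eq]
    have h1 : (fun m : M => ψ m) = fun m : M => Helper75.resTo hNT ψ (e m) := by
      funext m
      rw [Helper75.resTo_apply]
      exact congrArg ψ (Subtype.ext (he m).symm)
    rw [h1]
    exact Helper15.classInner_comp_surj e.toMonoidHom e.surjective (Helper75.resTo hNT ψ) θ
  have hK1 : ∀ β : T → ℂ, IsIrrCharacter T β → (∀ t : T, (t : X) ∈ N → β t = β 1) →
      IsIrrCharacter T (β * θh) ∧ classInner (Helper75.resTo hNT (β * θh)) θ ≠ 0 := by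
    intro β hβ hβN
    have hβM : ∀ y ∈ M, β y = β 1 := fun y hy => hβN y ((hMmem y).mp hy)
    refine ⟨rg_gallagher_irr M hθh hθhM hβ hβM, ?_⟩
    rw [← hover]
    have h1 : (fun m : M => (β * θh) m) = (β 1) • (fun m : M => θh m) := by
      funext m
      rw [Pi.mul_apply, hβM m m.2]
      rfl
    rw [h1, Helper15.classInner_smul_left, Helper15.irr_inner_self hθhM, mul_one]
    exact Helper3.irr_apply_one_ne_zero hβ
  refine ⟨?_, ?_, ?_, ?_⟩
  · intro β hβ hβN
    obtain ⟨h1, h2⟩ := hK1 β hβ hβN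
    obtain ⟨h3, h4, -⟩ := rg_clifford_irr hNT hθ hT h1 h2
    exact ⟨h1, h2, h3, h4⟩
  · intro χ hχ hχθ
    obtain ⟨ψ, hψ, hψθ, hψχ⟩ := rg_clifford_surj hNT hθ hT hχ hχθ
    rw [← hover] at hψθ
    obtain ⟨β, hβ, hβM, hψβ⟩ := rg_gallagher_surj M hθh hθhM hψ hψθ
    refine ⟨β, hβ, fun t ht => hβM t ((hMmem t).mpr ht), ?_⟩
    rw [← hψβ]
    exact hψχ
  · intro β β' hβ hβ' hβN hβ'N h
    obtain ⟨h1, h2⟩ := hK1 β hβ hβN
    obtain ⟨h1', h2'⟩ := hK1 β' hβ' hβ'N
    have h3 := rg_clifford_inj hNT hθ hT h1 h2 h1' h2' h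
    exact rg_gallagher_inj M hθh hθhM hβ (fun y hy => hβN y ((hMmem y).mp hy)) hβ'
      (fun y hy => hβ'N y ((hMmem y).mp hy)) h3
  · intro b γ hb hbN hγ hγN
    exact rg_gallagher_mult M hθh hθhM hb (fun y hy => hbN y ((hMmem y).mp hy)) hγ
      (fun y hy => hγN y ((hMmem y).mp hy))

/-- Equivariance of the parametrisation. -/
theorem rg_param_inv {A : Type*} [Group A] (φ : A →* MulAut X)
    (hNφ : ∀ x : A, ∀ y ∈ N, φ x y ∈ N) (hTφ : ∀ x : A, ∀ y ∈ T, φ x y ∈ T)
    (hNT : N ≤ T) {θ : N → ℂ} (hθ : IsIrrCharacter N θ)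
    (hT : ∀ g : X, g ∈ T ↔ Helper75.conjFun N g θ = θ) {θh : T → ℂ}
    (hθh : IsIrrCharacter T θh) (hext : ∀ n : N, θh ⟨n, hNT n.2⟩ = θ n)
    (hθhinv : ∀ (x : A) (t : T), θh ⟨φ x t, hTφ x t t.2⟩ = θh t)
    {β : T → ℂ} (hβ : IsIrrCharacter T β) (hβN : ∀ t : T, (t : X) ∈ N → β t = β 1) :
    (∀ (x : A) (t : T), β ⟨φ x t, hTφ x t t.2⟩ = β t) ↔
      (∀ (x : A) (k : X), indFun T (β * θh) (φ x k) = indFun T (β * θh) k) := by
  have hH : ∀ (x : A) (y : X), φ x y ∈ T ↔ y ∈ T := by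
    intro x y
    constructor
    · intro h
      have := hTφ x⁻¹ _ h
      rwa [map_inv, MulAut.inv_apply_self] at this
    · exact hTφ x y
  constructor
  · intro hβinv x k
    apply rg_indFun_aut (φ x) T (hH x) (β * θh) (β * θh)
    intro y
    rw [Pi.mul_apply, Pi.mul_apply]
    rw [show (⟨φ x y, (hH x y).mpr y.2⟩ : T) = ⟨φ x y, hTφ x y y.2⟩ from rfl, hβinv, hθhinv]
  · intro hχinv x
    obtain ⟨β', hβ'⟩ : ∃ β' : T → ℂ, β' = fun t : T => β ⟨φ x t, hTφ x t t.2⟩ := ⟨_, rfl⟩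
    have hβ'irr : IsIrrCharacter T β' := by
      rw [hβ']
      exact (Helper79.isIrrCharacter_mulEquiv (rgActRes φ T hTφ x)).mpr hβ
    have hβ'N : ∀ t : T, (t : X) ∈ N → β' t = β' 1 := by
      intro t ht
      rw [hβ']
      show β ⟨φ x t, hTφ x t t.2⟩ = β ⟨φ x ((1 : T) : X), hTφ x _ (1 : T).2⟩
      rw [hβN ⟨φ x t, hTφ x t t.2⟩ (hNφ x t ht)]
      refine congrArg β (Subtype.ext ?_)
      show (1 : X) = φ x ((1 : T) : X)
      rw [Subgroup.coe_one, map_one]
    have h1 : indFun T (β' * θh) = indFun T (β * θh) := by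
      funext k
      rw [← hχinv x k]
      symm
      apply rg_indFun_aut (φ x) T (hH x) (β * θh) (β' * θh)
      intro y
      rw [Pi.mul_apply, Pi.mul_apply, hβ']
      rw [show (⟨φ x y, (hH x y).mpr y.2⟩ : T) = ⟨φ x y, hTφ x y y.2⟩ from rfl, hθhinv]
    have h2 := (rg_param hNT hθ hT hθh hext).2.2.1 β' β hβ'irr hβ hβ'N hβN h1
    intro t
    have h3 := congrFun h2 t
    rw [hβ'] at h3
    exact h3

end RgParam

end Cfsg.Agent.Helper74
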