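/-
Helper library of seat helper74 (relative Glauberman correspondence, part 6): the correspondence
over a fixed invariant irreducible character `θ` of the normal Sylow `p`-subgroup `Q`.
-/
import Cfsg.Agent.Helper74.RelGl5
import Cfsg.Agent.Helper74.RelGl3

set_option autoImplicit false
set_option maxHeartbeats 1000000

namespace Cfsg.Agent.Helper74

open Cfsg

open scoped ComplexConjugate

universe u v w

section RgLocal

variable (p : ℕ) [Fact p.Prime] {K : Type u} [Group K] [Fintype K] {C : Type v} [Group C]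
  [Fintype C] {A : Type w} [Group A]

/-- The relative Glauberman correspondence over a fixed `A`-invariant irreducible character `θ`
of `Q`. -/
theorem rg_local (hA : IsPGroup p A) (ι : C →* K) (hι : Function.Injective ι)
    (φ : A →* MulAut K) (φC : A →* MulAut C)
    (hcompat : ∀ (x : A) (c : C), ι (φC x c) = φ x (ι c))
    (Q : Subgroup K) [hQ : Q.Normal] [Fintype Q] (hQφ : ∀ x : A, ∀ y ∈ Q, φ x y ∈ Q)
    (hcop : (Nat.card Q).Coprime Q.index) (hpQ : ¬ p ∣ Q.index)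
    (hC : ∀ k : K, k ∈ ι.range ↔ ∀ x : A, φ x k * k⁻¹ ∈ Q)
    [Fintype ↥(Q.comap ι)]
    (θ : Q → ℂ) (hθ : IsIrrCharacter Q θ)
    (hθinv : ∀ (x : A) (q : Q), θ ⟨φ x q, hQφ x q q.2⟩ = θ q) :
    (∀ χ : K → ℂ, IsIrrCharacter K χ → (∀ (x : A) (k : K), χ (φ x k) = χ k) →
      classInner (fun q : Q => χ q) θ ≠ 0 →
      ∃ ξ : C → ℂ, IsIrrCharacter C ξ ∧ (∀ (x : A) (c : C), ξ (φC x c) = ξ c) ∧
        ∃ m : ℕ, classInner (fun c => χ (ι c)) ξ = (m : ℂ) ∧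
          ((m : ZMod p) = 1 ∨ (m : ZMod p) = -1)) ∧
    (∀ χ : K → ℂ, IsIrrCharacter K χ → (∀ (x : A) (k : K), χ (φ x k) = χ k) →
      classInner (fun q : Q => χ q) θ ≠ 0 →
      ∀ ξ ξ' : C → ℂ, IsIrrCharacter C ξ → IsIrrCharacter C ξ' →
        classInner (fun q : ↥(Q.comap ι) => ξ q) (fun q : ↥(Q.comap ι) => θ ⟨ι q, q.2⟩) ≠ 0 →
        classInner (fun q : ↥(Q.comap ι) => ξ' q) (fun q : ↥(Q.comap ι) => θ ⟨ι q, q.2⟩) ≠ 0 →
        ∀ m m' : ℕ, classInner (fun c => χ (ι c)) ξ = (m : ℂ) →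
          classInner (fun c => χ (ι c)) ξ' = (m' : ℂ) → ¬ p ∣ m → ¬ p ∣ m' → ξ = ξ') ∧
    (∀ ξ : C → ℂ, IsIrrCharacter C ξ →
      classInner (fun q : ↥(Q.comap ι) => ξ q) (fun q : ↥(Q.comap ι) => θ ⟨ι q, q.2⟩) ≠ 0 →
      ∃ χ : K → ℂ, IsIrrCharacter K χ ∧ (∀ (x : A) (k : K), χ (φ x k) = χ k) ∧
        ∃ m : ℕ, classInner (fun c => χ (ι c)) ξ = (m : ℂ) ∧ ¬ p ∣ m) ∧
    (∀ χ χ' : K → ℂ, IsIrrCharacter K χ → IsIrrCharacter K χ' →
      (∀ (x : A) (k : K), χ (φ x k) = χ k) → (∀ (x : A) (k : K), χ' (φ x k) = χ' k) →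
      classInner (fun q : Q => χ q) θ ≠ 0 → classInner (fun q : Q => χ' q) θ ≠ 0 →
      ∀ ξ : C → ℂ, IsIrrCharacter C ξ →
        classInner (fun q : ↥(Q.comap ι) => ξ q) (fun q : ↥(Q.comap ι) => θ ⟨ι q, q.2⟩) ≠ 0 →
        ∀ m m' : ℕ, classInner (fun c => χ (ι c)) ξ = (m : ℂ) →
          classInner (fun c => χ' (ι c)) ξ = (m' : ℂ) → ¬ p ∣ m → ¬ p ∣ m' → χ = χ') := by
  classical
  -- the inertia group
  obtain ⟨T, hTdef⟩ : ∃ T : Subgroup K, T = Helper75.inertia Q θ := ⟨_, rfl⟩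
  have hT : ∀ g : K, g ∈ T ↔ Helper75.conjFun Q g θ = θ := fun g => by rw [hTdef]; rfl
  have hQT : Q ≤ T := by
    rw [hTdef]
    exact Helper75.le_inertia Q θ
      (Helper79.isCharacter_isClassFunction (Helper79.isCharacter_of_irr hθ))
  have hTφ : ∀ x : A, ∀ y ∈ T, φ x y ∈ T := fun x y hy =>
    (hT _).mpr (rg_conj_aut φ Q hQφ hθinv hθinv y x ((hT y).mp hy))
  letI : Fintype T := Fintype.ofFinite _
  -- the invariant extension
  obtain ⟨M, hMdef⟩ : ∃ M : Subgroup T, M = Q.subgroupOf T := ⟨_, rfl⟩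
  haveI hMn : M.Normal := by rw [hMdef]; exact hQ.subgroupOf T
  have hMmem : ∀ t : T, t ∈ M ↔ (t : K) ∈ Q := fun t => by rw [hMdef]; rfl
  have hMidx : M.index ∣ Q.index := by
    rw [hMdef]
    exact Subgroup.relIndex_dvd_index_of_normal Q T
  obtain ⟨e, he⟩ : ∃ e : M ≃* Q, ∀ m : M, ((e m : Q) : K) = ((m : T) : K) := by
    subst hMdef
    exact ⟨Subgroup.subgroupOfEquivOfLe hQT, fun m => rfl⟩
  obtain ⟨φT, hφT⟩ : ∃ φT : A →* MulAut T, ∀ (x : A) (t : T), ((φT x t : T) : K) = φ x t :=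
    ⟨rgActRes φ T hTφ, fun x t => rfl⟩
  have hφTeq : ∀ (x : A) (t : T), φT x t = ⟨φ x t, hTφ x t t.2⟩ := fun x t =>
    Subtype.ext (hφT x t)
  have hMφ : ∀ x : A, ∀ y ∈ M, φT x y ∈ M := by
    intro x y hy
    rw [hMmem] at hy ⊢
    rw [hφT]
    exact hQφ x y hy
  have hcopM : (Nat.card M).Coprime M.index := by
    have h1 : Nat.card M = Nat.card Q := Nat.card_congr e.toEquiv
    rw [h1]
    exact Nat.Coprime.coprime_dvd_right hMidx hcop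
  have hθM : IsIrrCharacter M (fun m : M => θ (e m)) :=
    (Helper79.isIrrCharacter_mulEquiv e).mpr hθ
  have hθMinv : ∀ (g : T) (m : M),
      (fun m : M => θ (e m)) ⟨g * m * g⁻¹, hMn.conj_mem (m : T) m.2 g⟩ =
        (fun m : M => θ (e m)) m := by
    intro g m
    show θ (e ⟨g * m * g⁻¹, _⟩) = θ (e m)
    have h1 := congrFun ((hT g).mp g.2) (e m)
    rw [Helper75.conjFun_apply] at h1
    rw [← h1]
    refine congrArg θ (Subtype.ext ?_)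
    rw [he]
    show ((g : K) * ((m : T) : K) * (g : K)⁻¹) = (g : K) * ((e m : Q) : K) * (g : K)⁻¹
    rw [he]
  have hθMφ : ∀ (x : A) (m : M),
      (fun m : M => θ (e m)) ⟨φT x m, hMφ x m m.2⟩ = (fun m : M => θ (e m)) m := by
    intro x m
    show θ (e ⟨φT x m, _⟩) = θ (e m)
    rw [← hθinv x (e m)]
    refine congrArg θ (Subtype.ext ?_)
    rw [he]
    show ((φT x (m : T) : T) : K) = φ x ((e m : Q) : K)
    rw [hφT, he]
  obtain ⟨θh, hθh, hθhext, hθhinv⟩ :=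
    rg_exists_inv_extension M hcopM (fun m : M => θ (e m)) hθM hθMinv φT hMφ hθMφ
  have hext : ∀ n : Q, θh ⟨n, hQT n.2⟩ = θ n := by
    intro n
    have hm : (⟨n, hQT n.2⟩ : T) ∈ M := (hMmem _).mpr n.2
    have h1 := hθhext ⟨⟨n, hQT n.2⟩, hm⟩
    have h2 : θ (e ⟨⟨n, hQT n.2⟩, hm⟩) = θ n := congrArg θ (Subtype.ext (he _))
    rw [← h2]
    exact h1
  have hθhinv' : ∀ (x : A) (t : T), θh ⟨φ x t, hTφ x t t.2⟩ = θh t := by
    intro x t
    rw [← hθhinv x t, hφTeq]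
  obtain ⟨PK1, PK2, -, -⟩ := rg_param hQT hθ hT hθh hext
  have PKinv := fun (β : T → ℂ) (hβ : IsIrrCharacter T β)
    (hβN : ∀ t : T, (t : K) ∈ Q → β t = β 1) =>
    rg_param_inv φ hQφ hTφ hQT hθ hT hθh hext hθhinv' hβ hβN
  -- the `C`-side
  haveI hQCn : (Q.comap ι).Normal := hQ.comap ι
  have hQCφ : ∀ x : A, ∀ c ∈ Q.comap ι, φC x c ∈ Q.comap ι := by
    intro x c hc
    show ι (φC x c) ∈ Q
    rw [hcompat]
    exact hQφ x _ hc
  have hQrange : ∀ q : K, q ∈ Q → q ∈ ι.range := by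
    intro q hq
    rw [hC]
    intro x
    exact Q.mul_mem (hQφ x q hq) (Q.inv_mem hq)
  obtain ⟨r₂, hr₂⟩ : ∃ r₂ : ↥(Q.comap ι) →* Q, ∀ q : ↥(Q.comap ι), ((r₂ q : Q) : K) = ι q :=
    ⟨ι.subgroupComap Q, fun q => rfl⟩
  have hr₂surj : Function.Surjective r₂ := by
    intro q
    obtain ⟨c, hc⟩ := hQrange q q.2
    have hcQ : c ∈ Q.comap ι := by
      show ι c ∈ Q
      rw [hc]
      exact q.2
    refine ⟨⟨c, hcQ⟩, Subtype.ext ?_⟩
    rw [hr₂]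
    exact hc
  obtain ⟨θC, hθCdef⟩ : ∃ θC : ↥(Q.comap ι) → ℂ,
      θC = fun q : ↥(Q.comap ι) => θ ⟨ι q, q.2⟩ := ⟨_, rfl⟩
  have hθCr : θC = fun q => θ (r₂ q) := by
    rw [hθCdef]
    funext q
    exact congrArg θ (Subtype.ext (hr₂ q).symm)
  have hθC : IsIrrCharacter ↥(Q.comap ι) θC := by
    rw [hθCr]
    exact Helper79.isIrrCharacter_comp r₂ hr₂surj hθ
  letI : Fintype ↥(T.comap ι) := Fintype.ofFinite _
  have hQCTC : Q.comap ι ≤ T.comap ι := Subgroup.comap_mono hQT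
  have hTC : ∀ c : C, c ∈ T.comap ι ↔ Helper75.conjFun (Q.comap ι) c θC = θC := by
    intro c
    rw [Subgroup.mem_comap, hT]
    constructor
    · intro h
      funext q
      rw [Helper75.conjFun_apply, hθCdef]
      show θ ⟨ι (c * q * c⁻¹), _⟩ = θ ⟨ι q, q.2⟩
      have h1 := congrFun h ⟨ι q, q.2⟩
      rw [Helper75.conjFun_apply] at h1
      rw [← h1]
      refine congrArg θ (Subtype.ext ?_)
      show ι (c * q * c⁻¹) = ι c * ι q * (ι c)⁻¹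
      rw [map_mul, map_mul, map_inv]
    · intro h
      funext q'
      obtain ⟨q, rfl⟩ := hr₂surj q'
      rw [Helper75.conjFun_apply]
      have h1 : θ (r₂ ⟨c * q * c⁻¹, hQCn.conj_mem q q.2 c⟩) = θ (r₂ q) := by
        have h0 := congrFun h q
        rw [Helper75.conjFun_apply, hθCr] at h0
        exact h0
      rw [← h1]
      refine congrArg θ (Subtype.ext ?_)
      show ι c * ((r₂ q : Q) : K) * (ι c)⁻¹ =
        ((r₂ ⟨c * q * c⁻¹, hQCn.conj_mem q q.2 c⟩ : Q) : K)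
      rw [hr₂, hr₂, map_mul, map_mul, map_inv]
  have hTCφ : ∀ x : A, ∀ c ∈ T.comap ι, φC x c ∈ T.comap ι := by
    intro x c hc
    show ι (φC x c) ∈ T
    rw [hcompat]
    exact hTφ x _ hc
  obtain ⟨jT, hjT⟩ : ∃ jT : ↥(T.comap ι) →* T, ∀ t : ↥(T.comap ι), ((jT t : T) : K) = ι t :=
    ⟨ι.subgroupComap T, fun t => rfl⟩
  have hjTinj : Function.Injective jT := by
    intro a b hab
    apply Subtype.ext
    apply hι
    rw [← hjT a, ← hjT b, hab]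
  obtain ⟨θhC, hθhCdef⟩ : ∃ θhC : ↥(T.comap ι) → ℂ, θhC = fun t => θh (jT t) := ⟨_, rfl⟩
  have hθhCchar : IsCharacter ↥(T.comap ι) θhC := by
    rw [hθhCdef]
    exact Helper79.isCharacter_comp (Helper79.isCharacter_of_irr hθh) jT
  have hextC : ∀ n : ↥(Q.comap ι), θhC ⟨n, hQCTC n.2⟩ = θC n := by
    intro n
    rw [hθhCdef, hθCdef]
    show θh (jT ⟨n, hQCTC n.2⟩) = θ ⟨ι n, n.2⟩
    rw [← hext ⟨ι n, n.2⟩]
    exact congrArg θh (Subtype.ext (hjT _))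
  have hθhC : IsIrrCharacter ↥(T.comap ι) θhC := by
    apply rg_irr_of_comp (Subgroup.inclusion hQCTC) hθhCchar
    have h1 : (fun z : ↥(Q.comap ι) => θhC (Subgroup.inclusion hQCTC z)) = θC := funext hextC
    rw [h1]
    exact hθC
  have hθhCinv : ∀ (x : A) (t : ↥(T.comap ι)), θhC ⟨φC x t, hTCφ x t t.2⟩ = θhC t := by
    intro x t
    rw [hθhCdef]
    show θh (jT ⟨φC x t, _⟩) = θh (jT t)
    rw [← hθhinv' x (jT t)]
    refine congrArg θh (Subtype.ext ?_)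
    rw [hjT]
    show ι (φC x t) = φ x ((jT t : T) : K)
    rw [hjT, hcompat]
  obtain ⟨PC1, PC2, -, PC4⟩ := rg_param hQCTC hθC hTC hθhC hextC
  have PCinv := fun (γ : ↥(T.comap ι) → ℂ) (hγ : IsIrrCharacter ↥(T.comap ι) γ)
    (hγN : ∀ t : ↥(T.comap ι), (t : C) ∈ Q.comap ι → γ t = γ 1) =>
    rg_param_inv φC hQCφ hTCφ hQCTC hθC hTC hθhC hextC hθhCinv hγ hγN
  have hγauto : ∀ γ : ↥(T.comap ι) → ℂ, IsIrrCharacter ↥(T.comap ι) γ →
      (∀ t : ↥(T.comap ι), (t : C) ∈ Q.comap ι → γ t = γ 1) →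
      ∀ (x : A) (t : ↥(T.comap ι)), γ ⟨φC x t, hTCφ x t t.2⟩ = γ t := by
    intro γ hγ hγN x t
    have h1 : ∀ x : A, φ x (ι t) * (ι t)⁻¹ ∈ Q := (hC (ι t)).mp ⟨t, rfl⟩
    obtain ⟨m, hm⟩ : ∃ m : ↥(T.comap ι), m = t⁻¹ * ⟨φC x t, hTCφ x t t.2⟩ := ⟨_, rfl⟩
    have hmQ : (m : C) ∈ Q.comap ι := by
      rw [hm]
      show ι ((t : C)⁻¹ * φC x t) ∈ Q
      rw [map_mul, map_inv, hcompat]
      have h2 := hQ.conj_mem _ (h1 x) (ι t)⁻¹
      convert h2 using 1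
      group
    have h3 : (⟨φC x t, hTCφ x t t.2⟩ : ↥(T.comap ι)) = t * m := by
      rw [hm]
      group
    rw [h3]
    exact Helper79.isCharacter_mul_of_ker (Helper79.isCharacter_of_irr hγ) (hγN m hmQ) t
  -- multiplicities
  have hcross : ∀ (β : T → ℂ) (γ : ↥(T.comap ι) → ℂ), IsIrrCharacter T β →
      (∀ t : T, (t : K) ∈ Q → β t = β 1) → IsIrrCharacter ↥(T.comap ι) γ →
      (∀ t : ↥(T.comap ι), (t : C) ∈ Q.comap ι → γ t = γ 1) →
      classInner (fun c => indFun T (β * θh) (ι c)) (indFun (T.comap ι) (γ * θhC)) =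
        classInner (fun t : ↥(T.comap ι) => β (jT t)) γ := by
    intro β γ hβ hβN hγ hγN
    obtain ⟨hK1, hK2, hK3, -⟩ := PK1 β hβ hβN
    obtain ⟨hC1, hC2, -, -⟩ := PC1 γ hγ hγN
    have hχC : IsCharacter C (fun c => indFun T (β * θh) (ι c)) :=
      Helper79.isCharacter_comp (Helper79.isCharacter_of_irr hK3) ι
    have h1 := Helper3.frobenius_reciprocity (T.comap ι) (γ * θhC)
      (fun c => indFun T (β * θh) (ι c)) (Helper79.isCharacter_isClassFunction hχC)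
    rw [Helper15.classInner_conj_symm, h1, ← Helper15.classInner_conj_symm]
    have hηθ : classInner (fun r : ↥(Q.comap ι) => (γ * θhC) (Subgroup.inclusion hQCTC r))
        (fun r : ↥(Q.comap ι) => θ (r₂ r)) ≠ 0 := by
      rw [← hθCr]
      exact hC2
    have h2 := rg_cross_mult ι hQT hθ hT hK1 hK2 hC1 (Subgroup.inclusion hQCTC) r₂ hr₂surj
      (fun r => (hr₂ r).symm) hηθ
    rw [h2]
    have h3 : (fun t : ↥(T.comap ι) => (β * θh) ⟨ι t, t.2⟩) =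
        (fun t : ↥(T.comap ι) => β (jT t)) * θhC := by
      funext t
      rw [Pi.mul_apply, Pi.mul_apply, hθhCdef]
      have h4 : (⟨ι t, t.2⟩ : T) = jT t := Subtype.ext (hjT t).symm
      rw [h4]
    rw [h3]
    refine PC4 _ γ (Helper79.isCharacter_comp (Helper79.isCharacter_of_irr hβ) jT) ?_ hγ hγN
    intro t ht
    show β (jT t) = β (jT 1)
    rw [map_one]
    exact hβN (jT t) (by rw [hjT]; exact ht)
  -- Glauberman
  have hfixT : ∀ y : T, y ∈ jT.range ↔ ∀ x : A, φT x y * y⁻¹ ∈ M := by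
    intro y
    constructor
    · rintro ⟨t, rfl⟩ x
      rw [hMmem]
      show ((φT x (jT t) : T) : K) * ((jT t : T) : K)⁻¹ ∈ Q
      rw [hφT, hjT]
      exact (hC (ι t)).mp ⟨t, rfl⟩ x
    · intro h
      have h1 : (y : K) ∈ ι.range := by
        rw [hC]
        intro x
        have h2 := (hMmem _).mp (h x)
        have h3 : ((φT x y * y⁻¹ : T) : K) = φ x y * (y : K)⁻¹ := by
          show ((φT x y : T) : K) * ((y : T) : K)⁻¹ = _
          rw [hφT]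
        rw [h3] at h2
        exact h2
      obtain ⟨c, hc⟩ := h1
      have hcT : c ∈ T.comap ι := by
        show ι c ∈ T
        rw [hc]
        exact y.2
      exact ⟨⟨c, hcT⟩, Subtype.ext (by rw [hjT]; exact hc)⟩
  have hpM : ¬ p ∣ M.index := fun h => hpQ (dvd_trans h hMidx)
  obtain ⟨G1, G2, G3, G4⟩ := rg_glaub_quot p jT hjTinj M hA φT hMφ hfixT hpM
  have hγconv : ∀ c : ↥(T.comap ι), jT c ∈ M ↔ (c : C) ∈ Q.comap ι := fun c => by
    rw [hMmem, hjT]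
    rfl
  have hβconvM : ∀ β : T → ℂ, (∀ t : T, (t : K) ∈ Q → β t = β 1) → ∀ y ∈ M, β y = β 1 :=
    fun β h y hy => h y ((hMmem y).mp hy)
  have hβconvI : ∀ β : T → ℂ, (∀ (x : A) (t : T), β ⟨φ x t, hTφ x t t.2⟩ = β t) →
      ∀ (x : A) (y : T), β (φT x y) = β y := fun β h x y => by rw [hφTeq]; exact h x y
  have hγconvM : ∀ γ : ↥(T.comap ι) → ℂ,
      (∀ t : ↥(T.comap ι), (t : C) ∈ Q.comap ι → γ t = γ 1) →
      ∀ c : ↥(T.comap ι), jT c ∈ M → γ c = γ 1 := fun γ h c hc => h c ((hγconv c).mp hc)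
  refine ⟨?_, ?_, ?_, ?_⟩
  · intro χ hχ hχinv hχθ
    obtain ⟨β, hβ, hβN, rfl⟩ := PK2 χ hχ hχθ
    have hβinv := (PKinv β hβ hβN).mpr hχinv
    obtain ⟨γ, hγ, hγM, m, hm, hmod⟩ := G1 β hβ (hβconvM β hβN) (hβconvI β hβinv)
    have hγN : ∀ t : ↥(T.comap ι), (t : C) ∈ Q.comap ι → γ t = γ 1 := fun t ht =>
      hγM t ((hγconv t).mpr ht)
    obtain ⟨-, -, hξ, -⟩ := PC1 γ hγ hγN
    refine ⟨indFun (T.comap ι) (γ * θhC), hξ, ?_, m, ?_, hmod⟩
    · exact (PCinv γ hγ hγN).mp (hγauto γ hγ hγN)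
    · rw [hcross β γ hβ hβN hγ hγN]
      exact hm
  · intro χ hχ hχinv hχθ ξ ξ' hξ hξ' hξθ hξ'θ m m' hm hm' hpm hpm'
    rw [← hθCdef] at hξθ hξ'θ
    obtain ⟨β, hβ, hβN, rfl⟩ := PK2 χ hχ hχθ
    have hβinv := (PKinv β hβ hβN).mpr hχinv
    obtain ⟨γ, hγ, hγN, rfl⟩ := PC2 ξ hξ hξθ
    obtain ⟨γ', hγ', hγ'N, rfl⟩ := PC2 ξ' hξ' hξ'θ
    rw [hcross β γ hβ hβN hγ hγN] at hm
    rw [hcross β γ' hβ hβN hγ' hγ'N] at hm'
    have h1 := G2 β hβ (hβconvM β hβN) (hβconvI β hβinv) γ γ' hγ hγ' (hγconvM γ hγN)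
      (hγconvM γ' hγ'N) m m' hm hm' hpm hpm'
    rw [h1]
  · intro ξ hξ hξθ
    rw [← hθCdef] at hξθ
    obtain ⟨γ, hγ, hγN, rfl⟩ := PC2 ξ hξ hξθ
    obtain ⟨β, hβ, hβM, hβinv, m, hm, hpm⟩ := G3 γ hγ (hγconvM γ hγN)
    have hβN : ∀ t : T, (t : K) ∈ Q → β t = β 1 := fun t ht => hβM t ((hMmem t).mpr ht)
    obtain ⟨-, -, hχ, -⟩ := PK1 β hβ hβN
    refine ⟨indFun T (β * θh), hχ, ?_, m, ?_, hpm⟩
    · exact (PKinv β hβ hβN).mp (fun x t => by rw [← hφTeq]; exact hβinv x t)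
    · rw [hcross β γ hβ hβN hγ hγN]
      exact hm
  · intro χ χ' hχ hχ' hχinv hχ'inv hχθ hχ'θ ξ hξ hξθ m m' hm hm' hpm hpm'
    rw [← hθCdef] at hξθ
    obtain ⟨β, hβ, hβN, rfl⟩ := PK2 χ hχ hχθ
    obtain ⟨β', hβ', hβ'N, rfl⟩ := PK2 χ' hχ' hχ'θ
    have hβinv := (PKinv β hβ hβN).mpr hχinv
    have hβ'inv := (PKinv β' hβ' hβ'N).mpr hχ'inv
    obtain ⟨γ, hγ, hγN, rfl⟩ := PC2 ξ hξ hξθ
    rw [hcross β γ hβ hβN hγ hγN] at hm
    rw [hcross β' γ hβ' hβ'N hγ hγN] at hm'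
    have h1 := G4 β β' hβ hβ' (hβconvM β hβN) (hβconvM β' hβ'N) (hβconvI β hβinv)
      (hβconvI β' hβ'inv) γ hγ (hγconvM γ hγN) m m' hm hm' hpm hpm'
    rw [h1]

end RgLocal

end Cfsg.Agent.Helper74
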