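/-
Helper library of seat helper74 (relative Glauberman correspondence, part 7): the correspondence
for a `p`-group `A` acting on `K` with a normal Sylow `p`-subgroup `Q`, `C / Q = C_{K/Q}(A)`,
between the `A`-invariant irreducible characters of `K` and of `C`; degrees modulo `p`.
-/
import Cfsg.Agent.Helper74.RelGl6

set_option autoImplicit false
set_option maxHeartbeats 1000000

namespace Cfsg.Agent.Helper74

open Cfsg

open scoped ComplexConjugate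

universe u v w

section RgMain

variable (p : ℕ) [Fact p.Prime] {K : Type u} [Group K] [Fintype K] {C : Type v} [Group C]
  [Fintype C] {A : Type w} [Group A]

/-- **Relative Glauberman correspondence** (relation form). -/
theorem rg_main (hA : IsPGroup p A) (ι : C →* K) (hι : Function.Injective ι)
    (φ : A →* MulAut K) (φC : A →* MulAut C)
    (hcompat : ∀ (x : A) (c : C), ι (φC x c) = φ x (ι c))
    (Q : Subgroup K) [hQ : Q.Normal] (hQφ : ∀ x : A, ∀ y ∈ Q, φ x y ∈ Q)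
    (hcop : (Nat.card Q).Coprime Q.index) (hpQ : ¬ p ∣ Q.index)
    (hC : ∀ k : K, k ∈ ι.range ↔ ∀ x : A, φ x k * k⁻¹ ∈ Q) :
    (∀ χ : K → ℂ, IsIrrCharacter K χ → (∀ (x : A) (k : K), χ (φ x k) = χ k) →
      ∃ ξ : C → ℂ, IsIrrCharacter C ξ ∧ (∀ (x : A) (c : C), ξ (φC x c) = ξ c) ∧
        ∃ m : ℕ, classInner (fun c => χ (ι c)) ξ = (m : ℂ) ∧
          ((m : ZMod p) = 1 ∨ (m : ZMod p) = -1)) ∧
    (∀ χ : K → ℂ, IsIrrCharacter K χ → (∀ (x : A) (k : K), χ (φ x k) = χ k) →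
      ∀ ξ ξ' : C → ℂ, IsIrrCharacter C ξ → IsIrrCharacter C ξ' →
        (∀ (x : A) (c : C), ξ (φC x c) = ξ c) → (∀ (x : A) (c : C), ξ' (φC x c) = ξ' c) →
        ∀ m m' : ℕ, classInner (fun c => χ (ι c)) ξ = (m : ℂ) →
          classInner (fun c => χ (ι c)) ξ' = (m' : ℂ) → ¬ p ∣ m → ¬ p ∣ m' → ξ = ξ') ∧
    (∀ ξ : C → ℂ, IsIrrCharacter C ξ → (∀ (x : A) (c : C), ξ (φC x c) = ξ c) →
      ∃ χ : K → ℂ, IsIrrCharacter K χ ∧ (∀ (x : A) (k : K), χ (φ x k) = χ k) ∧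
        ∃ m : ℕ, classInner (fun c => χ (ι c)) ξ = (m : ℂ) ∧ ¬ p ∣ m) ∧
    (∀ χ χ' : K → ℂ, IsIrrCharacter K χ → IsIrrCharacter K χ' →
      (∀ (x : A) (k : K), χ (φ x k) = χ k) → (∀ (x : A) (k : K), χ' (φ x k) = χ' k) →
      ∀ ξ : C → ℂ, IsIrrCharacter C ξ → (∀ (x : A) (c : C), ξ (φC x c) = ξ c) →
        ∀ m m' : ℕ, classInner (fun c => χ (ι c)) ξ = (m : ℂ) →
          classInner (fun c => χ' (ι c)) ξ = (m' : ℂ) → ¬ p ∣ m → ¬ p ∣ m' → χ = χ') := by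
  classical
  letI : Fintype Q := Fintype.ofFinite _
  letI : Fintype ↥(Q.comap ι) := Fintype.ofFinite _
  haveI hQCn : (Q.comap ι).Normal := hQ.comap ι
  have hQCφ : ∀ x : A, ∀ c ∈ Q.comap ι, φC x c ∈ Q.comap ι := by
    intro x c hc
    show ι (φC x c) ∈ Q
    rw [hcompat]
    exact hQφ x _ hc
  have hQrange : ∀ q : K, q ∈ Q → q ∈ ι.range := by
    intro q hq
    rw [hC]
    intro x
    exact Q.mul_mem (hQφ x q hq) (Q.inv_mem hq)
  obtain ⟨r₂, hr₂⟩ : ∃ r₂ : ↥(Q.comap ι) →* Q, ∀ q : ↥(Q.comap ι), ((r₂ q : Q) : K) = ι q :=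
    ⟨ι.subgroupComap Q, fun q => rfl⟩
  have hr₂surj : Function.Surjective r₂ := by
    intro q
    obtain ⟨c, hc⟩ := hQrange q q.2
    have hcQ : c ∈ Q.comap ι := by
      show ι c ∈ Q
      rw [hc]
      exact q.2
    refine ⟨⟨c, hcQ⟩, Subtype.ext ?_⟩
    rw [hr₂]
    exact hc
  have hr₂inj : Function.Injective r₂ := by
    intro a b hab
    apply Subtype.ext
    apply hι
    rw [← hr₂ a, ← hr₂ b, hab]
  have hθCr : ∀ θ : Q → ℂ, (fun q : ↥(Q.comap ι) => θ ⟨ι q, q.2⟩) = fun q => θ (r₂ q) := by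
    intro θ
    funext q
    exact congrArg θ (Subtype.ext (hr₂ q).symm)
  have hpQC : ¬ p ∣ (Q.comap ι).index := by
    intro h
    apply hpQ
    rw [Subgroup.index_comap] at h
    exact dvd_trans h (Subgroup.relIndex_dvd_index_of_normal Q ι.range)
  have L := fun (θ : Q → ℂ) (hθ : IsIrrCharacter Q θ)
    (hθinv : ∀ (x : A) (q : Q), θ ⟨φ x q, hQφ x q q.2⟩ = θ q) =>
    rg_local p hA ι hι φ φC hcompat Q hQφ hcop hpQ hC θ hθ hθinv
  -- an invariant character of `C` lies over an invariant character of `Q`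
  have H1 : ∀ ξ : C → ℂ, IsIrrCharacter C ξ → (∀ (x : A) (c : C), ξ (φC x c) = ξ c) →
      ∃ θ : Q → ℂ, IsIrrCharacter Q θ ∧ (∀ (x : A) (q : Q), θ ⟨φ x q, hQφ x q q.2⟩ = θ q) ∧
        classInner (fun q : ↥(Q.comap ι) => ξ q) (fun q : ↥(Q.comap ι) => θ ⟨ι q, q.2⟩) ≠ 0 := by
    intro ξ hξ hξinv
    obtain ⟨θ₁, hθ₁, hθ₁inv, hθ₁ne⟩ :=
      rg_exists_inv_constituent p hA φC (Q.comap ι) hQCφ hpQC hξ hξinv
    obtain ⟨eQ, heQ⟩ : ∃ eQ : ↥(Q.comap ι) ≃* Q, ∀ q, eQ q = r₂ q :=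
      ⟨MulEquiv.ofBijective r₂ ⟨hr₂inj, hr₂surj⟩, fun q => rfl⟩
    have hθ₁' : (fun q : ↥(Q.comap ι) => θ₁ (eQ.symm ⟨ι q, q.2⟩)) = θ₁ := by
      funext q
      have h1 : (⟨ι q, q.2⟩ : Q) = eQ q := by
        rw [heQ]
        exact Subtype.ext (hr₂ q).symm
      rw [h1, MulEquiv.symm_apply_apply]
    refine ⟨fun q => θ₁ (eQ.symm q), (Helper79.isIrrCharacter_mulEquiv eQ.symm).mpr hθ₁, ?_, ?_⟩
    · intro x q
      show θ₁ (eQ.symm ⟨φ x q, hQφ x q q.2⟩) = θ₁ (eQ.symm q)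
      rw [← hθ₁inv x (eQ.symm q)]
      refine congrArg θ₁ ?_
      rw [MulEquiv.symm_apply_eq, heQ]
      apply Subtype.ext
      rw [hr₂]
      show φ x (q : K) = ι (φC x ((eQ.symm q : ↥(Q.comap ι)) : C))
      rw [hcompat, ← hr₂, ← heQ, MulEquiv.apply_symm_apply]
    · rw [hθ₁']
      exact hθ₁ne
  -- constituents go up
  have H2 : ∀ (χ : K → ℂ) (ξ : C → ℂ) (θ : Q → ℂ), IsIrrCharacter K χ → IsIrrCharacter C ξ →
      IsIrrCharacter Q θ → classInner (fun c => χ (ι c)) ξ ≠ 0 →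
      classInner (fun q : ↥(Q.comap ι) => ξ q) (fun q : ↥(Q.comap ι) => θ ⟨ι q, q.2⟩) ≠ 0 →
      classInner (fun q : Q => χ q) θ ≠ 0 := by
    intro χ ξ θ hχ hξ hθ hχξ hξθ
    have hχC : IsCharacter C (fun c => χ (ι c)) :=
      Helper79.isCharacter_comp (Helper79.isCharacter_of_irr hχ) ι
    rw [hθCr] at hξθ
    have h1 := Helper76.classInner_comp_ne_zero (Q.comap ι).subtype hχC ⟨ξ, hξ⟩ hχξ
      (Helper79.isCharacter_comp (Helper79.isCharacter_of_irr hθ) r₂) hξθ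
    have h2 : (fun k : ↥(Q.comap ι) => χ (ι ((Q.comap ι).subtype k))) =
        fun k => (fun q : Q => χ q) (r₂ k) := by
      funext k
      show χ (ι k) = χ ((r₂ k : Q) : K)
      rw [hr₂]
    rw [h2] at h1
    have h3 := Helper15.classInner_comp_surj r₂ hr₂surj (fun q : Q => χ q) θ
    rw [← h3]
    exact h1
  have hne : ∀ (z : ℂ) (m : ℕ), z = (m : ℂ) → ¬ p ∣ m → z ≠ 0 := by
    intro z m hz hpm h0
    apply hpm
    rw [hz] at h0
    have : m = 0 := by exact_mod_cast h0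
    rw [this]
    exact dvd_zero p
  refine ⟨?_, ?_, ?_, ?_⟩
  · intro χ hχ hχinv
    obtain ⟨θ, hθ, hθinv, hχθ⟩ := rg_exists_inv_constituent p hA φ Q hQφ hpQ hχ hχinv
    exact (L θ hθ hθinv).1 χ hχ hχinv hχθ
  · intro χ hχ hχinv ξ ξ' hξ hξ' hξinv hξ'inv m m' hm hm' hpm hpm'
    obtain ⟨θ, hθ, hθinv, hξθ⟩ := H1 ξ hξ hξinv
    obtain ⟨θ', hθ', hθ'inv, hξ'θ'⟩ := H1 ξ' hξ' hξ'inv
    have hχθ := H2 χ ξ θ hχ hξ hθ (hne _ m hm hpm) hξθ
    have hχθ' := H2 χ ξ' θ' hχ hξ' hθ' (hne _ m' hm' hpm') hξ'θ'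
    obtain ⟨g, hg⟩ := Helper75.clifford_irrCharacter Q χ hχ θ' θ hθ' hθ hχθ' hχθ
    have hg' : Helper75.conjFun Q g θ = θ' := by
      rw [Helper75.conjFun_eq_comp]
      funext n
      exact (hg n).symm
    obtain ⟨c, hc, hcθ⟩ := rg_conj_fixed p hA φ Q hQφ hpQ hθinv hθ'inv g hg'
    obtain ⟨c₀, hc₀⟩ := (hC c).mpr hc
    have h1 : (fun q : ↥(Q.comap ι) => θ' ⟨ι q, q.2⟩) =
        Helper75.conjFun (Q.comap ι) c₀ (fun q : ↥(Q.comap ι) => θ ⟨ι q, q.2⟩) := by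
      funext q
      rw [Helper75.conjFun_apply, ← hcθ, Helper75.conjFun_apply]
      refine congrArg θ (Subtype.ext ?_)
      show c * ι q * c⁻¹ = ι (c₀ * q * c₀⁻¹)
      rw [map_mul, map_mul, map_inv, hc₀]
    have hξ'θ : classInner (fun q : ↥(Q.comap ι) => ξ' q)
        (fun q : ↥(Q.comap ι) => θ ⟨ι q, q.2⟩) ≠ 0 := by
      rw [h1] at hξ'θ'
      rw [← Helper75.conjFun_restrict (Q.comap ι) c₀ ξ'
        (Helper79.isCharacter_isClassFunction (Helper79.isCharacter_of_irr hξ')),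
        Helper75.classInner_conjFun] at hξ'θ'
      exact hξ'θ'
    exact (L θ hθ hθinv).2.1 χ hχ hχinv hχθ ξ ξ' hξ hξ' hξθ hξ'θ m m' hm hm' hpm hpm'
  · intro ξ hξ hξinv
    obtain ⟨θ, hθ, hθinv, hξθ⟩ := H1 ξ hξ hξinv
    exact (L θ hθ hθinv).2.2.1 ξ hξ hξθ
  · intro χ χ' hχ hχ' hχinv hχ'inv ξ hξ hξinv m m' hm hm' hpm hpm'
    obtain ⟨θ, hθ, hθinv, hξθ⟩ := H1 ξ hξ hξinv
    have hχθ := H2 χ ξ θ hχ hξ hθ (hne _ m hm hpm) hξθ
    have hχ'θ := H2 χ' ξ θ hχ' hξ hθ (hne _ m' hm' hpm') hξθ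
    exact (L θ hθ hθinv).2.2.2 χ χ' hχ hχ' hχinv hχ'inv hχθ hχ'θ ξ hξ hξθ m m' hm hm' hpm hpm'

/-- Degrees of corresponding characters are congruent modulo `p` up to sign. -/
theorem rg_degree (hA : IsPGroup p A) (ι : C →* K) (φ : A →* MulAut K) (φC : A →* MulAut C)
    (hcompat : ∀ (x : A) (c : C), ι (φC x c) = φ x (ι c))
    {χ : K → ℂ} (hχ : IsIrrCharacter K χ) (hχinv : ∀ (x : A) (k : K), χ (φ x k) = χ k)
    {ξ₀ : C → ℂ} (hξ₀ : IsIrrCharacter C ξ₀) (hξ₀inv : ∀ (x : A) (c : C), ξ₀ (φC x c) = ξ₀ c)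
    (m₀ : ℕ) (hm₀ : classInner (fun c => χ (ι c)) ξ₀ = (m₀ : ℂ))
    (hmod : (m₀ : ZMod p) = 1 ∨ (m₀ : ZMod p) = -1)
    (hother : ∀ ξ' : C → ℂ, IsIrrCharacter C ξ' → (∀ (x : A) (c : C), ξ' (φC x c) = ξ' c) →
      ξ' ≠ ξ₀ → ∀ m' : ℕ, classInner (fun c => χ (ι c)) ξ' = (m' : ℂ) → p ∣ m') :
    (charDegree ξ₀ : ZMod p) = (charDegree χ : ZMod p) ∨
      (charDegree ξ₀ : ZMod p) = -(charDegree χ : ZMod p) := by
  classical
  letI : Fintype (IrrCharacter C) := Fintype.ofFinite _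
  have hχC : IsCharacter C (fun c => χ (ι c)) :=
    Helper79.isCharacter_comp (Helper79.isCharacter_of_irr hχ) ι
  obtain ⟨n, hn⟩ := Helper75.exists_nat_mult hχC
  have hsum := Helper75.character_eq_sum_irr hχC
  have hdeg : charDegree χ = ∑ ξ' : IrrCharacter C, n ξ' * charDegree (ξ' : C → ℂ) := by
    have h1 := congrFun hsum 1
    rw [Finset.sum_apply] at h1
    simp only [Pi.smul_apply, smul_eq_mul, hn] at h1
    have hχ1 : χ 1 = (charDegree χ : ℂ) := Helper80.irr_one_eq ⟨χ, hχ⟩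
    rw [map_one, hχ1] at h1
    have h2 : ∀ ξ' : IrrCharacter C, (ξ' : C → ℂ) 1 = (charDegree (ξ' : C → ℂ) : ℂ) :=
      fun ξ' => Helper80.irr_one_eq ξ'
    simp only [h2] at h1
    exact_mod_cast h1
  letI : MulAction (MulAut C) (IrrCharacter C) := irrMulAction
  letI : MulAction A (IrrCharacter C) := MulAction.compHom (IrrCharacter C) φC
  have hsmul : ∀ (x : A) (ξ' : IrrCharacter C) (c : C),
      ((x • ξ' : IrrCharacter C) : C → ℂ) c = (ξ' : C → ℂ) (φC x⁻¹ c) := by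
    intro x ξ' c
    show (ξ' : C → ℂ) ((φC x)⁻¹ c) = _
    rw [← map_inv]
  have hf : ∀ (a : A) (ξ' : IrrCharacter C),
      n (a • ξ') * charDegree ((a • ξ' : IrrCharacter C) : C → ℂ) =
        n ξ' * charDegree (ξ' : C → ℂ) := by
    intro a ξ'
    have h1 : n (a • ξ') = n ξ' := by
      have h5 : classInner (fun c : C => χ (ι ((φC a⁻¹).toEquiv c)))
          (fun c => (ξ' : C → ℂ) ((φC a⁻¹).toEquiv c)) =
          classInner (fun c => χ (ι c)) (ξ' : C → ℂ) :=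
        classInner_comp_equiv (φC a⁻¹).toEquiv (fun c => χ (ι c)) (ξ' : C → ℂ)
      have h6 : (fun c : C => χ (ι ((φC a⁻¹).toEquiv c))) = fun c => χ (ι c) := by
        funext c
        show χ (ι (φC a⁻¹ c)) = χ (ι c)
        rw [hcompat, hχinv]
      have h7 : ((a • ξ' : IrrCharacter C) : C → ℂ) =
          fun c => (ξ' : C → ℂ) ((φC a⁻¹).toEquiv c) := funext (hsmul a ξ')
      have h8 : classInner (fun c => χ (ι c)) ((a • ξ' : IrrCharacter C) : C → ℂ) =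
          classInner (fun c => χ (ι c)) (ξ' : C → ℂ) := by
        rw [h7, ← h5, h6]
      rw [hn, hn] at h8
      exact_mod_cast h8
    have h2 : charDegree ((a • ξ' : IrrCharacter C) : C → ℂ) = charDegree (ξ' : C → ℂ) := by
      unfold charDegree
      rw [hsmul, map_one]
    rw [h1, h2]
  have hx₀ : ∀ a : A, a • (⟨ξ₀, hξ₀⟩ : IrrCharacter C) = ⟨ξ₀, hξ₀⟩ := by
    intro a
    apply Subtype.ext
    funext c
    rw [hsmul]
    exact hξ₀inv a⁻¹ c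
  have hoth : ∀ ξ' : IrrCharacter C, (∀ a : A, a • ξ' = ξ') → ξ' ≠ ⟨ξ₀, hξ₀⟩ →
      p ∣ n ξ' * charDegree (ξ' : C → ℂ) := by
    intro ξ' hfix hne
    apply Dvd.dvd.mul_right
    refine hother ξ' ξ'.2 ?_ (fun h => hne (Subtype.ext h)) (n ξ') (hn ξ')
    intro x c
    have h8 : ((x⁻¹ • ξ' : IrrCharacter C) : C → ℂ) c = (ξ' : C → ℂ) c := by rw [hfix x⁻¹]
    rw [hsmul, inv_inv] at h8
    exact h8
  have hmain := over_sum_modEq hA (fun ξ' : IrrCharacter C => n ξ' * charDegree (ξ' : C → ℂ))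
    hf ⟨ξ₀, hξ₀⟩ hx₀ hoth
  rw [← hdeg] at hmain
  have hn₀ : n ⟨ξ₀, hξ₀⟩ = m₀ := by
    have h := hn ⟨ξ₀, hξ₀⟩
    rw [hm₀] at h
    exact_mod_cast h.symm
  simp only [hn₀] at hmain
  have h9 : (charDegree χ : ZMod p) = (m₀ : ZMod p) * (charDegree ξ₀ : ZMod p) := by
    have h := (ZMod.natCast_eq_natCast_iff _ _ p).mpr hmain
    push_cast at h
    exact h
  rcases hmod with h | h
  · left
    rw [h9, h, one_mul]
  · right
    rw [h9, h]
    ring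

end RgMain

end Cfsg.Agent.Helper74
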