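import Mathlib
import Cfsg.Agent.Helper4.TwoDegMain
import Cfsg.Agent.Helper15.FTLemmaC
import Cfsg.Agent.Helper15.CharScalar
import Cfsg.Agent.Helper15.RelM1
import Cfsg.Agent.Helper15.RamGen
import Cfsg.Agent.Helper75.Ito
import Cfsg.Agent.Helper75.InnerLin
import Cfsg.Agent.Helper75.NormalDefect
import Cfsg.Agent.Helper79.Linear
import Cfsg.Agent.Helper79.ItoMichler
import Cfsg.Agent.Helper80.LinChar

/-!
# Groups with character degrees 1 and p (Isaacs 12.11): preliminaries
-/

set_option autoImplicit false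

namespace Cfsg.Agent.Helper74

open Cfsg
open scoped ComplexConjugate

universe u

/-- Central elements act on an irreducible character through a scalar of norm one. -/
theorem tp_central {G : Type u} [Group G] [Finite G] {χ : G → ℂ} (hχ : IsIrrCharacter G χ)
    {z : G} (hz : z ∈ Subgroup.center G) :
    ∃ c : ℂ, ‖c‖ = 1 ∧ ∀ x : G, χ (z * x) = c * χ x := by
  obtain ⟨n, ρ, hirr, rfl⟩ := hχ
  haveI := hirr
  obtain ⟨c, hc⟩ := Helper15.rep_central_scalar ρ hz
  exact ⟨c, Helper15.norm_eq_one_of_rep_scalar ρ hc,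
    fun x => Helper15.char_mul_of_rep_scalar ρ hc x⟩

/-- The elements acting trivially by translation on a function, as a subgroup. -/
def tpKer {G : Type u} [Group G] (χ : G → ℂ) : Subgroup G where
  carrier := {m | ∀ y, χ (m * y) = χ y}
  mul_mem' := by
    intro a b ha hb y
    rw [mul_assoc, ha, hb]
  one_mem' := by
    intro y
    rw [one_mul]
  inv_mem' := by
    intro a ha y
    have := ha (a⁻¹ * y)
    rw [mul_inv_cancel_left] at this
    exact this.symm

theorem tp_ker_apply {G : Type u} [Group G] (χ : G → ℂ) {m : G} (hm : m ∈ tpKer χ) :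
    χ m = χ 1 := by
  have := hm 1
  rwa [mul_one] at this

/-- A central element at which an irreducible character takes the value `χ 1` lies in
`tpKer`. -/
theorem tp_center_mem_ker {G : Type u} [Group G] [Finite G] (χ : IrrCharacter G) {z : G}
    (hz : z ∈ Subgroup.center G) (h : (χ : G → ℂ) z = (χ : G → ℂ) 1) :
    z ∈ tpKer (χ : G → ℂ) := by
  obtain ⟨c, -, hc⟩ := tp_central χ.2 hz
  have h1 := hc 1
  rw [mul_one, h] at h1
  have h0 := Helper80.irr_one_ne_zero χ
  have hc1 : c = 1 := by
    have : (c - 1) * (χ : G → ℂ) 1 = 0 := by rw [sub_mul, one_mul, ← h1, sub_self]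
    rcases mul_eq_zero.mp this with h2 | h2
    · exact sub_eq_zero.mp h2
    · exact absurd h2 h0
  intro y
  rw [hc y, hc1, one_mul]

/-- A subgroup of prime order lies in every subgroup containing one of its nontrivial
elements. -/
theorem tp_le_of_prime_card {G : Type u} [Group G] (p : ℕ) [Fact p.Prime] (K H : Subgroup G)
    (hK : Nat.card K = p) {k : G} (hkK : k ∈ K) (hk1 : k ≠ 1) (hkH : k ∈ H) : K ≤ H := by
  intro y hy
  have h1 : Subgroup.zpowers (⟨k, hkK⟩ : ↥K) = ⊤ :=
    zpowers_eq_top_of_prime_card hK (fun h => hk1 (congrArg Subtype.val h))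
  have h2 : (⟨y, hy⟩ : ↥K) ∈ Subgroup.zpowers (⟨k, hkK⟩ : ↥K) := by
    rw [h1]; exact Subgroup.mem_top _
  obtain ⟨i, hi⟩ := Subgroup.mem_zpowers_iff.mp h2
  have h3 : k ^ i = y := by
    have := congrArg Subtype.val hi
    simpa using this
  rw [← h3]
  exact H.zpow_mem hkH i

/-- Irreducible characters separate nontrivial elements from `1`. -/
theorem tp_exists_irr_ne {G : Type u} [Group G] [Finite G] {g : G} (hg : g ≠ 1) :
    ∃ χ : IrrCharacter G, (χ : G → ℂ) g ≠ (χ : G → ℂ) 1 := by
  by_contra hcon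
  push Not at hcon
  have hconj : IsConj g 1 := Helper79.isConj_of_forall_irr_eq hcon
  exact hg (isConj_one_left.mp hconj)

/-- If all irreducible characters of `G` have degree `1` or `p`, an irreducible character of a
normal subgroup of degree at least `p` (and not `1`) extends to `G`. -/
theorem tp_extends {G : Type u} [Group G] [Finite G] (p : ℕ)
    (hcd : ∀ χ : IrrCharacter G, charDegree (χ : G → ℂ) = 1 ∨ charDegree (χ : G → ℂ) = p)
    (M : Subgroup G) [M.Normal] (ψ : IrrCharacter ↥M) (hψ : p ≤ charDegree (ψ : ↥M → ℂ))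
    (hψ1 : charDegree (ψ : ↥M → ℂ) ≠ 1) :
    ∃ χ : IrrCharacter G, ∀ m : ↥M, (χ : G → ℂ) m = (ψ : ↥M → ℂ) m := by
  classical
  letI : Fintype G := Fintype.ofFinite G
  letI : Fintype M := Fintype.ofFinite M
  obtain ⟨χ, hχ, hne⟩ := Helper79.exists_irr_over_normal M ψ.2
  obtain ⟨k, hk, -⟩ := Helper15.degree_eq_mul_of_constituent M χ hχ (ψ : ↥M → ℂ) ψ.2 hne
  have h1 := Helper80.irr_one_eq (⟨χ, hχ⟩ : IrrCharacter G)
  have h2 := Helper80.irr_one_eq ψ
  have h3 : charDegree χ = k * charDegree (ψ : ↥M → ℂ) := by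
    have : ((charDegree χ : ℕ) : ℂ) = ((k * charDegree (ψ : ↥M → ℂ) : ℕ) : ℂ) := by
      push_cast
      rw [← h2, ← hk]
      exact h1.symm
    exact_mod_cast this
  have hpos : 0 < charDegree χ := Helper80.irr_degree_pos (⟨χ, hχ⟩ : IrrCharacter G)
  have hψpos := Helper80.irr_degree_pos ψ
  have hk1 : 1 ≤ k := by
    rcases Nat.eq_zero_or_pos k with h0 | h0
    · rw [h0, zero_mul] at h3
      omega
    · exact h0
  have hle : charDegree (ψ : ↥M → ℂ) ≤ charDegree χ := by
    rw [h3]; exact Nat.le_mul_of_pos_left _ hk1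
  have hχp : charDegree χ = p := by
    rcases hcd ⟨χ, hχ⟩ with h | h
    · exfalso
      have h4 : charDegree χ = 1 := h
      omega
    · exact h
  have hres : IsCharacter ↥M (fun m : ↥M => χ m) :=
    Helper79.isCharacter_restrict (Helper80.isCharacter_of_irr hχ) M
  have hdeg : charDegree (fun m : ↥M => χ m) ≤ charDegree (ψ : ↥M → ℂ) := by
    have : charDegree (fun m : ↥M => χ m) = charDegree χ := rfl
    rw [this, hχp]; exact hψ
  have heq := Helper75.eq_irr_of_constituent_of_le hres ψ hne hdeg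
  exact ⟨⟨χ, hχ⟩, fun m => congrFun heq m⟩

end Cfsg.Agent.Helper74
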