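import Mathlib
import Cfsg.Agent.Helper74.TwoP1

/-!
# Groups with character degrees 1 and p (Isaacs 12.11): the centralizer lemma

If `cd(G) ⊆ {1, p}` for a `p`-group `G`, `K` is a central subgroup of order `p` and `x` is a
noncentral element with `[x, G] ⊆ K`, then `C_G(x)` is an abelian normal subgroup of index `p`.
-/

set_option autoImplicit false

namespace Cfsg.Agent.Helper74

open Cfsg
open scoped ComplexConjugate

universe u

theorem tp_centralizer_abelian {G : Type u} [Group G] [Finite G] (p : ℕ) [hp : Fact p.Prime]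
    (hG : IsPGroup p G)
    (hcd : ∀ χ : IrrCharacter G, charDegree (χ : G → ℂ) = 1 ∨ charDegree (χ : G → ℂ) = p)
    (K : Subgroup G) (hKZ : K ≤ Subgroup.center G) (hKp : Nat.card K = p)
    (x : G) (hx : ∀ g : G, g⁻¹ * x * g * x⁻¹ ∈ K) (hxZ : x ∉ Subgroup.center G) :
    ∃ A : Subgroup G, A.Normal ∧ (∀ a ∈ A, ∀ b ∈ A, a * b = b * a) ∧ A.index = p := by
  classical
  have hcen : ∀ g h : G, (g⁻¹ * x * g * x⁻¹) * h = h * (g⁻¹ * x * g * x⁻¹) := fun g h =>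
    (Subgroup.mem_center_iff.mp (hKZ (hx g)) h).symm
  let c : G →* G := MonoidHom.mk' (fun g => g⁻¹ * x * g * x⁻¹) (by
    intro g h
    have h1 := hcen g (h⁻¹)
    calc (g * h)⁻¹ * x * (g * h) * x⁻¹
        = h⁻¹ * (g⁻¹ * x * g * x⁻¹) * (x * h * x⁻¹) := by group
      _ = (g⁻¹ * x * g * x⁻¹) * h⁻¹ * (x * h * x⁻¹) := by rw [h1]
      _ = (g⁻¹ * x * g * x⁻¹) * (h⁻¹ * x * h * x⁻¹) := by group)
  have hc : ∀ g, c g = g⁻¹ * x * g * x⁻¹ := fun g => rfl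
  have hker : ∀ g, g ∈ c.ker ↔ x * g = g * x := by
    intro g
    rw [MonoidHom.mem_ker, hc]
    constructor
    · intro h
      calc x * g = g * (g⁻¹ * x * g * x⁻¹) * x := by group
        _ = g * x := by rw [h, mul_one]
    · intro h
      calc g⁻¹ * x * g * x⁻¹ = g⁻¹ * (x * g) * x⁻¹ := by group
        _ = 1 := by rw [h]; group
  have hrange : c.range ≤ K := by
    rintro _ ⟨g, rfl⟩
    exact hx g
  have hidx : c.ker.index = p := by
    rw [Subgroup.index_ker]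
    have h1 : Nat.card c.range ∣ p := by
      rw [← hKp]; exact Subgroup.card_dvd_of_le hrange
    rcases (Nat.dvd_prime hp.out).mp h1 with h2 | h2
    · exfalso
      apply hxZ
      rw [Subgroup.mem_center_iff]
      intro g
      have h3 : c g = 1 := by
        haveI : Subsingleton c.range := (Nat.card_eq_one_iff_unique.mp h2).1
        have : (⟨c g, ⟨g, rfl⟩⟩ : c.range) = 1 := Subsingleton.elim _ _
        exact congrArg Subtype.val this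
      exact ((hker g).mp (by rw [MonoidHom.mem_ker]; exact h3)).symm
    · exact h2
  refine ⟨c.ker, inferInstance, ?_, hidx⟩
  obtain ⟨M, hMdef⟩ : ∃ M : Subgroup G, M = c.ker := ⟨_, rfl⟩
  rw [← hMdef]
  haveI hMn : M.Normal := by rw [hMdef]; infer_instance
  have hMmem : ∀ g, g ∈ M ↔ x * g = g * x := by rw [hMdef]; exact hker
  have hxM : x ∈ M := (hMmem x).mpr rfl
  have hKM : K ≤ M := by
    intro k hk
    rw [hMmem]
    exact (Subgroup.mem_center_iff.mp (hKZ hk) x)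
  have hPM : IsPGroup p ↥M := hG.to_subgroup M
  have hcenM : ∀ (z : G) (hz : z ∈ M), (∀ m ∈ M, m * z = z * m) →
      (⟨z, hz⟩ : ↥M) ∈ Subgroup.center ↥M := by
    intro z hz h
    rw [Subgroup.mem_center_iff]
    intro m
    exact Subtype.ext (h m m.2)
  have hxcen : (⟨x, hxM⟩ : ↥M) ∈ Subgroup.center ↥M :=
    hcenM x hxM (fun m hm => ((hMmem m).mp hm).symm)
  have hKcen : ∀ (k : G) (hk : k ∈ K), (⟨k, hKM hk⟩ : ↥M) ∈ Subgroup.center ↥M := fun k hk =>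
    hcenM k (hKM hk) (fun m _ => Subgroup.mem_center_iff.mp (hKZ hk) m)
  obtain ⟨g₀, hg₀⟩ : ∃ g : G, g ∉ M := by
    by_contra hcon
    push Not at hcon
    have hM : M = ⊤ := (Subgroup.eq_top_iff' M).mpr hcon
    rw [hMdef] at hM
    rw [hM, Subgroup.index_top] at hidx
    exact hp.out.one_lt.ne hidx
  have hk' : g₀⁻¹ * x * g₀ * x⁻¹ ∈ K := hx g₀
  have hk'1 : g₀⁻¹ * x * g₀ * x⁻¹ ≠ 1 := by
    intro h
    apply hg₀
    rw [hMdef, MonoidHom.mem_ker]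
    exact h
  have step1 : ∀ ψ : IrrCharacter ↥M,
      (∃ k : G, ∃ hk : k ∈ K, (ψ : ↥M → ℂ) ⟨k, hKM hk⟩ ≠ (ψ : ↥M → ℂ) 1) →
        charDegree (ψ : ↥M → ℂ) = 1 := by
    rintro ψ ⟨k, hk, hne⟩
    by_contra hdeg
    have hdvd := (Helper79.irr_pgroup_dvd_degree_iff hPM ψ).mpr hdeg
    have hle : p ≤ charDegree (ψ : ↥M → ℂ) := Nat.le_of_dvd (Helper80.irr_degree_pos ψ) hdvd
    obtain ⟨χ, hχ⟩ := tp_extends p hcd M ψ hle hdeg
    have hconjM : g₀⁻¹ * x * g₀ ∈ M := by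
      have := hMn.conj_mem x hxM g₀⁻¹
      rwa [inv_inv] at this
    have e1 : (ψ : ↥M → ℂ) ⟨g₀⁻¹ * x * g₀, hconjM⟩ = (ψ : ↥M → ℂ) ⟨x, hxM⟩ := by
      rw [← hχ, ← hχ]
      have := Helper79.isCharacter_conj_eq (Helper80.isCharacter_of_irr χ.2) x g₀⁻¹
      rw [inv_inv] at this
      exact this
    have e2 : (⟨g₀⁻¹ * x * g₀, hconjM⟩ : ↥M) =
        (⟨g₀⁻¹ * x * g₀ * x⁻¹, hKM hk'⟩ : ↥M) * ⟨x, hxM⟩ := by
      apply Subtype.ext
      show g₀⁻¹ * x * g₀ = g₀⁻¹ * x * g₀ * x⁻¹ * x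
      group
    obtain ⟨c', -, hc'⟩ := tp_central ψ.2 (hKcen _ hk')
    have e3 := hc' ⟨x, hxM⟩
    rw [← e2, e1] at e3
    have hx0 := Helper79.irr_center_ne_zero ψ hxcen
    have hc1 : c' = 1 := by
      have : (c' - 1) * (ψ : ↥M → ℂ) ⟨x, hxM⟩ = 0 := by rw [sub_mul, one_mul, ← e3, sub_self]
      rcases mul_eq_zero.mp this with h2 | h2
      · exact sub_eq_zero.mp h2
      · exact absurd h2 hx0
    have hmem : (⟨g₀⁻¹ * x * g₀ * x⁻¹, hKM hk'⟩ : ↥M) ∈ tpKer (ψ : ↥M → ℂ) := by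
      intro y
      rw [hc' y, hc1, one_mul]
    have hKle : K ≤ (tpKer (ψ : ↥M → ℂ)).map M.subtype :=
      tp_le_of_prime_card p K _ hKp hk' hk'1 ⟨_, hmem, rfl⟩
    obtain ⟨y, hy, hyk⟩ := hKle hk
    apply hne
    have : y = ⟨k, hKM hk⟩ := Subtype.ext hyk
    rw [← this]
    exact tp_ker_apply _ hy
  obtain ⟨ψ₁, hψ₁⟩ := tp_exists_irr_ne (G := ↥M) (g := ⟨g₀⁻¹ * x * g₀ * x⁻¹, hKM hk'⟩)
    (fun h => hk'1 (congrArg Subtype.val h))
  have hψ₁lin := step1 ψ₁ ⟨_, hk', hψ₁⟩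
  obtain ⟨f, hf⟩ := Helper80.exists_hom_of_linear ψ₁ hψ₁lin
  have hfk : ((f ⟨g₀⁻¹ * x * g₀ * x⁻¹, hKM hk'⟩ : ℂˣ) : ℂ) ≠ 1 := by
    have h2 : (ψ₁ : ↥M → ℂ) ⟨g₀⁻¹ * x * g₀ * x⁻¹, hKM hk'⟩ =
        ((f ⟨g₀⁻¹ * x * g₀ * x⁻¹, hKM hk'⟩ : ℂˣ) : ℂ) := by rw [← hf]; rfl
    have h3 : (ψ₁ : ↥M → ℂ) 1 = 1 := by rw [← hf]; simp
    rw [← h2]
    rw [h3] at hψ₁
    exact hψ₁
  have hlin : ∀ β : IrrCharacter ↥M, charDegree (β : ↥M → ℂ) = 1 := by
    intro β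
    by_contra hβ
    have h1 : charDegree (Helper79.irrTwist f β : ↥M → ℂ) ≠ 1 := by
      rw [Helper79.charDegree_irrTwist]; exact hβ
    apply h1
    apply step1
    refine ⟨_, hk', ?_⟩
    rw [Helper79.irrTwist_apply, Helper79.irrTwist_apply, map_one]
    have hβk : (β : ↥M → ℂ) ⟨g₀⁻¹ * x * g₀ * x⁻¹, hKM hk'⟩ = (β : ↥M → ℂ) 1 := by
      by_contra hne
      exact hβ (step1 β ⟨_, hk', hne⟩)
    rw [hβk]
    have h0 := Helper80.irr_one_ne_zero β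
    intro h4
    apply hfk
    have h5 : (((f ⟨g₀⁻¹ * x * g₀ * x⁻¹, hKM hk'⟩ : ℂˣ) : ℂ) - 1) * (β : ↥M → ℂ) 1 = 0 := by
      rw [sub_mul, h4]
      simp
    rcases mul_eq_zero.mp h5 with h6 | h6
    · exact sub_eq_zero.mp h6
    · exact absurd h6 h0
  have hcomm := Helper4.twoDeg_commutator_le (H := ↥M) ⊥ (fun β _ => hlin β)
  intro a ha b hb
  have h1 := hcomm ⟨a, ha⟩ ⟨b, hb⟩
  rw [Subgroup.mem_bot] at h1
  have h2 := congrArg Subtype.val h1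
  have h3 : a * b * a⁻¹ * b⁻¹ = 1 := h2
  calc a * b = (a * b * a⁻¹ * b⁻¹) * (b * a) := by group
    _ = b * a := by rw [h3, one_mul]

end Cfsg.Agent.Helper74
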