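import Mathlib
import Cfsg.Agent.Helper74.TwoP1

/-!
# Groups with character degrees 1 and p (Isaacs 12.11): the case `|G : Z(G)| = p³`

If `cd(G) ⊆ {1, p}` for a `p`-group `G`, `K` is a central subgroup of order `p`, and `M` is a
nonabelian normal subgroup of index `p` containing `Z(G)` with `M' ≤ K`, then
`|G : Z(G)| = p³`.
-/

set_option autoImplicit false

namespace Cfsg.Agent.Helper74

open Cfsg
open scoped ComplexConjugate

universe u

theorem tp_center_index {G : Type u} [Group G] [Finite G] (p : ℕ) [hp : Fact p.Prime]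
    (hG : IsPGroup p G)
    (hcd : ∀ χ : IrrCharacter G, charDegree (χ : G → ℂ) = 1 ∨ charDegree (χ : G → ℂ) = p)
    (K : Subgroup G) (hKZ : K ≤ Subgroup.center G) (hKp : Nat.card K = p)
    (M : Subgroup G) [hMn : M.Normal] (hMp : M.index = p)
    (hMK : ∀ a ∈ M, ∀ b ∈ M, a * b * a⁻¹ * b⁻¹ ∈ K)
    (hMnab : ¬ ∀ a ∈ M, ∀ b ∈ M, a * b = b * a)
    (hZM : Subgroup.center G ≤ M) :
    (Subgroup.center G).index = p ^ 3 := by
  classical
  letI : Fintype G := Fintype.ofFinite G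
  letI : Fintype M := Fintype.ofFinite M
  have hKM : K ≤ M := hKZ.trans hZM
  have hPM : IsPGroup p ↥M := hG.to_subgroup M
  have hKcen : ∀ (k : G) (hk : k ∈ K), (⟨k, hKM hk⟩ : ↥M) ∈ Subgroup.center ↥M := by
    intro k hk
    rw [Subgroup.mem_center_iff]
    intro m
    exact Subtype.ext (Subgroup.mem_center_iff.mp (hKZ hk) m)
  push Not at hMnab
  obtain ⟨a₀, ha₀, b₀, hb₀, hab₀⟩ := hMnab
  have hk₁K : a₀ * b₀ * a₀⁻¹ * b₀⁻¹ ∈ K := hMK a₀ ha₀ b₀ hb₀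
  have hk₁ : a₀ * b₀ * a₀⁻¹ * b₀⁻¹ ≠ 1 := by
    intro h
    apply hab₀
    calc a₀ * b₀ = (a₀ * b₀ * a₀⁻¹ * b₀⁻¹) * (b₀ * a₀) := by group
      _ = b₀ * a₀ := by rw [h, one_mul]
  obtain ⟨k₁, hk₁def⟩ : ∃ k₁ : G, k₁ = a₀ * b₀ * a₀⁻¹ * b₀⁻¹ := ⟨_, rfl⟩
  rw [← hk₁def] at hk₁K hk₁
  have hKker : ∀ θ : IrrCharacter ↥M,
      (θ : ↥M → ℂ) ⟨k₁, hKM hk₁K⟩ = (θ : ↥M → ℂ) 1 →
      ∀ (k : G) (hk : k ∈ K), (⟨k, hKM hk⟩ : ↥M) ∈ tpKer (θ : ↥M → ℂ) := by
    intro θ h k hk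
    have hmem := tp_center_mem_ker θ (hKcen k₁ hk₁K) h
    have hKle : K ≤ (tpKer (θ : ↥M → ℂ)).map M.subtype :=
      tp_le_of_prime_card p K _ hKp hk₁K hk₁ ⟨_, hmem, rfl⟩
    obtain ⟨y, hy, hyk⟩ := hKle hk
    have : y = ⟨k, hKM hk⟩ := Subtype.ext hyk
    rw [← this]
    exact hy
  have hnonlin : ∀ θ : IrrCharacter ↥M,
      (θ : ↥M → ℂ) ⟨k₁, hKM hk₁K⟩ ≠ (θ : ↥M → ℂ) 1 → charDegree (θ : ↥M → ℂ) ≠ 1 := by
    intro θ hne hlin
    obtain ⟨f, hf⟩ := Helper80.exists_hom_of_linear θ hlin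
    apply hne
    rw [← hf]
    simp only [Helper80.homIrr_apply, map_one, Units.val_one]
    have h1 : (⟨k₁, hKM hk₁K⟩ : ↥M) =
        ⟨a₀, ha₀⟩ * ⟨b₀, hb₀⟩ * (⟨a₀, ha₀⟩ : ↥M)⁻¹ * (⟨b₀, hb₀⟩ : ↥M)⁻¹ := by
      apply Subtype.ext
      exact hk₁def
    have h2 : f (⟨a₀, ha₀⟩ * ⟨b₀, hb₀⟩ * (⟨a₀, ha₀⟩ : ↥M)⁻¹ * (⟨b₀, hb₀⟩ : ↥M)⁻¹) = 1 := by
      rw [map_mul, map_mul, map_mul, map_inv, map_inv,
        mul_comm (f ⟨a₀, ha₀⟩) (f ⟨b₀, hb₀⟩)]
      group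
    rw [h1, h2]
    rfl
  have hext : ∀ θ : IrrCharacter ↥M,
      (θ : ↥M → ℂ) ⟨k₁, hKM hk₁K⟩ ≠ (θ : ↥M → ℂ) 1 →
      charDegree (θ : ↥M → ℂ) = p ∧
        ∃ χ : IrrCharacter G, ∀ m : ↥M, (χ : G → ℂ) m = (θ : ↥M → ℂ) m := by
    intro θ hne
    have hdeg := hnonlin θ hne
    have hdvd := (Helper79.irr_pgroup_dvd_degree_iff hPM θ).mpr hdeg
    have hle : p ≤ charDegree (θ : ↥M → ℂ) := Nat.le_of_dvd (Helper80.irr_degree_pos θ) hdvd
    obtain ⟨χ, hχ⟩ := tp_extends p hcd M θ hle hdeg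
    refine ⟨?_, χ, hχ⟩
    have h1 : charDegree (χ : G → ℂ) = charDegree (θ : ↥M → ℂ) := by
      unfold charDegree
      rw [← hχ 1]
      rfl
    rcases hcd χ with h | h
    · rw [h1] at h
      exact absurd h hdeg
    · rw [← h1]; exact h
  have hvanish : ∀ θ : IrrCharacter ↥M,
      (θ : ↥M → ℂ) ⟨k₁, hKM hk₁K⟩ ≠ (θ : ↥M → ℂ) 1 →
      ∀ m : ↥M, m ∉ Subgroup.center ↥M → (θ : ↥M → ℂ) m = 0 := by
    intro θ hne m hm
    rw [Subgroup.mem_center_iff] at hm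
    push Not at hm
    obtain ⟨n, hn⟩ := hm
    have hkK : (n : G) * m * (n : G)⁻¹ * (m : G)⁻¹ ∈ K := hMK n n.2 m m.2
    obtain ⟨c', -, hc'⟩ := tp_central θ.2 (hKcen _ hkK)
    have e1 := hc' m
    have e2 : (⟨(n : G) * m * (n : G)⁻¹ * (m : G)⁻¹, hKM hkK⟩ : ↥M) * m = n * m * n⁻¹ := by
      apply Subtype.ext
      show (n : G) * m * (n : G)⁻¹ * (m : G)⁻¹ * m = n * m * (n : G)⁻¹
      group
    rw [e2, Helper79.isCharacter_conj_eq (Helper80.isCharacter_of_irr θ.2) m n] at e1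
    by_contra h0
    have hc1 : c' = 1 := by
      have : (c' - 1) * (θ : ↥M → ℂ) m = 0 := by rw [sub_mul, one_mul, ← e1, sub_self]
      rcases mul_eq_zero.mp this with h2 | h2
      · exact sub_eq_zero.mp h2
      · exact absurd h2 h0
    have hmem : (⟨(n : G) * m * (n : G)⁻¹ * (m : G)⁻¹, hKM hkK⟩ : ↥M) ∈
        tpKer (θ : ↥M → ℂ) := by
      intro y
      rw [hc' y, hc1, one_mul]
    have hkne : (n : G) * m * (n : G)⁻¹ * (m : G)⁻¹ ≠ 1 := by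
      intro h
      apply hn
      apply Subtype.ext
      show (n : G) * m = m * n
      calc (n : G) * m = ((n : G) * m * (n : G)⁻¹ * (m : G)⁻¹) * (m * n) := by group
        _ = m * n := by rw [h, one_mul]
    have hKle : K ≤ (tpKer (θ : ↥M → ℂ)).map M.subtype :=
      tp_le_of_prime_card p K _ hKp hkK hkne ⟨_, hmem, rfl⟩
    obtain ⟨y, hy, hyk⟩ := hKle hk₁K
    apply hne
    have : y = ⟨k₁, hKM hk₁K⟩ := Subtype.ext hyk
    rw [← this]
    exact tp_ker_apply _ hy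
  obtain ⟨θ₀, hθ₀⟩ := tp_exists_irr_ne (G := ↥M) (g := ⟨k₁, hKM hk₁K⟩)
    (fun h => hk₁ (congrArg Subtype.val h))
  obtain ⟨hθ₀deg, χ₀, hχ₀⟩ := hext θ₀ hθ₀
  have hcard : Nat.card ↥M = p ^ 2 * Nat.card (Subgroup.center ↥M) := by
    have horth := Helper80.irr_orthogonality_conj θ₀ θ₀
    rw [if_pos rfl] at horth
    have hterm : ∀ m : ↥M, (θ₀ : ↥M → ℂ) m * conj ((θ₀ : ↥M → ℂ) m) =
        if m ∈ Subgroup.center ↥M then ((p : ℂ) ^ 2) else 0 := by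
      intro m
      split_ifs with hm
      · rw [Complex.mul_conj, Helper15.normSq_char_center _ θ₀.2 hm, Helper80.irr_one_eq θ₀,
          hθ₀deg, Complex.normSq_natCast]
        push_cast
        ring
      · rw [hvanish θ₀ hθ₀ m hm, zero_mul]
    rw [Finset.sum_congr rfl (fun m _ => hterm m), Finset.sum_ite, Finset.sum_const_zero,
      add_zero, Finset.sum_const, nsmul_eq_mul] at horth
    have h1 : (Finset.univ.filter (fun m : ↥M => m ∈ Subgroup.center ↥M)).card =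
        Nat.card (Subgroup.center ↥M) := by
      rw [Nat.card_eq_fintype_card, Fintype.card_subtype]
    rw [h1] at horth
    rw [Nat.card_eq_fintype_card]
    have : ((Fintype.card ↥M : ℕ) : ℂ) =
        ((p ^ 2 * Nat.card (Subgroup.center ↥M) : ℕ) : ℂ) := by
      rw [← horth]; push_cast; ring
    exact_mod_cast this
  have hcenle : ∀ y : ↥M, y ∈ Subgroup.center ↥M → (y : G) ∈ Subgroup.center G := by
    intro y hy
    rw [Subgroup.mem_center_iff]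
    intro g
    by_contra hne
    have hy'M : g * y * g⁻¹ ∈ M := hMn.conj_mem y y.2 g
    have hy'cen : (⟨g * y * g⁻¹, hy'M⟩ : ↥M) ∈ Subgroup.center ↥M := by
      rw [Subgroup.mem_center_iff]
      intro m
      apply Subtype.ext
      show (m : G) * (g * y * g⁻¹) = g * y * g⁻¹ * m
      have hm' : g⁻¹ * m * g ∈ M := by
        have := hMn.conj_mem m m.2 g⁻¹
        rwa [inv_inv] at this
      have h1 := Subgroup.mem_center_iff.mp hy ⟨g⁻¹ * m * g, hm'⟩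
      have h2 : g⁻¹ * m * g * y = y * (g⁻¹ * m * g) := congrArg Subtype.val h1
      calc (m : G) * (g * y * g⁻¹) = g * (g⁻¹ * m * g * y) * g⁻¹ := by group
        _ = g * (y * (g⁻¹ * m * g)) * g⁻¹ := by rw [h2]
        _ = g * y * g⁻¹ * m := by group
    obtain ⟨u, hudef⟩ : ∃ u : ↥M, u = ⟨g * y * g⁻¹, hy'M⟩ * y⁻¹ := ⟨_, rfl⟩
    have hucen : u ∈ Subgroup.center ↥M := by
      rw [hudef]; exact Subgroup.mul_mem _ hy'cen (Subgroup.inv_mem _ hy)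
    have hu1 : u ≠ 1 := by
      intro h
      apply hne
      have h2 : g * y * g⁻¹ * (y : G)⁻¹ = 1 := congrArg Subtype.val (hudef.symm.trans h)
      calc g * (y : G) = (g * y * g⁻¹ * (y : G)⁻¹) * (y * g) := by group
        _ = y * g := by rw [h2, one_mul]
    have huy : u * y = ⟨g * y * g⁻¹, hy'M⟩ := by
      rw [hudef]; group
    have hN : ∀ θ : IrrCharacter ↥M,
        (θ : ↥M → ℂ) ⟨k₁, hKM hk₁K⟩ ≠ (θ : ↥M → ℂ) 1 →
        (θ : ↥M → ℂ) u = (θ : ↥M → ℂ) 1 := by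
      intro θ hθ
      obtain ⟨-, χ, hχ⟩ := hext θ hθ
      obtain ⟨c', -, hc'⟩ := tp_central θ.2 hucen
      have e1 := hc' y
      rw [huy] at e1
      have e2 : (θ : ↥M → ℂ) ⟨g * y * g⁻¹, hy'M⟩ = (θ : ↥M → ℂ) y := by
        rw [← hχ, ← hχ]
        exact Helper79.isCharacter_conj_eq (Helper80.isCharacter_of_irr χ.2) (y : G) g
      rw [e2] at e1
      have hy0 := Helper79.irr_center_ne_zero θ hy
      have hc1 : c' = 1 := by
        have : (c' - 1) * (θ : ↥M → ℂ) y = 0 := by rw [sub_mul, one_mul, ← e1, sub_self]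
        rcases mul_eq_zero.mp this with h2 | h2
        · exact sub_eq_zero.mp h2
        · exact absurd h2 hy0
      have := hc' 1
      rw [mul_one, hc1, one_mul] at this
      exact this
    obtain ⟨θ₂, hθ₂⟩ := tp_exists_irr_ne (G := ↥M) hu1
    have hθ₂K : (θ₂ : ↥M → ℂ) ⟨k₁, hKM hk₁K⟩ = (θ₂ : ↥M → ℂ) 1 := by
      by_contra h
      exact hθ₂ (hN θ₂ h)
    have hθ₂lin : charDegree (θ₂ : ↥M → ℂ) = 1 := by
      have h1 := Helper15.irr_linear_of_comm_ker (K.subgroupOf M) (fun a b => by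
        rw [Subgroup.mem_subgroupOf]
        exact hMK a a.2 b b.2) (θ₂ : ↥M → ℂ) θ₂.2 (fun y hy => by
          rw [Subgroup.mem_subgroupOf] at hy
          exact tp_ker_apply _ (hKker θ₂ hθ₂K (y : G) hy))
      have h2 := Helper80.irr_one_eq θ₂
      rw [h1] at h2
      exact_mod_cast h2.symm
    obtain ⟨f₂, hf₂⟩ := Helper80.exists_hom_of_linear θ₂ hθ₂lin
    have hf₂u : ((f₂ u : ℂˣ) : ℂ) ≠ 1 := by
      have h2 : (θ₂ : ↥M → ℂ) u = ((f₂ u : ℂˣ) : ℂ) := by rw [← hf₂]; rfl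
      have h3 : (θ₂ : ↥M → ℂ) 1 = 1 := by rw [← hf₂]; simp
      rw [← h2]
      rw [h3] at hθ₂
      exact hθ₂
    have hf₂k : ((f₂ ⟨k₁, hKM hk₁K⟩ : ℂˣ) : ℂ) = 1 := by
      have h2 : (θ₂ : ↥M → ℂ) ⟨k₁, hKM hk₁K⟩ = ((f₂ ⟨k₁, hKM hk₁K⟩ : ℂˣ) : ℂ) := by
        rw [← hf₂]; rfl
      have h3 : (θ₂ : ↥M → ℂ) 1 = 1 := by rw [← hf₂]; simp
      rw [← h2, hθ₂K, h3]
    have h3N : (Helper79.irrTwist f₂ θ₀ : ↥M → ℂ) ⟨k₁, hKM hk₁K⟩ ≠
        (Helper79.irrTwist f₂ θ₀ : ↥M → ℂ) 1 := by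
      rw [Helper79.irrTwist_apply, Helper79.irrTwist_apply, map_one, hf₂k]
      simpa using hθ₀
    have h4 := hN _ h3N
    rw [Helper79.irrTwist_apply, Helper79.irrTwist_apply, map_one, hN θ₀ hθ₀] at h4
    have h0 := Helper80.irr_one_ne_zero θ₀
    apply hf₂u
    have h5 : (((f₂ u : ℂˣ) : ℂ) - 1) * (θ₀ : ↥M → ℂ) 1 = 0 := by
      rw [sub_mul, h4]; simp
    rcases mul_eq_zero.mp h5 with h6 | h6
    · exact sub_eq_zero.mp h6
    · exact absurd h6 h0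
  have hZeq : Subgroup.center G = (Subgroup.center ↥M).map M.subtype := by
    apply le_antisymm
    · intro z hz
      refine ⟨⟨z, hZM hz⟩, ?_, rfl⟩
      rw [SetLike.mem_coe, Subgroup.mem_center_iff]
      intro m
      exact Subtype.ext (Subgroup.mem_center_iff.mp hz m)
    · rintro _ ⟨y, hy, rfl⟩
      exact hcenle y hy
  have hZcard : Nat.card (Subgroup.center G) = Nat.card (Subgroup.center ↥M) := by
    rw [hZeq]
    exact Subgroup.card_map_of_injective M.subtype_injective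
  have h1 := Subgroup.card_mul_index M
  have h2 := Subgroup.card_mul_index (Subgroup.center G)
  rw [hMp, hcard] at h1
  rw [hZcard, ← h1] at h2
  have hpos : 0 < Nat.card (Subgroup.center ↥M) := Nat.card_pos
  have : Nat.card (Subgroup.center ↥M) * (Subgroup.center G).index =
      Nat.card (Subgroup.center ↥M) * p ^ 3 := by
    rw [h2]; ring
  exact Nat.eq_of_mul_eq_mul_left hpos this

end Cfsg.Agent.Helper74
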