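import Mathlib
import Cfsg.Agent.Helper74.TwoP2
import Cfsg.Agent.Helper74.TwoP3

/-!
# Groups with character degrees 1 and p (Isaacs 12.11): `p`-groups

A `p`-group with `cd(G) ⊆ {1, p}` is abelian, or has an abelian normal subgroup of index `p`, or
satisfies `|G : Z(G)| = p³`.
-/

set_option autoImplicit false

namespace Cfsg.Agent.Helper74

open Cfsg
open scoped ComplexConjugate

universe u

theorem tp_pgroup_aux (p : ℕ) [hp : Fact p.Prime] :
    ∀ (n : ℕ) (G : Type u) [Group G] [Finite G], Nat.card G = n → IsPGroup p G →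
    (∀ χ : IrrCharacter G, charDegree (χ : G → ℂ) = 1 ∨ charDegree (χ : G → ℂ) = p) →
    (∀ a b : G, a * b = b * a) ∨
      (∃ A : Subgroup G, A.Normal ∧ (∀ a ∈ A, ∀ b ∈ A, a * b = b * a) ∧ A.index = p) ∨
      (Subgroup.center G).index = p ^ 3 := by
  intro n
  induction n using Nat.strong_induction_on with
  | _ n ih =>
  intro G _ _ hn hG hcd
  by_cases hab : ∀ a b : G, a * b = b * a
  · exact Or.inl hab
  right
  haveI : Nontrivial G := by
    by_contra hnt
    rw [not_nontrivial_iff_subsingleton] at hnt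
    exact hab (fun a b => Subsingleton.elim _ _)
  haveI hcn : Nontrivial (Subgroup.center G) := hG.center_nontrivial
  have hZp : IsPGroup p (Subgroup.center G) := hG.to_subgroup _
  have hdvd : p ∣ Nat.card (Subgroup.center G) := by
    obtain ⟨k, hk⟩ := IsPGroup.iff_card.mp hZp
    rw [hk]
    have hk0 : k ≠ 0 := by
      rintro rfl
      rw [pow_zero] at hk
      have h1 : 1 < Nat.card (Subgroup.center G) := Finite.one_lt_card
      omega
    exact dvd_pow_self p hk0
  obtain ⟨z₀, hz₀⟩ := exists_prime_orderOf_dvd_card' p hdvd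
  obtain ⟨K, hKdef⟩ : ∃ K : Subgroup G, K = Subgroup.zpowers (z₀ : G) := ⟨_, rfl⟩
  have hKZ : K ≤ Subgroup.center G := by
    rw [hKdef, Subgroup.zpowers_le]; exact z₀.2
  have hKp : Nat.card K = p := by
    rw [hKdef, Nat.card_zpowers, Subgroup.orderOf_coe]; exact hz₀
  haveI hKn : K.Normal := ⟨fun k hk g => by
    have := Subgroup.mem_center_iff.mp (hKZ hk) g
    rw [this, mul_inv_cancel_right]
    exact hk⟩
  have hcdQ : ∀ ψ : IrrCharacter (G ⧸ K),
      charDegree (ψ : G ⧸ K → ℂ) = 1 ∨ charDegree (ψ : G ⧸ K → ℂ) = p := by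
    intro ψ
    have hirr := Helper79.isIrrCharacter_comp (QuotientGroup.mk' K)
      (QuotientGroup.mk'_surjective K) ψ.2
    exact hcd ⟨_, hirr⟩
  have hQlt : Nat.card (G ⧸ K) < n := by
    have h1 := Subgroup.card_eq_card_quotient_mul_card_subgroup K
    rw [hn, hKp] at h1
    have h2 : 0 < Nat.card (G ⧸ K) := Nat.card_pos
    have h3 := hp.out.one_lt
    rw [h1]
    nlinarith
  have hPQ : IsPGroup p (G ⧸ K) := hG.to_quotient K
  have key : ∀ x g : G, (g : G ⧸ K) * (x : G ⧸ K) = (x : G ⧸ K) * (g : G ⧸ K) →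
      g⁻¹ * x * g * x⁻¹ ∈ K := by
    intro x g h
    rw [← QuotientGroup.eq_one_iff]
    have h1 : ((g⁻¹ * x * g * x⁻¹ : G) : G ⧸ K) =
        (g : G ⧸ K)⁻¹ * (x : G ⧸ K) * (g : G ⧸ K) * (x : G ⧸ K)⁻¹ := rfl
    rw [h1, mul_assoc ((g : G ⧸ K)⁻¹), ← h, inv_mul_cancel_left, mul_inv_cancel]
  by_cases hQab : ∀ a b : G ⧸ K, a * b = b * a
  · left
    push Not at hab
    obtain ⟨a, b, hab'⟩ := hab
    have haZ : a ∉ Subgroup.center G := by
      intro h
      exact hab' (Subgroup.mem_center_iff.mp h b).symm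
    exact tp_centralizer_abelian p hG hcd K hKZ hKp a (fun g => key a g (hQab _ _)) haZ
  · rcases ih (Nat.card (G ⧸ K)) hQlt (G ⧸ K) rfl hPQ hcdQ with
      h | ⟨Ab, hAbn, hAbab, hAbidx⟩ | h
    · exact absurd h hQab
    · obtain ⟨M, hMdef⟩ : ∃ M : Subgroup G, M = Ab.comap (QuotientGroup.mk' K) := ⟨_, rfl⟩
      haveI hMn : M.Normal := by rw [hMdef]; exact hAbn.comap _
      have hMidx : M.index = p := by
        rw [hMdef, Subgroup.index_comap_of_surjective Ab (QuotientGroup.mk'_surjective K)]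
        exact hAbidx
      have hMQ : ∀ a ∈ M, ∀ b ∈ M, (a : G ⧸ K) * (b : G ⧸ K) = (b : G ⧸ K) * (a : G ⧸ K) := by
        intro a ha b hb
        rw [hMdef, Subgroup.mem_comap] at ha hb
        exact hAbab _ ha _ hb
      have hMK : ∀ a ∈ M, ∀ b ∈ M, a * b * a⁻¹ * b⁻¹ ∈ K := by
        intro a ha b hb
        have h := hMQ a ha b hb
        rw [← QuotientGroup.eq_one_iff]
        have h1 : ((a * b * a⁻¹ * b⁻¹ : G) : G ⧸ K) =
            (a : G ⧸ K) * (b : G ⧸ K) * (a : G ⧸ K)⁻¹ * (b : G ⧸ K)⁻¹ := rfl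
        rw [h1, h]
        group
      by_cases hMab : ∀ a ∈ M, ∀ b ∈ M, a * b = b * a
      · left; exact ⟨M, hMn, hMab, hMidx⟩
      · right
        apply tp_center_index p hG hcd K hKZ hKp M hMidx hMK hMab
        by_contra hZM
        rw [SetLike.not_le_iff_exists] at hZM
        obtain ⟨z, hz, hzM⟩ := hZM
        apply hQab
        have hdecomp : ∀ g : G, ∃ i : ℤ, (z ^ i)⁻¹ * g ∈ M := by
          intro g
          have hcardQ : Nat.card (G ⧸ M) = p := by
            rw [← Subgroup.index_eq_card]; exact hMidx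
          have hz1 : (z : G ⧸ M) ≠ 1 := by
            intro h; exact hzM ((QuotientGroup.eq_one_iff z).mp h)
          have htop := zpowers_eq_top_of_prime_card hcardQ hz1
          have hmem : (g : G ⧸ M) ∈ Subgroup.zpowers (z : G ⧸ M) := by
            rw [htop]; exact Subgroup.mem_top _
          obtain ⟨i, hi⟩ := Subgroup.mem_zpowers_iff.mp hmem
          refine ⟨i, ?_⟩
          rw [← QuotientGroup.eq, QuotientGroup.mk_zpow]
          exact hi
        have hcenQ : ∀ c : G, c ∈ Subgroup.center G → ∀ q : G ⧸ K, Commute (c : G ⧸ K) q := by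
          intro c hc q
          obtain ⟨g, rfl⟩ := QuotientGroup.mk_surjective q
          show (c : G ⧸ K) * (g : G ⧸ K) = (g : G ⧸ K) * (c : G ⧸ K)
          rw [← QuotientGroup.mk_mul, ← QuotientGroup.mk_mul, Subgroup.mem_center_iff.mp hc g]
        intro qa qb
        obtain ⟨a, rfl⟩ := QuotientGroup.mk_surjective qa
        obtain ⟨b, rfl⟩ := QuotientGroup.mk_surjective qb
        obtain ⟨i, hi⟩ := hdecomp a
        obtain ⟨j, hj⟩ := hdecomp b
        have hzi : z ^ i ∈ Subgroup.center G := Subgroup.zpow_mem _ hz i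
        have hzj : z ^ j ∈ Subgroup.center G := Subgroup.zpow_mem _ hz j
        have ea : (a : G ⧸ K) = ((z ^ i : G) : G ⧸ K) * (((z ^ i)⁻¹ * a : G) : G ⧸ K) := by
          rw [← QuotientGroup.mk_mul, mul_inv_cancel_left]
        have eb : (b : G ⧸ K) = ((z ^ j : G) : G ⧸ K) * (((z ^ j)⁻¹ * b : G) : G ⧸ K) := by
          rw [← QuotientGroup.mk_mul, mul_inv_cancel_left]
        have hc1 : Commute (((z ^ i)⁻¹ * a : G) : G ⧸ K) (((z ^ j)⁻¹ * b : G) : G ⧸ K) :=
          hMQ _ hi _ hj
        have hc2 : Commute (a : G ⧸ K) (b : G ⧸ K) := by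
          rw [ea, eb]
          exact Commute.mul_left (hcenQ _ hzi _)
            (Commute.mul_right (hcenQ _ hzj _).symm hc1)
        exact hc2
    · by_cases hle : (Subgroup.center (G ⧸ K)).comap (QuotientGroup.mk' K) ≤ Subgroup.center G
      · right
        have hge : Subgroup.center G ≤ (Subgroup.center (G ⧸ K)).comap (QuotientGroup.mk' K) := by
          intro z hz
          rw [Subgroup.mem_comap, Subgroup.mem_center_iff]
          intro q
          obtain ⟨g, rfl⟩ := QuotientGroup.mk_surjective q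
          show (g : G ⧸ K) * (z : G ⧸ K) = (z : G ⧸ K) * (g : G ⧸ K)
          rw [← QuotientGroup.mk_mul, ← QuotientGroup.mk_mul, Subgroup.mem_center_iff.mp hz g]
        rw [← le_antisymm hle hge,
          Subgroup.index_comap_of_surjective _ (QuotientGroup.mk'_surjective K)]
        exact h
      · left
        rw [SetLike.not_le_iff_exists] at hle
        obtain ⟨x, hx, hxZ⟩ := hle
        rw [Subgroup.mem_comap, Subgroup.mem_center_iff] at hx
        exact tp_centralizer_abelian p hG hcd K hKZ hKp x (fun g => key x g (hx _)) hxZ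

/-- Degrees of irreducible characters are bounded by the index of the centre. -/
theorem tp_degree_sq_le {G : Type u} [Group G] [Finite G] (χ : IrrCharacter G) :
    charDegree (χ : G → ℂ) ^ 2 ≤ (Subgroup.center G).index := by
  classical
  letI : Fintype G := Fintype.ofFinite G
  have horth := Helper80.irr_orthogonality_conj χ χ
  rw [if_pos rfl] at horth
  have h1 : ∑ g : G, Complex.normSq ((χ : G → ℂ) g) = (Fintype.card G : ℝ) := by
    have : ((∑ g : G, Complex.normSq ((χ : G → ℂ) g) : ℝ) : ℂ) = ((Fintype.card G : ℝ) : ℂ) := by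
      push_cast
      rw [← horth]
      apply Finset.sum_congr rfl
      intro g _
      rw [Complex.mul_conj]
    exact_mod_cast this
  have h2 : ∑ g ∈ Finset.univ.filter (fun g : G => g ∈ Subgroup.center G),
      Complex.normSq ((χ : G → ℂ) g) ≤ ∑ g : G, Complex.normSq ((χ : G → ℂ) g) :=
    Finset.sum_le_sum_of_subset_of_nonneg (Finset.filter_subset _ _)
      (fun g _ _ => Complex.normSq_nonneg _)
  have hterm : ∀ g ∈ Finset.univ.filter (fun g : G => g ∈ Subgroup.center G),
      Complex.normSq ((χ : G → ℂ) g) = (charDegree (χ : G → ℂ) : ℝ) ^ 2 := by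
    intro g hg
    have hg' := (Finset.mem_filter.mp hg).2
    rw [Helper15.normSq_char_center _ χ.2 hg', Helper80.irr_one_eq χ, Complex.normSq_natCast]
    ring
  have hcardf : (Finset.univ.filter (fun g : G => g ∈ Subgroup.center G)).card =
      Nat.card (Subgroup.center G) := by
    rw [Nat.card_eq_fintype_card, Fintype.card_subtype]
  have h3 : ∑ g ∈ Finset.univ.filter (fun g : G => g ∈ Subgroup.center G),
      Complex.normSq ((χ : G → ℂ) g) =
      (Nat.card (Subgroup.center G) : ℝ) * (charDegree (χ : G → ℂ) : ℝ) ^ 2 := by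
    rw [Finset.sum_congr rfl hterm, Finset.sum_const, nsmul_eq_mul, hcardf]
  have h4 := Subgroup.card_mul_index (Subgroup.center G)
  have h5 : (Nat.card (Subgroup.center G) : ℝ) * (charDegree (χ : G → ℂ) : ℝ) ^ 2 ≤
      (Nat.card (Subgroup.center G) : ℝ) * ((Subgroup.center G).index : ℝ) := by
    rw [← h3]
    refine h2.trans ?_
    rw [h1, ← Nat.card_eq_fintype_card, ← h4]
    push_cast
    exact le_refl _
  have hpos : (0 : ℝ) < Nat.card (Subgroup.center G) := by exact_mod_cast Nat.card_pos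
  have h6 := le_of_mul_le_mul_left h5 hpos
  exact_mod_cast h6

end Cfsg.Agent.Helper74
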